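import Cfsg.Agent.MaxSub.TensorPowU.Line
import Cfsg.Agent.MaxSub.TensorPow.Main

/-!
Tensor powers of the standard hermitian form: groups of isometries containing the special unitary
group of every factor, and the passage of a non-scalar parameter from the last factors to the whole
product.
-/

set_option autoImplicit false
set_option linter.unusedSectionVars false
set_option linter.style.haveILetI false
set_option maxHeartbeats 1000000

namespace Cfsg.Agent.MaxSub.TensorPowU

open Module Matrix Cfsg.Agent.Classical.U Cfsg.Agent.MaxSub.TensorPow Cfsg.Agent.GeoClasses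
open Cfsg.Agent.MaxSub.TensorU (exists_ne_pow herm_eq_zero_symm mem_of_isotropic eq_smul_of_isotropic)
open Cfsg.Agent.MaxSub.ExtField (Mem inv_apply_self self_inv_apply)

universe u

variable {F : Type u} [Field F] [Finite F] {m t q : ℕ}

/-- `G` preserves the product form. -/
def IsoT (q : ℕ) (G : Subgroup (Ten F m t ≃ₗ[F] Ten F m t)) : Prop :=
  ∀ g ∈ G, ∀ X Y, hm q (g X) (g Y) = hm q X Y

/-- The special unitary group of each factor lies in `G`. -/
def BaseU (q : ℕ) (G : Subgroup (Ten F m t ≃ₗ[F] Ten F m t)) : Prop :=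
  ∀ (j : Fin t), ∀ g ∈ SUG m F q,
    ∃ f ∈ G, ∀ us, f (pvec us) = pvec (Function.update us j (g.1 (us j)))

lemma hV_slice (X Y : Ten F m (t + 1)) :
    hV q (slice F m t X) (slice F m t Y) = hm q X Y := by
  rw [hm, sum_sigma_cons]
  rfl

lemma hm_slice (Z W : Fin m → Ten F m t) :
    hm q ((slice F m t).symm Z) ((slice F m t).symm W) = hV q Z W := by
  rw [← hV_slice, LinearEquiv.apply_symm_apply, LinearEquiv.apply_symm_apply]

lemma hm_pvec (us vs : Fin t → Fin m → F) :
    hm q (pvec us) (pvec vs) = ∏ i, herm q (us i) (vs i) := by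
  classical
  simp only [hm, pvec, herm_def, Fintype.prod_sum, ← Finset.prod_pow, ← Finset.prod_mul_distrib]

lemma hm_perm (σ : Equiv.Perm (Fin t)) (X Y : Ten F m t) :
    hm q (perm F m σ X) (perm F m σ Y) = hm q X Y :=
  Equiv.sum_comp (Equiv.arrowCongr σ.symm (Equiv.refl (Fin m))) (fun z => X z * Y z ^ q)

lemma isoT_conj {G : Subgroup (Ten F m t ≃ₗ[F] Ten F m t)} (hI : IsoT q G)
    (σ : Equiv.Perm (Fin t)) : IsoT q (conjG σ G) := by
  rintro _ ⟨g, hg, rfl⟩ X Y
  simp only [MulEquiv.coe_toMonoidHom, MulAut.conj_apply, LinearEquiv.mul_apply]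
  rw [hm_perm, hI g hg, ← hm_perm σ ((perm F m σ)⁻¹ X), self_inv_apply, self_inv_apply]

lemma baseU_conj {G : Subgroup (Ten F m t ≃ₗ[F] Ten F m t)} (hB : BaseU q G)
    (σ : Equiv.Perm (Fin t)) : BaseU q (conjG σ G) := fun j g hg => by
  obtain ⟨f, hf, hfx⟩ := hB (σ.symm j) g hg
  refine ⟨_, mem_conjG hf, fun us => ?_⟩
  rw [LinearEquiv.mul_apply, LinearEquiv.mul_apply, perm_inv, perm_pvec, hfx, perm_pvec]
  congr 1
  funext i
  rcases eq_or_ne i j with rfl | hi
  · simp
  · simp [Function.update_of_ne hi, Function.update_of_ne (σ.symm.injective.ne hi)]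

lemma ugrp_toS {G : Subgroup (Ten F m (t + 1) ≃ₗ[F] Ten F m (t + 1))} (hB : BaseU q G)
    (hI : IsoT q G) : UGrp q (G.map (toS F m t).toMonoidHom) where
  iso := by
    rintro _ ⟨g, hg, rfl⟩ X Y
    rw [MulEquiv.coe_toMonoidHom, toS_apply, toS_apply, hV_slice, hI g hg, hm_slice]
  su := fun g hg => by
    obtain ⟨f, hf, hfx⟩ := hB 0 g hg
    refine ⟨_, Subgroup.mem_map_of_mem _ hf, fun u w => ?_⟩
    refine LinearMap.congr_fun (ext_pvec (f := (toS F m t f).toLinearMap ∘ₗ ins u)
      (g := ins (g.1 u)) fun us => ?_) w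
    rw [LinearMap.comp_apply, LinearEquiv.coe_coe, toS_apply, slice_symm_ins_pvec, hfx,
      slice_pvec]
    simp

/-- Multiples of pure tensors. -/
lemma pvec_smul (c : Fin t → F) (us : Fin t → Fin m → F) :
    pvec (fun i => c i • us i) = (∏ i, c i) • pvec us := by
  funext z
  simp [pvec, Finset.prod_mul_distrib]

/-- The projection to a vector at one factor. -/
abbrev proj (q : ℕ) (j : Fin t) (u : Fin m → F) : Ten F m t →ₗ[F] Ten F m t :=
  Matrix.toLin' (pos j (vecMulVec u (cv q u)))

lemma proj_pvec (j : Fin t) (u : Fin m → F) (us : Fin t → Fin m → F) :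
    proj q j u (pvec us) = herm q (us j) u • pvec (Function.update us j u) := by
  rw [Matrix.toLin'_apply, pos_pvec, Matrix.vecMulVec_mulVec, cv_dot, op_smul_eq_smul,
    pvec_update_smul]

variable (hF : SqField F q)
include hF

/-- The transvections of each factor. -/
lemma base_trv {G : Subgroup (Ten F m t ≃ₗ[F] Ten F m t)} (hB : BaseU q G) (j : Fin t)
    {u : Fin m → F} {c : F} (hu : herm q u u = 0) (hc : c ^ q = -c) :
    Mem G (c • proj q j u) := by
  obtain ⟨f, hf, hfx⟩ := hB j _ (det_uni hF ((TrvCond.uniCond hF) (show TrvCond q u c from ⟨hu, hc⟩)))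
  refine ⟨f, hf, fun X => ?_⟩
  refine LinearMap.congr_fun (ext_pvec (f := f.toLinearMap) (g := LinearMap.id + c • proj q j u)
    fun us => ?_) X
  rw [LinearMap.add_apply, LinearMap.id_apply, LinearMap.smul_apply, proj_pvec, LinearEquiv.coe_coe,
    hfx, uni_apply]
  have h0 : herm q (us j) (0 : Fin m → F) = 0 := by simp [herm_def, hF.q_ne_zero]
  rw [smul_zero, add_zero, h0, sub_zero, pvec_update_add, Function.update_eq_self,
    pvec_update_smul, smul_smul]

/-- The isotropic pure tensors span. -/
lemma span_iso (hm2 : 2 ≤ m) (p : Submodule F (Ten F m t))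
    (hp : ∀ us : Fin t → Fin m → F, (∀ i, herm q (us i) (us i) = 0) → pvec us ∈ p) : p = ⊤ := by
  classical
  suffices ∀ (s : Finset (Fin t)) (us : Fin t → Fin m → F),
      (∀ i ∉ s, herm q (us i) (us i) = 0) → pvec us ∈ p by
    refine eq_top_iff.2 (span_pvec.ge.trans (Submodule.span_le.2 ?_))
    rintro _ ⟨us, rfl⟩
    exact this Finset.univ us (fun i hi => absurd (Finset.mem_univ i) hi)
  intro s
  induction s using Finset.induction with
  | empty => exact fun us h => hp us fun i => h i (Finset.notMem_empty i)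
  | @insert j s hj ih =>
    intro us h
    let L : (Fin m → F) →ₗ[F] Ten F m t :=
      { toFun := fun v => pvec (Function.update us j v)
        map_add' := fun v v' => pvec_update_add us j v v'
        map_smul' := fun c v => pvec_update_smul us j c v }
    have := mem_of_isotropic hF hm2 (p.comap L) (fun w hw => ih _ fun i hi => ?_) (us j)
    · rw [Submodule.mem_comap] at this
      simpa [L] using this
    · rcases eq_or_ne i j with rfl | hij
      · simp [hw]
      · rw [Function.update_of_ne hij]
        exact h i (by simp [hij, hi])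

/-- An operator with all isotropic pure tensors as eigenvectors is scalar. -/
theorem eigen_scalar (hm3 : 3 ≤ m) (Y : Ten F m t →ₗ[F] Ten F m t)
    (hY : ∀ us : Fin t → Fin m → F, (∀ i, us i ≠ 0 ∧ herm q (us i) (us i) = 0) →
      ∃ l : F, Y (pvec us) = l • pvec us) :
    ∃ l : F, Y = l • LinearMap.id := by
  classical
  obtain ⟨e, he0, he⟩ := TensorU.exists_isotropic hF (n := m) (by omega)
  have hline : ∀ (us : Fin t → Fin m → F) (j : Fin t), (∀ i, us i ≠ 0 ∧ herm q (us i) (us i) = 0) →
      ∃ k : F, ∀ w, w ≠ 0 → herm q w w = 0 →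
        Y (pvec (Function.update us j w)) = k • pvec (Function.update us j w) := by
    intro us j hus
    choose ψ hψ using fun i => exists_dot_one (hus i).1
    let L : (Fin m → F) →ₗ[F] Ten F m t :=
      { toFun := fun v => pvec (Function.update us j v)
        map_add' := fun v v' => pvec_update_add us j v v'
        map_smul' := fun c v => pvec_update_smul us j c v }
    let Φ : Ten F m t →ₗ[F] (Fin m → F) :=
      LinearMap.pi fun a => fprod (Function.update ψ j (Pi.single a 1))
    have hΦL : ∀ w, Φ (L w) = w := fun w => by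
      funext a
      show fprod (Function.update ψ j (Pi.single a 1)) (pvec (Function.update us j w)) = w a
      rw [fprod_pvec, Finset.prod_eq_single j (fun i _ hi => by
        rw [Function.update_of_ne hi, Function.update_of_ne hi, hψ]) (by simp)]
      simp
    have hev : ∀ w, w ≠ 0 → herm q w w = 0 → ∃ l : F, Y (L w) = l • L w := fun w hw0 hw =>
      hY _ fun i => by
        rcases eq_or_ne i j with rfl | hi
        · simp [hw0, hw]
        · rw [Function.update_of_ne hi]; exact hus i
    obtain ⟨k, hk⟩ := eq_smul_of_isotropic hF (by omega) (Φ ∘ₗ Y ∘ₗ L) fun w hw => by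
      rcases eq_or_ne w 0 with rfl | hw0
      · rw [map_zero, herm_zero_left]
      · obtain ⟨l, hl⟩ := hev w hw0 hw
        rw [LinearMap.comp_apply, LinearMap.comp_apply, hl, map_smul, hΦL, herm_smul_left, hw,
          mul_zero]
    refine ⟨k, fun w hw0 hw => ?_⟩
    obtain ⟨l, hl⟩ := hev w hw0 hw
    have h1 := LinearMap.congr_fun hk w
    rw [LinearMap.comp_apply, LinearMap.comp_apply, hl, map_smul, hΦL, LinearMap.smul_apply,
      LinearMap.id_apply] at h1
    rw [← smul_left_injective F hw0 h1]
    exact hl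
  obtain ⟨l, hl⟩ := hY (fun _ => e) fun _ => ⟨he0, he⟩
  refine ⟨l, sub_eq_zero.1 (LinearMap.ker_eq_top.1 (span_iso hF (by omega) _ fun us hus => ?_))⟩
  rw [LinearMap.mem_ker, LinearMap.sub_apply, LinearMap.smul_apply, LinearMap.id_apply, sub_eq_zero]
  by_cases h0 : ∀ i, us i ≠ 0
  swap
  · push Not at h0
    obtain ⟨i, hi⟩ := h0
    rw [pvec_eq_zero hi, map_zero, smul_zero]
  suffices ∀ s : Finset (Fin t),
      Y (pvec (s.piecewise us fun _ => e)) = l • pvec (s.piecewise us fun _ => e) by
    simpa using this Finset.univ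
  intro s
  induction s using Finset.induction with
  | empty => simpa using hl
  | @insert j s hj ih =>
    set vs := s.piecewise us fun _ => e
    have hvs : ∀ i, vs i ≠ 0 ∧ herm q (vs i) (vs i) = 0 := fun i => by
      by_cases hi : i ∈ s
      · simp only [vs, Finset.piecewise_eq_of_mem _ _ _ hi]; exact ⟨h0 i, hus i⟩
      · simp only [vs, Finset.piecewise_eq_of_notMem _ _ _ hi]; exact ⟨he0, he⟩
    obtain ⟨k, hk⟩ := hline vs j hvs
    have h1 := hk (vs j) (hvs j).1 (hvs j).2
    rw [Function.update_eq_self, ih] at h1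
    have hkl : l = k := smul_left_injective F (pvec_ne_zero fun i => (hvs i).1) h1
    rw [Finset.piecewise_insert, hkl]
    exact hk (us j) (h0 j) (hus j)

/-- A map commuting with the projections of all factors is scalar. -/
theorem scalar_of_commute (hm3 : 3 ≤ m) (Y : Ten F m t →ₗ[F] Ten F m t)
    (hY : ∀ (j : Fin t) (u : Fin m → F), u ≠ 0 → herm q u u = 0 →
      ∀ X, Y (proj q j u X) = proj q j u (Y X)) :
    ∃ l : F, Y = l • LinearMap.id := by
  classical
  refine eigen_scalar hF hm3 Y fun us hus => ?_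
  let V : Finset (Fin t) → Fin t → Matrix (Fin m) (Fin m) F := fun s i =>
    if i ∈ s then vecMulVec (us i) (cv q (us i)) else 1
  have hcomm : ∀ s X, Y (pureMat (V s) *ᵥ X) = pureMat (V s) *ᵥ Y X := by
    intro s
    induction s using Finset.induction with
    | empty => intro X; simp [V, pureMat_one]
    | @insert j s hj ih =>
      intro X
      have e : pureMat (V (insert j s)) = pos j (vecMulVec (us j) (cv q (us j))) * pureMat (V s) := by
        rw [pos, pureMat_mul]
        congr 1
        funext i
        rcases eq_or_ne i j with rfl | hi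
        · simp [V, hj]
        · simp [V, hi]
      have h1 := hY j (us j) (hus j).1 (hus j).2 (pureMat (V s) *ᵥ X)
      simp only [Matrix.toLin'_apply] at h1
      rw [e, ← Matrix.mulVec_mulVec, ← Matrix.mulVec_mulVec, h1, ih]
  have hV : ∀ X, pureMat (V Finset.univ) *ᵥ X = fprod (fun i => cv q (us i)) X • pvec us := by
    intro X
    refine LinearMap.congr_fun (ext_pvec (f := Matrix.toLin' (pureMat (V Finset.univ)))
      (g := (fprod fun i => cv q (us i)).smulRight (pvec us)) fun vs => ?_) X
    rw [Matrix.toLin'_apply, pureMat_pvec, LinearMap.smulRight_apply, fprod_pvec, ← pvec_smul]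
    congr 1
    funext i
    simp [V, Matrix.vecMulVec_mulVec, op_smul_eq_smul]
  choose y hy1 hy hy2 using fun i => exists_dual hF (hus i).1 (hus i).2
  have h1 : fprod (fun i => cv q (us i)) (pvec y) = 1 := by
    rw [fprod_pvec]
    exact Finset.prod_eq_one fun i _ => by rw [cv_dot, hy]
  refine ⟨fprod (fun i => cv q (us i)) (Y (pvec y)), ?_⟩
  rw [← hV, ← hcomm, hV, h1, one_smul]

omit hF in
lemma perm_mul (σ τ : Equiv.Perm (Fin t)) :
    perm F m (σ * τ) = perm F m σ * perm F m τ :=
  LinearEquiv.toLinearMap_injective (ext_pvec fun us => by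
    simp only [LinearEquiv.coe_coe, LinearEquiv.mul_apply, perm_pvec]
    rfl)

omit hF in
lemma conjG_conjG (σ τ : Equiv.Perm (Fin t)) (G : Subgroup (Ten F m t ≃ₗ[F] Ten F m t)) :
    conjG σ (conjG τ G) = conjG (σ * τ) G := by
  rw [conjG, conjG, conjG, Subgroup.map_map, perm_mul, map_mul]
  rfl

/-- A parameter of the last factors gives a parameter of the product. -/
theorem exists_param_of_tail (hm3 : 3 ≤ m)
    {G : Subgroup (Ten F m (t + 1 + 1) ≃ₗ[F] Ten F m (t + 1 + 1))} (hB : BaseU q G)
    {g : Ten F m (t + 1 + 1) ≃ₗ[F] Ten F m (t + 1 + 1)} (hg : g ∈ G)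
    {B : Matrix (Fin m) (Fin m) F} {κ : Ten F m (t + 1) ≃ₗ[F] Ten F m (t + 1)}
    (hgB : ∀ u w, toS F m (t + 1) g (ins u w) = ins (B *ᵥ u) (κ w))
    {v : Fin m → F} {Y : Ten F m t →ₗ[F] Ten F m t} (hv0 : v ≠ 0) (hv : herm q v v = 0)
    (hκ : ∀ Z, toS F m t κ Z = Z + root v (cv q v) Y Z)
    (hY : ∀ c : F, Y ≠ c • LinearMap.id) :
    ¬ NoPar q ((conjG (Equiv.swap 0 1) G).map (toS F m (t + 1)).toMonoidHom) := by
  classical
  obtain ⟨c, hc0, hc⟩ := hF.exists_skew
  obtain ⟨j, u, r, r', δ, hu, hrG, hrr', hδ⟩ : ∃ (j : Fin t) (u : Fin m → F)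
      (r r' : Ten F m t →ₗ[F] Ten F m t) (δ : Ten F m t →ₗ[F] Ten F m t), herm q u u = 0 ∧
      r = LinearMap.id + c • proj q j u ∧
      ((∀ p, r (r' p) = p) ∧ (∀ p, δ p = r (Y (r' p)) - Y p)) ∧ ∀ d : F, δ ≠ d • LinearMap.id := by
    by_contra hcon
    push Not at hcon
    obtain ⟨l, hl⟩ := scalar_of_commute hF hm3 Y fun j u hu0 hu X => by
      set E := proj q j u with hE
      have hEE : ∀ p, E (E p) = 0 := fun p => by
        refine LinearMap.congr_fun (ext_pvec (f := E ∘ₗ E) (g := 0) fun us => ?_) p
        rw [LinearMap.comp_apply, hE, proj_pvec, map_smul, proj_pvec, Function.update_self, hu]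
        simp
      set r := LinearMap.id + c • E with hr
      set r' := LinearMap.id - c • E with hr'
      have hrr : ∀ p, r (r' p) = p := fun p => by simp [hr, hr', hEE]
      obtain ⟨d, hd⟩ := hcon j u r r' (r ∘ₗ Y ∘ₗ r' - Y) hu rfl ⟨hrr, fun p => rfl⟩
      have hdp : ∀ p, r (Y (r' p)) - Y p = d • p := fun p => LinearMap.congr_fun hd p
      have hd0 : d = 0 := by
        obtain ⟨e, he0, he⟩ := TensorU.exists_isotropic hF (n := m) (by omega)
        obtain ⟨s, hs, hsu⟩ := exists_perp_notin' (by omega) (cv q u) hu0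
        rw [cv_dot] at hs
        obtain ⟨σ', hσ, hσu⟩ := exists_perp hsu
        obtain ⟨φ, hφ⟩ := exists_dot_one he0
        set f := fprod (Function.update (fun _ : Fin t => φ) j σ')
        have hfE : ∀ p, f (E p) = 0 := fun p => by
          refine LinearMap.congr_fun (ext_pvec (f := f ∘ₗ E) (g := 0) fun us => ?_) p
          rw [LinearMap.comp_apply, hE, proj_pvec, map_smul, fprod_pvec,
            Finset.prod_eq_zero (Finset.mem_univ j) (by
              simp [hσu u (Submodule.mem_span_singleton_self u)]), smul_zero]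
          rfl
        set p := pvec (Function.update (fun _ : Fin t => e) j s)
        have hfp : f p = 1 := by
          rw [fprod_pvec]
          refine Finset.prod_eq_one fun i _ => ?_
          rcases eq_or_ne i j with rfl | hi
          · simp [hσ]
          · simp [Function.update_of_ne hi, hφ]
        have hEp : E p = 0 := by
          rw [hE, proj_pvec, Function.update_self, hs, zero_smul]
        have h1 := congrArg f (hdp p)
        simp [hr, hr', hEp, hfE, hfp] at h1
        exact h1.symm
      have h1 := hdp (r X)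
      rw [show r' (r X) = X by simp [hr, hr', hEE], hd0, zero_smul, sub_eq_zero] at h1
      have h2 : c • E (Y X) = c • Y (E X) := by
        simpa [hr] using h1
      exact (smul_right_injective _ hc0 h2).symm
    exact hY l hl
  obtain ⟨hrr, hδe⟩ := hrr'
  obtain ⟨R, hR, hRx⟩ := base_trv hF hB j.succ.succ hu hc
  -- the action of `R` on the two slices
  have hRf : ∀ (a b : Fin m → F) (p : Ten F m t),
      toS F m (t + 1) R (ins a ((slice F m t).symm (ins b p))) =
        ins a ((slice F m t).symm (ins b (r p))) := fun a b p => by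
    refine LinearMap.congr_fun (ext_pvec
      (f := (toS F m (t + 1) R).toLinearMap ∘ₗ ins a ∘ₗ (slice F m t).symm.toLinearMap ∘ₗ ins b)
      (g := ins a ∘ₗ (slice F m t).symm.toLinearMap ∘ₗ ins b ∘ₗ r) fun us => ?_) p
    simp only [LinearMap.comp_apply, LinearEquiv.coe_coe, toS_apply, slice_symm_ins_pvec]
    rw [hRx, map_add, LinearMap.smul_apply, map_smul, proj_pvec, map_smul, hrG,
      LinearMap.add_apply, LinearMap.id_apply, LinearMap.smul_apply, proj_pvec, map_add, map_add,
      map_add, map_smul, map_smul, map_smul, map_smul, map_smul, map_smul]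
    simp only [Fin.cons_succ, slice_pvec]
    have e : (fun i => Function.update (Fin.cons a (Fin.cons b us : Fin (t + 1) → Fin m → F) :
        Fin (t + 1 + 1) → Fin m → F) j.succ.succ u (Fin.succ i)) =
        (Fin.cons b (Function.update us j u) : Fin (t + 1) → Fin m → F) := by
      funext i
      refine Fin.cases ?_ (fun i => ?_) i
      · rw [Function.update_of_ne ((Fin.succ_injective _).ne (Fin.succ_ne_zero j).symm),
          Fin.cons_succ, Fin.cons_zero, Fin.cons_zero]
      · rcases eq_or_ne i j with rfl | h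
        · rw [Function.update_self, Fin.cons_succ, Function.update_self]
        · rw [Function.update_of_ne ((Fin.succ_injective _).ne ((Fin.succ_injective _).ne h)),
            Fin.cons_succ, Fin.cons_succ, Fin.cons_succ, Function.update_of_ne h]
    rw [e, Function.update_of_ne (Fin.succ_ne_zero j.succ).symm, Fin.cons_zero, slice_symm_ins_pvec,
      slice_symm_ins_pvec]
  have hgf : ∀ (a b : Fin m → F) (p : Ten F m t),
      toS F m (t + 1) g (ins a ((slice F m t).symm (ins b p))) =
        ins (B *ᵥ a) ((slice F m t).symm (ins b p)) +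
          herm q b v • ins (B *ᵥ a) ((slice F m t).symm (ins v (Y p))) := fun a b p => by
    have h1 := hκ (ins b p)
    rw [root_apply, ev_ins, cv_dot, map_smul, map_smul, toS_apply, ← LinearEquiv.eq_symm_apply]
      at h1
    rw [hgB, h1, map_add, map_smul, map_add, map_smul]
  set K := R * g * R⁻¹ * g⁻¹ with hK
  have hKG : K ∈ G := G.mul_mem (G.mul_mem (G.mul_mem hR hg) (G.inv_mem hR)) (G.inv_mem hg)
  have hext : ∀ (f f' : (Fin m → Ten F m (t + 1)) →ₗ[F] (Fin m → Ten F m (t + 1))),
      (∀ (a b : Fin m → F) (p : Ten F m t), f (ins a ((slice F m t).symm (ins b p))) = f' (ins a ((slice F m t).symm (ins b p))))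
      → f = f' := by
    intro f f' h
    refine LinearMap.ext fun X => ext_ins (fun a W => ?_) X
    refine LinearMap.congr_fun (ext_pvec (f := f ∘ₗ ins a) (g := f' ∘ₗ ins a) fun us => ?_) W
    rw [LinearMap.comp_apply, LinearMap.comp_apply,
      show pvec us = (slice F m t).symm (ins (us 0) (pvec fun i => us i.succ)) by
        rw [← slice_pvec, LinearEquiv.symm_apply_apply], h]
  -- the commutator with `g`
  have hKg : ∀ a b p, toS F m (t + 1) (R * g * R⁻¹) (ins a ((slice F m t).symm (ins b p))) =
      ins (B *ᵥ a) ((slice F m t).symm (ins b p)) +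
        herm q b v • ins (B *ᵥ a) ((slice F m t).symm (ins v (r (Y (r' p))))) := fun a b p => by
    rw [map_mul, map_mul, map_inv, LinearEquiv.mul_apply, LinearEquiv.mul_apply]
    conv_lhs => rw [← hrr p]
    rw [← hRf, inv_apply_self, hgf, map_add, map_smul, hRf, hRf, hrr]
  have hBsurj : Function.Surjective B.mulVec := by
    refine (LinearMap.injective_iff_surjective (f := B.mulVecLin)).1 fun a a' haa => ?_
    by_contra hne
    haveI : Nonempty (Fin (t + 1) → Fin m) := ⟨fun _ => ⟨0, by omega⟩⟩
    obtain ⟨w, hw⟩ := exists_ne (0 : Ten F m (t + 1))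
    refine hw (ins_injective (sub_ne_zero.2 hne) ((toS F m (t + 1) g).injective ?_))
    rw [hgB, map_zero, map_zero, Matrix.mulVec_sub,
      show B *ᵥ a = B *ᵥ a' from haa, sub_self, ins_zero]
  have hKf : ∀ a b p, toS F m (t + 1) K (ins a ((slice F m t).symm (ins b p))) =
      ins a ((slice F m t).symm (ins b p)) +
        herm q b v • ins a ((slice F m t).symm (ins v (δ p))) := fun a b p => by
    obtain ⟨a, rfl⟩ := hBsurj a
    -- the inverse of `g` at the pure tensor
    have h1 : (toS F m (t + 1) g)⁻¹ (ins (B *ᵥ a) ((slice F m t).symm (ins b p))) =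
        ins a ((slice F m t).symm (ins b p)) -
          herm q b v • ins a ((slice F m t).symm (ins v (Y p))) := by
      refine (toS F m (t + 1) g).injective ?_
      rw [self_inv_apply, map_sub, map_smul, hgf, hgf, hv, zero_smul, add_zero, add_sub_cancel_right]
    rw [hK, map_mul, map_inv, LinearEquiv.mul_apply, h1, map_sub, map_smul, hKg, hKg, hv,
      zero_smul, add_zero, hδe, map_sub (ins v), map_sub, map_sub, smul_sub]
    abel
  set σ : Equiv.Perm (Fin (t + 1 + 1)) := Equiv.swap 0 1 with hσ
  have hswap : ∀ (a b : Fin m → F) (p : Ten F m t),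
      toS F m (t + 1) (perm F m σ) (ins a ((slice F m t).symm (ins b p))) =
        ins b ((slice F m t).symm (ins a p)) := fun a b p => by
    refine LinearMap.congr_fun (ext_pvec
      (f := (toS F m (t + 1) (perm F m σ)).toLinearMap ∘ₗ ins a ∘ₗ
        (slice F m t).symm.toLinearMap ∘ₗ ins b)
      (g := ins b ∘ₗ (slice F m t).symm.toLinearMap ∘ₗ ins a) fun us => ?_) p
    simp only [LinearMap.comp_apply, LinearEquiv.coe_coe, toS_apply, slice_symm_ins_pvec, perm_pvec,
      slice_pvec, hσ, Equiv.symm_swap, Equiv.swap_apply_left]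
    rw [show (1 : Fin (t + 1 + 1)) = Fin.succ 0 from rfl, Fin.cons_succ, Fin.cons_zero]
    congr 2
    funext i
    refine Fin.cases ?_ (fun i => ?_) i
    · simp [Equiv.swap_apply_right]
    · rw [Equiv.swap_apply_of_ne_of_ne (Fin.succ_ne_zero _)
        ((Fin.succ_injective _).ne (Fin.succ_ne_zero i)), Fin.cons_succ, Fin.cons_succ,
        Fin.cons_succ]
  let Y' : Ten F m (t + 1) →ₗ[F] Ten F m (t + 1) :=
    (slice F m t).symm.toLinearMap ∘ₗ LinearMap.compLeft δ (Fin m) ∘ₗ (slice F m t).toLinearMap
  have hY' : ∀ b p, Y' ((slice F m t).symm (ins b p)) = (slice F m t).symm (ins b (δ p)) :=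
    fun b p => by
      simp only [Y', LinearMap.comp_apply, LinearEquiv.coe_coe, LinearEquiv.apply_symm_apply]
      congr 1
      funext i
      exact map_smul δ (b i) p
  intro hP
  obtain ⟨d, hd⟩ := hP v Y' hv0 hv ⟨_, Subgroup.mem_map_of_mem _ (mem_conjG hKG), fun Z => by
    refine LinearMap.congr_fun (hext
      (toS F m (t + 1) (perm F m σ * K * (perm F m σ)⁻¹)).toLinearMap
      (LinearMap.id + root v (cv q v) Y') fun a b p => ?_) Z
    rw [LinearEquiv.coe_coe, perm_inv, show σ.symm = σ from Equiv.symm_swap _ _, map_mul, map_mul,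
      LinearEquiv.mul_apply, LinearEquiv.mul_apply, hswap, hKf, map_add, map_smul, hswap, hswap,
      LinearMap.add_apply, LinearMap.id_apply, root_apply, ev_ins, cv_dot, map_smul, map_smul, hY']⟩
  obtain ⟨b, hb⟩ : ∃ b : Fin m → F, b ≠ 0 := ⟨v, hv0⟩
  refine hδ d (LinearMap.ext fun p => ?_)
  have h1 := LinearMap.congr_fun hd ((slice F m t).symm (ins b p))
  rw [hY', LinearMap.smul_apply, LinearMap.id_apply, ← map_smul, ← map_smul] at h1
  exact ins_injective hb ((slice F m t).symm.injective h1)

end Cfsg.Agent.MaxSub.TensorPowU
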