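import Cfsg.Agent.MaxSub.TensorPowU.Centres
import Cfsg.Agent.MaxSub.TensorPowU.Tens

/-!
If all isotropic pure tensors of the last factors give centres, all vectors do.
-/

set_option autoImplicit false
set_option linter.unusedSectionVars false
set_option linter.style.haveILetI false
set_option maxHeartbeats 1000000

namespace Cfsg.Agent.MaxSub.TensorPowU

open Module Matrix Cfsg.Agent.Classical.U Cfsg.Agent.MaxSub.TensorPow
open Cfsg.Agent.MaxSub.TensorU (exists_partner herm_eq_zero_symm exists_isotropic perpTwo
  mem_perpTwo finrank_perpTwo nondeg_perpTwo mem_of_isotropic zero_of_semilinear)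
open Cfsg.Agent.MaxSub.ExtField (Mem inv_apply_self self_inv_apply)

universe u

variable {F : Type u} [Field F] [Finite F] {m t q : ℕ}

/-- The special unitary group of each of the last factors lies in `G`. -/
def TailBase (q : ℕ) (G : Subgroup ((Fin m → Ten F m t) ≃ₗ[F] (Fin m → Ten F m t))) : Prop :=
  ∀ (j : Fin t), ∀ g ∈ SUG m F q, ∃ f ∈ G, ∀ (a : Fin m → F) (us : Fin t → Fin m → F),
    f (ins a (pvec us)) = ins a (pvec (Function.update us j (g.1 (us j))))

/-- Pure tensors with factors in spanning sets span. -/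
lemma span_sel (P : Fin t → Set (Fin m → F)) (hP : ∀ i, Submodule.span F (P i) = ⊤)
    (p : Submodule F (Ten F m t))
    (hp : ∀ us : Fin t → Fin m → F, (∀ i, us i ∈ P i) → pvec us ∈ p) : p = ⊤ := by
  classical
  suffices ∀ (s : Finset (Fin t)) (us : Fin t → Fin m → F),
      (∀ i ∉ s, us i ∈ P i) → pvec us ∈ p by
    refine eq_top_iff.2 (span_pvec.ge.trans (Submodule.span_le.2 ?_))
    rintro _ ⟨us, rfl⟩
    exact this Finset.univ us (fun i hi => absurd (Finset.mem_univ i) hi)
  intro s
  induction s using Finset.induction with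
  | empty => exact fun us h => hp us fun i => h i (Finset.notMem_empty i)
  | @insert j s hj ih =>
    intro us h
    let L : (Fin m → F) →ₗ[F] Ten F m t :=
      { toFun := fun v => pvec (Function.update us j v)
        map_add' := fun v v' => pvec_update_add us j v v'
        map_smul' := fun c v => pvec_update_smul us j c v }
    have hle : Submodule.span F (P j) ≤ p.comap L := Submodule.span_le.2 fun w hw => ih _ fun i hi => by
      rcases eq_or_ne i j with rfl | hij
      · rwa [Function.update_self]
      · rw [Function.update_of_ne hij]; exact h i (by simp [hij, hi])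
    have := hle ((hP j).ge (Submodule.mem_top (x := us j)))
    rw [Submodule.mem_comap] at this
    simpa [L] using this

variable (hF : SqField F q)
include hF

/-- An anisotropic vector orthogonal to a pair. -/
lemma exists_aniso_perp (hm3 : 3 ≤ m) {a b : Fin m → F} (hp : IsUPair q a b) :
    ∃ s, herm q s a = 0 ∧ herm q s b = 0 ∧ herm q s s ≠ 0 := by
  by_contra hcon
  push Not at hcon
  obtain ⟨x, hx, hx0⟩ := Submodule.exists_mem_ne_zero_of_ne_bot
    (show perpTwo q a b ≠ ⊥ from fun h0 => by
      have := finrank_perpTwo (q := q) a b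
      rw [h0, finrank_bot] at this
      omega)
  obtain ⟨y, hy, hyx⟩ := nondeg_perpTwo hF hp hx hx0
  refine hyx (zero_of_semilinear hF (A := herm q y x) (B := herm q x y) fun c => ?_).1
  have h := Submodule.add_mem _ hx ((perpTwo q a b).smul_mem c hy)
  have h1 := hcon _ (mem_perpTwo.1 h).1 (mem_perpTwo.1 h).2
  simp only [herm_add_left, hF.herm_add_right, herm_smul_left, herm_smul_right,
    hcon x (mem_perpTwo.1 hx).1 (mem_perpTwo.1 hx).2,
    hcon y (mem_perpTwo.1 hy).1 (mem_perpTwo.1 hy).2] at h1
  linear_combination h1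

/-- The isotropic vectors not orthogonal to an isotropic one span. -/
lemma span_nonorth (hm3 : 3 ≤ m) {x : Fin m → F} (hx0 : x ≠ 0) (hx : herm q x x = 0) :
    Submodule.span F {w : Fin m → F | herm q w w = 0 ∧ herm q w x ≠ 0} = ⊤ := by
  set S := {w : Fin m → F | herm q w w = 0 ∧ herm q w x ≠ 0}
  refine eq_top_iff.2 fun y _ => mem_of_isotropic hF (by omega) _ (fun w hw => ?_) y
  by_cases hwx : herm q w x = 0
  swap
  · exact Submodule.subset_span ⟨hw, hwx⟩
  obtain ⟨f, hf⟩ := exists_partner hF hx0 hx
  have hfx : herm q f x = 1 := (hf.symm hF).2.2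
  have hxw := herm_eq_zero_symm hF hwx
  obtain ⟨c, hc0, hc⟩ := hF.exists_skew
  have hfS : f ∈ Submodule.span F S := Submodule.subset_span ⟨hf.2.1, by rw [hfx]; exact one_ne_zero⟩
  by_cases hfw : herm q f w = 0
  · have hfw' := herm_eq_zero_symm hF hfw
    have h1 : w + f ∈ Submodule.span F S := Submodule.subset_span ⟨by
      simp [herm_add_left, hF.herm_add_right, hw, hf.2.1, hfw, hfw'], by
      rw [herm_add_left, hwx, hfx, zero_add]; exact one_ne_zero⟩
    simpa using sub_mem h1 hfS
  · have hk : c * herm q f w ≠ 0 := mul_ne_zero hc0 hfw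
    have h1 : f + (c * herm q f w) • w ∈ Submodule.span F S := Submodule.subset_span ⟨by
      simp only [herm_add_left, hF.herm_add_right, herm_smul_left, herm_smul_right, hf.2.1, hw,
        mul_pow, hc, ← hF.herm_symm f w]
      ring, by
      rw [herm_add_left, herm_smul_left, hwx, hfx, mul_zero, add_zero]; exact one_ne_zero⟩
    have h2 := Submodule.smul_mem _ (c * herm q f w)⁻¹ (sub_mem h1 hfS)
    rwa [add_sub_cancel_left, inv_smul_smul₀ hk] at h2

/-- A fixed non-zero scalar avoiding `-1/N`. -/
lemma exists_gamma (hq : 3 ≤ q) (N : F) : ∃ γ : F, γ ^ q = γ ∧ γ ≠ 0 ∧ 1 + γ * N ≠ 0 := by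
  by_cases h : 1 + N = 0
  · obtain ⟨x, hx0, hx⟩ : ∃ x : F, x ≠ 0 ∧ x ^ (q + 1) ≠ 1 := by
      by_contra hcon
      push Not at hcon
      haveI := Fintype.ofFinite F
      have h3 : Nat.card Fˣ ≤ q + 1 := by
        rw [← hF.card_norm_one]
        exact Nat.card_le_card_of_injective
          (fun x : Fˣ => (⟨(x : F), hcon _ x.ne_zero⟩ : {x : F // x ^ (q + 1) = 1}))
          fun x y hxy => Units.ext (congrArg Subtype.val hxy)
      rw [hF.card_units] at h3
      have : 2 * (q + 1) ≤ (q - 1) * (q + 1) := Nat.mul_le_mul_right _ (by omega)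
      omega
    refine ⟨x ^ (q + 1), ?_, pow_ne_zero _ hx0, fun h0 => hx ?_⟩
    · rw [pow_succ, mul_pow, hF.pow_pow, mul_comm]
    · linear_combination x ^ (q + 1) * h - h0
  · exact ⟨1, one_pow q, one_ne_zero, by rwa [one_mul]⟩

variable {G : Subgroup ((Fin m → Ten F m t) ≃ₗ[F] (Fin m → Ten F m t))}

lemma ZSet.smul {z : Ten F m t} (h : ZSet q G z) (k : F) : ZSet q G (k • z) := fun v hv => by
  rw [map_smul]; exact (h v hv).smul hF k

/-- All vectors by the commutators of pairs. -/
lemma zset_four (hm4 : 4 ≤ m)
    (hz : ∀ us : Fin t → Fin m → F, (∀ i, herm q (us i) (us i) = 0) → ZSet q G (pvec us))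
    (z : Ten F m t) : ZSet q G z := by
  intro v hv
  rcases eq_or_ne v 0 with rfl | hv0
  · rw [ins_zero]; exact isCent_zero hF
  let L : Ten F m t → Submodule F (Ten F m t) := fun z =>
    { carrier := {z' | Kel q G v z z'}
      add_mem' := fun h h' => Kel.add hF hv h h'
      zero_mem' := Kel.zero hF
      smul_mem' := fun k _ h => Kel.smul hF h k }
  have h1 : ∀ us : Fin t → Fin m → F, (∀ i, us i ≠ 0 ∧ herm q (us i) (us i) = 0) →
      L (pvec us) = ⊤ := fun us hus =>
    span_sel (fun i => {w | herm q w w = 0 ∧ herm q w (us i) ≠ 0})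
      (fun i => span_nonorth hF (by omega) (hus i).1 (hus i).2) _ fun ws hws =>
        kel_of_pair hF hm4 hv0 hv (hz us fun i => (hus i).2) (hz ws fun i => (hws i).1) (by
          rw [hm_pvec]
          exact Finset.prod_ne_zero_iff.2 fun i _ => (hws i).2)
  have h2 : ∀ z', L z' = ⊤ := fun z' => span_iso hF (by omega) _ fun us hus => by
    by_cases h0 : ∀ i, us i ≠ 0
    · exact Kel.symm hF ((h1 us fun i => ⟨h0 i, hus i⟩).ge (Submodule.mem_top (x := z')))
    · push Not at h0
      obtain ⟨i, hi⟩ := h0
      rw [pvec_eq_zero hi]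
      exact Kel.zero hF
  intro s hs
  obtain ⟨θ, hθ⟩ := hF.exists_trace (c := (1 : F)) (one_pow q)
  have h3 : Kel q G v z z := (h2 z).ge (Submodule.mem_top (x := z))
  refine (h3 (θ * s)).congr fun X => ?_
  rw [LinearMap.sub_apply, LinearMap.smul_apply, LinearMap.smul_apply, LinearMap.smul_apply,
    ← sub_smul, mul_pow, hs]
  congr 1
  linear_combination s * hθ

/-- All vectors by the moves of centres. -/
lemma zset_big (hm3 : 3 ≤ m) (hq : 3 ≤ q) (hG : UGrp q G) (hB : TailBase q G)
    (hz : ∀ us : Fin t → Fin m → F, (∀ i, herm q (us i) (us i) = 0) → ZSet q G (pvec us))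
    (z : Ten F m t) : ZSet q G z := by
  classical
  have hpure : ∀ (s : Finset (Fin t)) (us : Fin t → Fin m → F),
      (∀ i ∉ s, herm q (us i) (us i) = 0) → ZSet q G (pvec us) := by
    intro s
    induction s using Finset.induction with
    | empty => exact fun us h => hz us fun i => h i (Finset.notMem_empty i)
    | @insert j s hj ih =>
      intro us h
      by_cases h0 : ∀ i, us i ≠ 0
      swap
      · push Not at h0
        obtain ⟨i, hi⟩ := h0
        rw [pvec_eq_zero hi]
        intro v _
        rw [map_zero]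
        exact isCent_zero hF
      by_cases hx : herm q (us j) (us j) = 0
      · refine ih us fun i hi => ?_
        rcases eq_or_ne i j with rfl | hij
        · exact hx
        · exact h i (by simp [hij, hi])
      obtain ⟨a, ha0, ha⟩ := exists_isotropic hF (n := m) (by omega)
      obtain ⟨b, hp⟩ := exists_partner hF ha0 ha
      obtain ⟨-, hb, hab⟩ := id hp
      have hba : herm q b a = 1 := (hp.symm hF).2.2
      obtain ⟨s', hsa, hsb, hss⟩ := exists_aniso_perp hF hm3 hp
      have has := herm_eq_zero_symm hF hsa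
      have hbs := herm_eq_zero_symm hF hsb
      obtain ⟨α, hα⟩ := hF.exists_trace (c := -herm q s' s') (by rw [hF.neg_pow, hF.herm_symm])
      set y := α • a + b + s' with hy
      have hyy : herm q y y = 0 := by
        simp only [hy, herm_add_left, hF.herm_add_right, herm_smul_left, herm_smul_right, ha, hb,
          hab, hba, hsa, hsb, has, hbs]
        linear_combination hα
      have hya : herm q y b = α := by
        simp [hy, herm_add_left, herm_smul_left, hab, hb, hsb]
      have hay : herm q a y = 1 := by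
        simp [hy, hF.herm_add_right, herm_smul_right, hab, ha, has]
      have hr : ∀ i, ∃ r, herm q (us i) r ≠ 0 ∧ (herm q r r = 0 ∨ r = us i) := fun i => by
        by_cases hi : herm q (us i) (us i) = 0
        · obtain ⟨p, hp'⟩ := exists_partner hF (h0 i) hi
          exact ⟨p, by rw [hp'.2.2]; exact one_ne_zero, Or.inl hp'.2.1⟩
        · exact ⟨us i, hi, Or.inr rfl⟩
      choose r hr1 hr2 using hr
      have hout : ∀ i ∉ s, i ≠ j → herm q (us i) (us i) = 0 := fun i hi hij => h i (by simp [hij, hi])
      have hmem : ∀ w, herm q w w = 0 → ZSet q G (pvec (Function.update us j w)) := fun w hw =>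
        ih _ fun i hi => by
          rcases eq_or_ne i j with rfl | hij
          · rwa [Function.update_self]
          · rw [Function.update_of_ne hij]; exact hout i hi hij
      have hmem2 : ZSet q G (pvec (Function.update r j y)) := ih _ fun i hi => by
        rcases eq_or_ne i j with rfl | hij
        · rwa [Function.update_self]
        · rw [Function.update_of_ne hij]
          rcases hr2 i with h1 | h1
          · exact h1
          · rw [h1]; exact hout i hi hij
      set H := ∏ i ∈ Finset.univ.erase j, herm q (us i) (r i)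
      have hH : H ≠ 0 := Finset.prod_ne_zero_iff.2 fun i _ => hr1 i
      have h12 : ∀ w w', hm q (pvec (Function.update us j w)) (pvec (Function.update r j w')) =
          herm q w w' * H := fun w w' => by
        rw [hm_pvec, ← Finset.mul_prod_erase _ _ (Finset.mem_univ j), Function.update_self,
          Function.update_self]
        congr 1
        exact Finset.prod_congr rfl fun i hi => by
          rw [Function.update_of_ne (Finset.ne_of_mem_erase hi),
            Function.update_of_ne (Finset.ne_of_mem_erase hi)]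
      have hα0 : α ≠ 0 := fun h1 => hss (by
        rw [h1, zero_pow hF.q_ne_zero, add_zero, eq_comm, neg_eq_zero] at hα; exact hα)
      have h23 : hm q (pvec (Function.update r j y)) (pvec (Function.update us j b)) =
          α * H ^ q := by
        rw [← hm_symm hF, h12, mul_pow, hF.herm_symm, hya]
      obtain ⟨γ, hγ, hγ0, hγN⟩ := exists_gamma hF hq ((α * H ^ q) ^ (q + 1))
      have key := ZSet.step hF hG (hmem a ha) hmem2 (hmem b hb) hγ (by rwa [h23])
      rw [h12, h23, hay, one_mul, ← pvec_update_smul, ← pvec_update_add] at key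
      set ρ := γ * H * (α * H ^ q) with hρ
      have hμ : herm q (a + ρ • b) (a + ρ • b) ≠ 0 := by
        have e : herm q (a + ρ • b) (a + ρ • b) = ρ ^ q + ρ := by
          simp [herm_add_left, hF.herm_add_right, herm_smul_left, herm_smul_right, ha, hb, hab, hba]
          ring
        rw [e, hρ, show (γ * H * (α * H ^ q)) ^ q + γ * H * (α * H ^ q) =
          γ * H * H ^ q * (α + α ^ q) by
            rw [mul_pow, mul_pow, mul_pow, hF.pow_pow, hγ]; ring, hα]
        exact mul_ne_zero (mul_ne_zero (mul_ne_zero hγ0 hH) (pow_ne_zero q hH)) (neg_ne_zero.2 hss)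
      set x₁ := a + ρ • b
      obtain ⟨k, hk⟩ := hF.exists_norm (c := herm q (us j) (us j) / herm q x₁ x₁)
        (by rw [div_pow, hF.herm_symm, hF.herm_symm])
      have hkx : herm q (k • x₁) (k • x₁) = herm q (us j) (us j) := by
        rw [herm_smul_left, herm_smul_right, ← mul_assoc, ← pow_succ', hk, div_mul_cancel₀ _ hμ]
      obtain ⟨g, hg, hgx⟩ := TensorU.SUG_transitive_norm hF (by omega) hkx
        (by rw [hkx]; exact hx)
      obtain ⟨f, hf, hfx⟩ := hB j g hg
      intro v hv
      have h4 := ((ZSet.smul hF key k) v hv).map hF hG hf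
      rwa [← pvec_update_smul, hfx, Function.update_self, Function.update_idem, hgx,
        Function.update_eq_self] at h4
  have hsingle : ∀ x : Fin t → Fin m, ZSet q G (Pi.single x (1 : F)) := fun x => by
    rw [← pvec_single x]
    exact hpure Finset.univ _ fun i hi => absurd (Finset.mem_univ i) hi
  -- the scalar of a combination
  have comb : ∀ (z₁ z₂ z₃ : Ten F m t) (ρ : F), ZSet q G z₁ → ZSet q G z₂ → ZSet q G z₃ →
      ∀ γ, γ ^ q = γ → 1 + γ * hm q z₂ z₃ ^ (q + 1) ≠ 0 →
      γ * hm q z₁ z₂ * hm q z₂ z₃ = ρ → ZSet q G (z₁ + ρ • z₃) := by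
    rintro z₁ z₂ z₃ _ h1 h2 h3 γ hγ hne rfl
    exact ZSet.step hF hG h1 h2 h3 hγ hne
  obtain ⟨γ, hγ, hγ0, hγ1⟩ := exists_gamma hF hq (1 : F)
  have hγ1' : 1 + γ * (1 : F) ^ (q + 1) ≠ 0 := by rwa [one_pow]
  have two : ∀ (x x' : Fin t → Fin m), x ≠ x' → ∀ ρ : F,
      ZSet q G (Pi.single x 1 + ρ • Pi.single x' (1 : F)) := by
    intro x x' hxx ρ
    obtain ⟨i₀, hi₀⟩ := Function.ne_iff.1 hxx
    set p := (ρ / γ) ^ q
    let y : Fin t → Fin m → F := fun i =>
      if i = i₀ then p • Pi.single (x i) 1 + Pi.single (x' i) 1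
      else if x i = x' i then Pi.single (x i) 1 else Pi.single (x i) 1 + Pi.single (x' i) 1
    have hs : ∀ a b : Fin m, herm q (Pi.single a (1 : F)) (Pi.single b 1) =
        if a = b then 1 else 0 := fun a b => by
      rw [herm_single_one _ hF.q_ne_zero, Pi.single_apply]
      exact if_congr eq_comm rfl rfl
    have e1 : hm q (Pi.single x (1 : F)) (pvec y) = p ^ q := by
      rw [← pvec_single x, hm_pvec, Finset.prod_eq_single i₀ (fun i _ hi => ?_) (by simp)]
      · simp [y, hF.herm_add_right, herm_smul_right, hs, hi₀]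
      · by_cases h1 : x i = x' i <;> simp [y, hi, h1, hF.herm_add_right, hs]
    have e2 : hm q (pvec y) (Pi.single x' (1 : F)) = 1 := by
      rw [← pvec_single x', hm_pvec, Finset.prod_eq_single i₀ (fun i _ hi => ?_) (by simp)]
      · simp [y, herm_add_left, herm_smul_left, hs, hi₀]
      · by_cases h1 : x i = x' i <;> simp [y, hi, h1, herm_add_left, hs]
    refine comb _ (pvec y) _ ρ (hsingle x) (hpure Finset.univ _ fun i hi => absurd (Finset.mem_univ i) hi)
      (hsingle x') γ hγ (by rwa [e2]) ?_
    rw [e1, e2, mul_one, hF.pow_pow, mul_div_cancel₀ _ hγ0]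
  suffices ∀ T : Finset (Fin t → Fin m), ZSet q G (∑ x ∈ T, z x • Pi.single x (1 : F)) by
    rw [show z = ∑ x, z x • Pi.single x (1 : F) from pi_eq_sum_univ' z]
    exact this Finset.univ
  intro T
  induction T using Finset.induction with
  | empty => intro v _; rw [Finset.sum_empty, map_zero]; exact isCent_zero hF
  | @insert x T hx ih =>
    rw [Finset.sum_insert hx, add_comm]
    by_cases hT : ∀ x' ∈ T, z x' = 0
    · rw [Finset.sum_eq_zero fun x' h => by rw [hT x' h, zero_smul], zero_add]
      exact ZSet.smul hF (hsingle x) _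
    push Not at hT
    obtain ⟨x', hx', hz'⟩ := hT
    have hne : x ≠ x' := fun h => hx (h ▸ hx')
    set α := (z x / (γ * z x')) ^ q
    have e2 : hm q (Pi.single x (1 : F) + α • Pi.single x' 1) (Pi.single x 1) = 1 := by
      simp [hm, Pi.single_apply, hne, hF.q_ne_zero]
    have e1 : hm q (∑ y ∈ T, z y • Pi.single y (1 : F))
        (Pi.single x 1 + α • Pi.single x' 1) = z x' * α ^ q := by
      simp [hm, Pi.single_apply, Finset.sum_apply, hF.add_pow, mul_add, Finset.sum_add_distrib,
        hx, hx', hF.q_ne_zero]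
    refine comb _ _ _ _ ih (two x x' hne α) (hsingle x) γ hγ (by rwa [e2]) ?_
    rw [e1, e2, mul_one, hF.pow_pow]
    field_simp

/-- All vectors. -/
theorem zset_all (hm3 : 3 ≤ m) (hex : ¬ (q = 2 ∧ m = 3)) (hG : UGrp q G) (hB : TailBase q G)
    (hz : ∀ us : Fin t → Fin m → F, (∀ i, herm q (us i) (us i) = 0) → ZSet q G (pvec us))
    (z : Ten F m t) : ZSet q G z := by
  rcases Nat.lt_or_ge q 3 with hq | hq
  · refine zset_four hF ?_ hz z
    have := hF.one_lt
    rcases Nat.lt_or_ge m 4 with h | h
    · exact absurd ⟨by omega, by omega⟩ hex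
    · exact h
  · exact zset_big hF hm3 hq hG hB hz z

end Cfsg.Agent.MaxSub.TensorPowU
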