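import Cfsg.Agent.MaxSub.TensorPowU.Main
import Cfsg.Agent.MaxSub.TensorPowU.ZAll

/-!
A non-scalar parameter gives all transvections of the tensor power.
-/

set_option autoImplicit false
set_option linter.unusedSectionVars false
set_option linter.style.haveILetI false
set_option maxHeartbeats 1000000

namespace Cfsg.Agent.MaxSub.TensorPowU

open Module Matrix Cfsg.Agent.Classical.U Cfsg.Agent.MaxSub.TensorPow Cfsg.Agent.GeoClasses
open Cfsg.Agent.MaxSub.TensorU (exists_partner exists_ne_pow herm_eq_zero_symm exists_second_pair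
  exists_isotropic eq_smul_of_isotropic dualF dualF_apply)
open Cfsg.Agent.MaxSub.ExtField (Mem mem_zero inv_apply_self self_inv_apply)

universe u

variable {F : Type u} [Field F] {m t q : ℕ}

/-- The parameters of all isotropic vectors. -/
def IsP (q : ℕ) {κ : Type} [Fintype κ]
    (G : Subgroup ((Fin m → κ → F) ≃ₗ[F] (Fin m → κ → F))) (Y : (κ → F) →ₗ[F] (κ → F)) : Prop :=
  ∀ v : Fin m → F, herm q v v = 0 → Mem G (root v (cv q v) Y)

/-- All transvections of the product. -/
def AllT (q : ℕ) (H : Subgroup (Ten F m t ≃ₗ[F] Ten F m t)) : Prop :=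
  ∀ M : Ten F m t, hm q M M = 0 → ∀ c : F, c ^ q = -c →
    ∃ g ∈ H, ∀ X, g X = X + (c * hm q X M) • M

/-- The map `x ↦ h(x, b) a` at one factor. -/
abbrev rr (q : ℕ) (j : Fin t) (a b : Fin m → F) : Ten F m t →ₗ[F] Ten F m t :=
  Matrix.toLin' (pos j (vecMulVec a (cv q b)))

lemma rr_pvec (j : Fin t) (a b : Fin m → F) (us : Fin t → Fin m → F) :
    rr q j a b (pvec us) = herm q (us j) b • pvec (Function.update us j a) := by
  rw [Matrix.toLin'_apply, pos_pvec, Matrix.vecMulVec_mulVec, cv_dot, op_smul_eq_smul,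
    pvec_update_smul]

lemma proj_zero [Finite F] (hq : q ≠ 0) (j : Fin t) (X : Ten F m t) :
    proj q j (0 : Fin m → F) X = 0 := by
  refine LinearMap.congr_fun (ext_pvec (f := proj q j (0 : Fin m → F)) (g := 0) fun us => ?_) X
  rw [proj_pvec, pvec_eq_zero (i := j) (by simp), smul_zero, LinearMap.zero_apply]

lemma rr_rr (j : Fin t) (a b c d : Fin m → F) (X : Ten F m t) :
    rr q j a b (rr q j c d X) = herm q c b • rr q j a d X := by
  refine LinearMap.congr_fun (ext_pvec (f := rr q j a b ∘ₗ rr q j c d)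
    (g := herm q c b • rr q j a d) fun us => ?_) X
  rw [LinearMap.comp_apply, LinearMap.smul_apply, rr_pvec, map_smul, rr_pvec, rr_pvec,
    Function.update_self, Function.update_idem, smul_smul, smul_smul, mul_comm]

/-- The product of the projections at the positions of `s`. -/
abbrev prj (q : ℕ) (s : Finset (Fin t)) (w : Fin t → Fin m → F) : Ten F m t →ₗ[F] Ten F m t :=
  Matrix.toLin' (pureMat fun i => if i ∈ s then vecMulVec (w i) (cv q (w i)) else 1)

lemma prj_insert {s : Finset (Fin t)} {j : Fin t} (hj : j ∉ s) (w : Fin t → Fin m → F)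
    (X : Ten F m t) :
    prj q (insert j s) w X = proj q j (w j) (prj q s w X) ∧
      prj q (insert j s) w X = prj q s w (proj q j (w j) X) := by
  simp only [Matrix.toLin'_apply, Matrix.mulVec_mulVec, pos, pureMat_mul]
  constructor <;> congr 2 <;> funext i <;> rcases eq_or_ne i j with rfl | hi <;> simp_all

lemma prj_univ [Finite F] (w : Fin t → Fin m → F) (X : Ten F m t) :
    prj q Finset.univ w X = hm q X (pvec w) • pvec w := by
  classical
  refine LinearMap.congr_fun (ext_pvec (f := prj q Finset.univ w)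
    (g := ({ toFun := fun X => hm q X (pvec w) • pvec w
             map_add' := fun X Y => by rw [hm_add_left, add_smul]
             map_smul' := fun c X => by rw [RingHom.id_apply, hm_smul_left, smul_smul] } :
      Ten F m t →ₗ[F] Ten F m t)) fun us => ?_) X
  rw [Matrix.toLin'_apply, pureMat_pvec, LinearMap.coe_mk, AddHom.coe_mk, hm_pvec, ← pvec_smul]
  congr 1
  funext i
  simp [Matrix.vecMulVec_mulVec, op_smul_eq_smul, cv_dot]

section General

variable {κ : Type} [Fintype κ] [DecidableEq κ] [Nonempty κ] (hF : SqField F q)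
include hF

variable {G : Subgroup ((Fin m → κ → F) ≃ₗ[F] (Fin m → κ → F))}

omit [Nonempty κ] in
lemma IsP.add {Y Y' : (κ → F) →ₗ[F] (κ → F)} (h : IsP q G Y) (h' : IsP q G Y') :
    IsP q G (Y + Y') := fun v hv =>
  ((h v hv).add (h' v hv) fun X => by
    simp [root_apply, evh_ins, ev_ins, cv_dot, hv, -ev_apply]).congr fun X => by
      simp [root_apply, map_add, -ev_apply]

omit [Nonempty κ] in
lemma IsP.neg {Y : (κ → F) →ₗ[F] (κ → F)} (h : IsP q G Y) : IsP q G (-Y) := fun v hv =>
  ((h v hv).neg fun X => by simp [root_apply, ev_ins, cv_dot, hv, -ev_apply]).congr fun X => by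
    simp [root_apply, -ev_apply]

omit [Nonempty κ] in
lemma IsP.smul {Y : (κ → F) →ₗ[F] (κ → F)} (h : IsP q G Y) {l : F} (hl : l ^ q = l) :
    IsP q G (l • Y) := fun v hv => by
  obtain ⟨x, rfl⟩ := hF.exists_norm hl
  refine (h (x • v) (by rw [herm_smul_left, herm_smul_right, hv, mul_zero, mul_zero])).congr
    fun X => ?_
  have e : cv q (x • v) = x ^ q • cv q v := by funext i; simp [cv, mul_pow]
  simp only [root_apply, ins_smul, e, LinearMap.smul_apply, map_smul]
  rw [show ev (x ^ q • cv q v) X = x ^ q • ev (cv q v) X by rw [← e]; exact evh_smul x v X, map_smul, map_smul,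
    smul_smul, pow_succ']

omit [Nonempty κ] in
/-- Conjugation by a tensor product. -/
lemma root_conj {h : (Fin m → κ → F) ≃ₗ[F] (Fin m → κ → F)}
    (hiso : ∀ X Y, hV q (h X) (h Y) = hV q X Y) {B : Matrix (Fin m) (Fin m) F}
    {k : (κ → F) ≃ₗ[F] (κ → F)} (hBk : ∀ u w, h (ins u w) = ins (B *ᵥ u) (k w)) {l : F}
    (hl : ∀ x y, hm q (k x) (k y) = l * hm q x y) (hlq : l ^ q = l) (hl0 : l ≠ 0)
    (v : Fin m → F) (Y : (κ → F) →ₗ[F] (κ → F)) (X : Fin m → κ → F) :
    h (root v (cv q v) Y X) =
      root (B *ᵥ v) (cv q (B *ᵥ v)) (l • (k.toLinearMap ∘ₗ Y ∘ₗ k.symm.toLinearMap)) (h X) := by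
  have he : ev (cv q (B *ᵥ v)) (h X) = l⁻¹ • k (ev (cv q v) X) := hm_ext hF fun Z => by
    obtain ⟨z, rfl⟩ := k.surjective Z
    rw [hm_smul_right, hl, inv_pow, hlq, inv_mul_cancel_left₀ hl0, ← hV_ins_left hF,
      ← hV_ins_left hF, ← hBk, hiso]
  simp only [root_apply, hBk, he, LinearMap.smul_apply, LinearMap.comp_apply, LinearEquiv.coe_coe,
    map_smul, LinearEquiv.symm_apply_apply, smul_smul, mul_inv_cancel₀ hl0, inv_mul_cancel₀ hl0,
    one_smul]

variable (hG : UGrp q G)
include hG

/-- One parameter is one of every isotropic vector. -/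
lemma isP_of_one (hm3 : 3 ≤ m) (hex : ¬ (q = 2 ∧ m = 3)) {v : Fin m → F}
    {Y : (κ → F) →ₗ[F] (κ → F)} (hv0 : v ≠ 0) (hv : herm q v v = 0)
    (h : Mem G (root v (cv q v) Y)) : IsP q G Y := by
  haveI : Finite F := hF.1
  intro w hw
  rcases eq_or_ne w 0 with rfl | hw0
  · exact mem_zero.congr fun X => by simp [root_apply, ins_zero, -ev_apply]
  obtain ⟨g, hg, hgv⟩ := TG_transitive_vectors hF hm3
    (hasUni hF hm3 (fun h => hex ⟨h.2, h.1⟩)) hv0 hv hw0 hw
  obtain ⟨f, hf, hfx⟩ := hG.su g (TG_le_SUG hF hg)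
  refine (h.conj hf).congr fun X => ?_
  obtain ⟨X, rfl⟩ := f.surjective X
  have hgm : ∀ u, (LinearMap.toMatrix' g.1.toLinearMap) *ᵥ u = g.1 u := fun u =>
    LinearMap.toMatrix'_mulVec _ u
  rw [LinearMap.comp_apply, LinearMap.comp_apply, LinearEquiv.coe_coe, LinearEquiv.coe_coe,
    inv_apply_self, root_conj hF (hG.iso f hf) (B := LinearMap.toMatrix' g.1.toLinearMap)
      (k := LinearEquiv.refl F (κ → F)) (fun u w => by rw [hgm, hfx]; rfl) (l := 1)
      (fun x y => by simp) (one_pow q) one_ne_zero, hgm, hgv]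
  simp [root_apply, -ev_apply]

/-- Parameters are skew. -/
lemma IsP.skew (hm2 : 2 ≤ m) {Y : (κ → F) →ₗ[F] (κ → F)} (h : IsP q G Y) (x y : κ → F) :
    hm q (Y x) y + hm q x (Y y) = 0 := by
  obtain ⟨v, hv0, hv⟩ := exists_isotropic hF (n := m) hm2
  obtain ⟨f, hf⟩ := exists_partner hF hv0 hv
  obtain ⟨g, hg, hgx⟩ := h v hv
  have hfv : herm q f v = 1 := (hf.symm hF).2.2
  have h1 := hG.iso g hg (ins f x) (ins f y)
  rw [hgx, hgx, root_apply, root_apply, ev_ins, ev_ins, cv_dot, hfv, one_smul, one_smul,
    hV_add_left, hV_add_right hF, hV_add_right hF, hV_ins_ins hF, hV_ins_ins hF, hV_ins_ins hF,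
    hV_ins_ins hF, hf.2.1, hfv, hf.2.2, hv, zero_mul, zero_mul, one_mul, one_mul, zero_add,
    add_zero] at h1
  linear_combination h1

end General

variable [Finite F] (hF : SqField F q) {G : Subgroup ((Fin m → Ten F m t) ≃ₗ[F] (Fin m → Ten F m t))}
  (hG : UGrp q G) (hB : TailBase q G)
include hF hG hB

/-- The difference made by an element of a factor. -/
lemma IsP.delta (hm2 : 2 ≤ m) {Y : Ten F m t →ₗ[F] Ten F m t} (hY : IsP q G Y) {j : Fin t}
    {g : UG m F q} (hg : g ∈ SUG m F q) {S : Ten F m t →ₗ[F] Ten F m t}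
    (hS : ∀ us, pvec (Function.update us j (g.1 (us j))) = pvec us + S (pvec us))
    (hSS : ∀ X, S (S X) = 0) : IsP q G (S ∘ₗ Y - Y ∘ₗ S - S ∘ₗ Y ∘ₗ S) := by
  obtain ⟨f, hf, hfx⟩ := hB j g hg
  obtain ⟨e, he0, he⟩ := exists_isotropic hF (n := m) hm2
  obtain ⟨b, hb⟩ := exists_partner hF he0 he
  let k : Ten F m t ≃ₗ[F] Ten F m t := LinearEquiv.ofLinear (LinearMap.id + S) (LinearMap.id - S)
    (LinearMap.ext fun X => by simp [hSS]) (LinearMap.ext fun X => by simp [hSS])
  have hform : ∀ (a : Fin m → F) w, f (ins a w) = ins ((1 : Matrix _ _ F) *ᵥ a) (k w) := fun a w => by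
    refine LinearMap.congr_fun (ext_pvec (f := f.toLinearMap ∘ₗ ins a)
      (g := ins ((1 : Matrix _ _ F) *ᵥ a) ∘ₗ k.toLinearMap) fun us => ?_) w
    simp [k, hfx, hS]
  have hl : ∀ x y, hm q (k x) (k y) = 1 * hm q x y := fun x y => by
    have h1 := hG.iso f hf (ins e x) (ins b y)
    rw [hform, hform, hV_ins_ins hF, hV_ins_ins hF, Matrix.one_mulVec, Matrix.one_mulVec, hb.2.2,
      one_mul, one_mul] at h1
    rw [h1, one_mul]
  have hconj : IsP q G ((1 : F) • (k.toLinearMap ∘ₗ Y ∘ₗ k.symm.toLinearMap)) := fun v hv =>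
    ((hY v hv).conj hf).congr fun X => by
      obtain ⟨X, rfl⟩ := f.surjective X
      rw [LinearMap.comp_apply, LinearMap.comp_apply, LinearEquiv.coe_coe, LinearEquiv.coe_coe,
        inv_apply_self, root_conj hF (hG.iso f hf) hform hl (one_pow q) one_ne_zero,
        Matrix.one_mulVec]
  convert hconj.add hF (hY.neg hF) using 1
  refine LinearMap.ext fun X => ?_
  simp [k, map_sub]
  abel

/-- Compression to an isotropic vector at one factor. -/
theorem IsP.compress (hm3 : 3 ≤ m) (hex : ¬ (q = 2 ∧ m = 3)) {Y : Ten F m t →ₗ[F] Ten F m t}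
    (hY : IsP q G Y) (j : Fin t) {w : Fin m → F} (hw : herm q w w = 0) :
    IsP q G (proj q j w ∘ₗ Y ∘ₗ proj q j w) := by
  rcases Nat.lt_or_ge q 3 with hq | hq
  · have hq2 : q = 2 := by have := hF.one_lt; omega
    have hm4 : 4 ≤ m := by
      rcases Nat.lt_or_ge m 4 with h | h
      · exact absurd ⟨hq2, by omega⟩ hex
      · exact h
    rcases eq_or_ne w 0 with rfl | hw0
    · have h0 : IsP q G (0 : Ten F m t →ₗ[F] Ten F m t) := fun v _ =>
        mem_zero.congr fun X => by simp [root_apply, -ev_apply]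
      convert h0 using 1
      refine LinearMap.ext fun X => ?_
      simp [proj_zero hF.q_ne_zero, -Matrix.toLin'_apply]
    obtain ⟨f₀, hf₀⟩ := exists_partner hF hw0 hw
    obtain ⟨u, f, huf, huw, -, hfw, -⟩ := exists_second_pair hF hm4 hf₀
    have hwu := herm_eq_zero_symm hF huw
    have hwf := herm_eq_zero_symm hF hfw
    have h2F : (2 : F) = 0 := by
      haveI := Fintype.ofFinite F
      have h4 := FiniteField.cast_card_eq_zero F
      rw [← Nat.card_eq_fintype_card, hF.2, hq2] at h4
      exact eq_zero_of_pow_eq_zero (n := 2) (by exact_mod_cast h4)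
    obtain ⟨ω, hω⟩ := hF.exists_trace (c := (1 : F)) (one_pow q)
    -- the symmetrised square
    have E : ∀ (Z : Ten F m t →ₗ[F] Ten F m t), IsP q G Z → ∀ x : Fin m → F, herm q x x = 0 →
        herm q x w = 0 → IsP q G
          (rr q j x w ∘ₗ Z ∘ₗ rr q j w x + rr q j w x ∘ₗ Z ∘ₗ rr q j x w) := by
      intro Z hZ x hx hxw
      have hwx := herm_eq_zero_symm hF hxw
      set S : F → Ten F m t →ₗ[F] Ten F m t := fun c => c • rr q j x w - c ^ q • rr q j w x with hS
      have hD : ∀ c, IsP q G (S c ∘ₗ Z - Z ∘ₗ S c - S c ∘ₗ Z ∘ₗ S c) := fun c => by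
        have hc : UniCond q w (c • x) (0 : F) := ⟨hw, by rw [herm_smul_left, hxw, mul_zero], by
          rw [herm_smul_left, herm_smul_right, hx]; simp [hF.q_ne_zero]⟩
        refine IsP.delta hF hG hB (by omega) (j := j) hZ (det_uni hF hc) (fun us => ?_) fun X => ?_
        · rw [uni_apply, hS]
          simp only [LinearMap.sub_apply, LinearMap.smul_apply, rr_pvec, zero_mul, zero_sub,
            herm_smul_right, smul_smul, pvec_update_add, Function.update_eq_self,
            pvec_update_smul, mul_comm c]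
          module
        · simp [hS, rr_rr, hx, hw, hxw, hwx, map_sub, map_smul, -Matrix.toLin'_apply]
      have h3 := ((hD (1 + ω)).add hF (((hD 1).add hF (hD ω)).neg hF))
      convert h3 using 1
      refine LinearMap.ext fun X => ?_
      simp only [hS, LinearMap.add_apply, LinearMap.neg_apply, LinearMap.sub_apply,
        LinearMap.comp_apply, LinearMap.smul_apply, map_add, map_sub, map_smul, smul_sub,
        smul_smul, hF.add_pow, one_pow, add_smul, smul_add]
      match_scalars <;> first
        | linear_combination (1 : F) * hω - (0 : F) * h2F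
        | linear_combination -hω + (1 : F) * h2F
        | linear_combination hω
        | linear_combination -hω
        | linear_combination ω * h2F
        | linear_combination -ω * h2F
        | linear_combination ω ^ q * h2F
        | linear_combination -(ω ^ q) * h2F
        | ring
    convert E _ (E Y hY u huf.1 huw) f huf.2.1 hfw using 1
    refine LinearMap.ext fun X => ?_
    have hfu : herm q f u = 1 := (huf.symm hF).2.2
    simp [rr_rr, huf.2.2, hfu, huw, hwu, hfw, hwf, hw, map_smul, -Matrix.toLin'_apply]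
  · obtain ⟨c, hc0, hc⟩ := hF.exists_skew
    have hD : ∀ c : F, c ^ q = -c → IsP q G
        ((c • proj q j w) ∘ₗ Y - Y ∘ₗ (c • proj q j w) - (c • proj q j w) ∘ₗ Y ∘ₗ (c • proj q j w)) := by
      intro c hc
      refine IsP.delta hF hG hB (by omega) (j := j) hY
        (det_uni hF ((TrvCond.uniCond hF) (show TrvCond q w c from ⟨hw, hc⟩))) (fun us => ?_)
        fun X => ?_
      · rw [LinearMap.smul_apply, proj_pvec, uni_apply]
        have h0 : herm q (us j) (0 : Fin m → F) = 0 := by simp [herm_def, hF.q_ne_zero]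
        rw [smul_zero, add_zero, h0, sub_zero, pvec_update_add, Function.update_eq_self,
          pvec_update_smul, smul_smul]
      · simp [rr_rr, hw, map_smul, -Matrix.toLin'_apply]
    obtain ⟨l, hl, hl0, hl1⟩ : ∃ l : F, l ^ q = l ∧ l ≠ 0 ∧ l ≠ 1 := by
      obtain ⟨γ, hγ, hγ0, hγ1⟩ := exists_gamma hF hq (-1 : F)
      exact ⟨γ, hγ, hγ0, fun h => hγ1 (by rw [h]; ring)⟩
    have hlc : (l * c) ^ q = -(l * c) := by rw [mul_pow, hl, hc, mul_neg]
    have hne : (l - l * l) * (c * c) ≠ 0 := by
      refine mul_ne_zero (fun h => hl1 ?_) (mul_ne_zero hc0 hc0)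
      have h1 : l * (1 - l) = 0 := by linear_combination h
      exact (sub_eq_zero.1 ((mul_eq_zero.1 h1).resolve_left hl0)).symm
    have hfix : (((l - l * l) * (c * c))⁻¹) ^ q = ((l - l * l) * (c * c))⁻¹ := by
      rw [inv_pow, mul_pow, hF.sub_pow, mul_pow, mul_pow, hl, hc]; ring
    convert ((hD _ hlc).add hF (((hD c hc).smul hF hl).neg hF)).smul hF hfix using 1
    rw [eq_inv_smul_iff₀ hne]
    refine LinearMap.ext fun X => ?_
    simp [map_smul, smul_smul, smul_sub, -Matrix.toLin'_apply]
    module

/-- Compression at several factors. -/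
lemma IsP.compress_set (hm3 : 3 ≤ m) (hex : ¬ (q = 2 ∧ m = 3)) {Y : Ten F m t →ₗ[F] Ten F m t}
    (hY : IsP q G Y) (s : Finset (Fin t)) {w : Fin t → Fin m → F}
    (hw : ∀ i, herm q (w i) (w i) = 0) : IsP q G (prj q s w ∘ₗ Y ∘ₗ prj q s w) := by
  induction s using Finset.induction with
  | empty => convert hY using 1; refine LinearMap.ext fun X => ?_; simp [pureMat_one]
  | @insert j s hj ih =>
    convert ih.compress hF hG hB hm3 hex j (hw j) using 1
    refine LinearMap.ext fun X => ?_
    simp only [LinearMap.comp_apply]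
    rw [(prj_insert hj w (Y _)).1, (prj_insert hj w X).2]

omit hG hB in
/-- A map killed by all compressions at a factor commutes with them. -/
lemma commute_of_compress (hm3 : 3 ≤ m) {Y : Ten F m t →ₗ[F] Ten F m t} {j : Fin t}
    (h : ∀ w, herm q w w = 0 → ∀ X, proj q j w (Y (proj q j w X)) = 0) {w : Fin m → F}
    (hw : herm q w w = 0) (X : Ten F m t) : Y (proj q j w X) = proj q j w (Y X) := by
  classical
  have hself : ∀ (u : Fin m → F) (A B : Ten F m t),
      hm q (proj q j u A) B = hm q A (proj q j u B) := by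
    intro u A B
    let L : Ten F m t → Ten F m t →ₗ[F] F := fun B =>
      { toFun := fun A => hm q A B
        map_add' := fun A A' => hm_add_left A A' B
        map_smul' := fun c A => hm_smul_left c A B }
    refine LinearMap.congr_fun (ext_pvec (f := L B ∘ₗ proj q j u) (g := L (proj q j u B))
      fun us => ?_) A
    show hm q (proj q j u (pvec us)) B = hm q (pvec us) (proj q j u B)
    rw [← hm_symm hF B (proj q j u (pvec us)), ← hm_symm hF (proj q j u B) (pvec us)]
    congr 1
    refine LinearMap.congr_fun (ext_pvec (f := L (proj q j u (pvec us)))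
      (g := L (pvec us) ∘ₗ proj q j u) fun vs => ?_) B
    show hm q (pvec vs) (proj q j u (pvec us)) = hm q (proj q j u (pvec vs)) (pvec us)
    rw [proj_pvec, proj_pvec, hm_smul_right, hm_smul_left, hm_pvec, hm_pvec, hF.herm_symm,
      ← Finset.mul_prod_erase _ _ (Finset.mem_univ j), ← Finset.mul_prod_erase _ _ (Finset.mem_univ j),
      Function.update_self, Function.update_self]
    rw [Finset.prod_congr rfl (fun i hi => by
      rw [Function.update_of_ne (Finset.ne_of_mem_erase hi)] :
        ∀ i ∈ Finset.univ.erase j, herm q (vs i) (Function.update us j u i) = herm q (vs i) (us i)),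
      Finset.prod_congr rfl (fun i hi => by
      rw [Function.update_of_ne (Finset.ne_of_mem_erase hi)] :
        ∀ i ∈ Finset.univ.erase j, herm q (Function.update vs j u i) (us i) = herm q (vs i) (us i))]
    ring
  have hk : ∀ us vs : Fin t → Fin m → F, ∃ k : F, ∀ a b, herm q a a = 0 →
      hm q (Y (pvec (Function.update us j a))) (pvec (Function.update vs j b)) =
        k * herm q a b := by
    intro us vs
    let S : (Fin m → F) →ₗ[F] (Fin m → F) :=
      { toFun := fun a i => hm q (Y (pvec (Function.update us j a)))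
          (pvec (Function.update vs j (Pi.single i 1)))
        map_add' := fun a a' => by
          funext i; simp [pvec_update_add, hm_add_left]
        map_smul' := fun c a => by
          funext i; simp [pvec_update_smul, hm_smul_left] }
    have hS : ∀ a b, herm q (S a) b =
        hm q (Y (pvec (Function.update us j a))) (pvec (Function.update vs j b)) := fun a b => by
      let L : (Fin m → F) →ₗ[F] Ten F m t :=
        { toFun := fun v => pvec (Function.update vs j v)
          map_add' := fun v v' => pvec_update_add vs j v v'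
          map_smul' := fun c v => pvec_update_smul vs j c v }
      show herm q (S a) b = hm q _ (L b)
      conv_rhs => rw [pi_eq_sum_univ' b, map_sum, hm_sum_right hF]
      rw [herm_def]
      refine Finset.sum_congr rfl fun i _ => ?_
      rw [map_smul, hm_smul_right]
      simp [S, L, mul_comm]
    obtain ⟨k, hk⟩ := eq_smul_of_isotropic hF (by omega) S fun a ha => by
      rw [hS]
      rcases eq_or_ne a 0 with rfl | ha0
      · rw [pvec_eq_zero (i := j) (by simp), map_zero, hm_zero_left]
      obtain ⟨y, -, hy, -⟩ := exists_dual hF ha0 ha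
      have e : ∀ us, pvec (Function.update us j a) = proj q j a (pvec (Function.update us j y)) :=
        fun us => by rw [proj_pvec, Function.update_self, hy, one_smul, Function.update_idem]
      rw [e us, e vs, ← hself, h a ha, hm_zero_left]
    exact ⟨k, fun a b _ => by
      rw [← hS, hk, LinearMap.smul_apply, LinearMap.id_apply, herm_smul_left]⟩
  refine LinearMap.congr_fun (ext_pvec (f := Y ∘ₗ proj q j w) (g := proj q j w ∘ₗ Y) fun us => ?_) X
  refine hm_ext_left hF fun Z => ?_
  let L : Ten F m t → Ten F m t →ₗ[F] F := fun B =>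
    { toFun := fun A => hm q A B
      map_add' := fun A A' => hm_add_left A A' B
      map_smul' := fun c A => hm_smul_left c A B }
  simp only [LinearMap.comp_apply]
  rw [← hm_symm hF Z, ← hm_symm hF Z (proj q j w (Y (pvec us)))]
  congr 1
  refine LinearMap.congr_fun (ext_pvec (f := L (Y (proj q j w (pvec us))))
    (g := L (proj q j w (Y (pvec us)))) fun vs => ?_) Z
  show hm q (pvec vs) (Y (proj q j w (pvec us))) = hm q (pvec vs) (proj q j w (Y (pvec us)))
  rw [← hm_symm hF (Y (proj q j w (pvec us))) (pvec vs),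
    ← hm_symm hF (proj q j w (Y (pvec us))) (pvec vs)]
  congr 1
  rw [hself, proj_pvec, proj_pvec, map_smul, hm_smul_left, hm_smul_right, hF.herm_symm]
  obtain ⟨k, hk⟩ := hk us vs
  have h1 := hk w (vs j) hw
  rw [Function.update_eq_self] at h1
  -- the isotropic vectors span
  let L₂ : (Fin m → F) →ₗ[F] Ten F m t :=
    { toFun := fun v => pvec (Function.update us j v)
      map_add' := fun v v' => pvec_update_add us j v v'
      map_smul' := fun c v => pvec_update_smul us j c v }
  have h2 : hm q (Y (pvec (Function.update us j (us j)))) (pvec (Function.update vs j w)) =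
      k * herm q (us j) w := by
    refine LinearMap.congr_fun (f := L (pvec (Function.update vs j w)) ∘ₗ Y ∘ₗ L₂)
      (g := k • dualF q w) (LinearMap.ext fun a => ?_) (us j)
    have := TensorU.mem_of_isotropic hF (by omega)
      (LinearMap.ker (L (pvec (Function.update vs j w)) ∘ₗ Y ∘ₗ L₂ - k • dualF q w))
      (fun a ha => by
        rw [LinearMap.mem_ker, LinearMap.sub_apply, sub_eq_zero]
        exact hk a w ha) a
    rwa [LinearMap.mem_ker, LinearMap.sub_apply, sub_eq_zero] at this
  rw [Function.update_eq_self] at h2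
  rw [h1, h2]
  ring

/-- A parameter with a non-zero value at an isotropic pure tensor gives all centres. -/
theorem cent_of_value (hm3 : 3 ≤ m) (hex : ¬ (q = 2 ∧ m = 3)) {Y : Ten F m t →ₗ[F] Ten F m t}
    (hY : IsP q G Y) {w : Fin t → Fin m → F} (hw : ∀ i, herm q (w i) (w i) = 0)
    (hv : hm q (Y (pvec w)) (pvec w) ≠ 0) {M : Fin m → Ten F m t} (hM : hV q M M = 0) :
    IsCent q G M := by
  classical
  haveI : Nonempty (Fin t → Fin m) := ⟨fun _ => ⟨0, by omega⟩⟩
  refine isCent_all hF hm3 hex hG (zset_all hF hm3 hex hG hB fun us hus => ?_) hM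
  have hw0 : ∀ i, w i ≠ 0 := fun i h0 => hv (by rw [pvec_eq_zero h0, map_zero, hm_zero_left])
  set d := hm q (Y (pvec w)) (pvec w)
  have hd : d ^ q = -d := by
    have := hY.skew hF hG (by omega) (pvec w) (pvec w)
    rw [← hm_symm hF (Y (pvec w)) (pvec w)] at this
    linear_combination this
  have hbase : ∀ v : Fin m → F, herm q v v = 0 → IsCent q G (ins v (pvec w)) := by
    intro v hv' c hc
    have hfix : (c / d) ^ q = c / d := by rw [div_pow, hc, hd, neg_div_neg_eq]
    refine (((hY.compress_set hF hG hB hm3 hex Finset.univ hw).smul hF hfix) v hv').congr fun X => ?_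
    simp only [root_apply, LinearMap.smul_apply, LinearMap.comp_apply, prj_univ, map_smul,
      rkh_apply, hV_ins_right hF, smul_smul]
    congr 1
    field_simp [hv]
    rw [show ev (cv q v) X = evh q v X from rfl]
    simp only [d]
    ring
  by_cases h0 : ∀ i, us i ≠ 0
  swap
  · push Not at h0
    obtain ⟨i, hi⟩ := h0
    intro v _
    rw [pvec_eq_zero hi, map_zero]
    exact isCent_zero hF
  intro v hv'
  suffices ∀ s : Finset (Fin t), IsCent q G (ins v (pvec (s.piecewise us w))) by
    simpa using this Finset.univ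
  intro s
  induction s using Finset.induction with
  | empty => simpa using hbase v hv'
  | @insert j s hj ih =>
    obtain ⟨g, hg, hgw⟩ := TG_transitive_vectors hF hm3
      (hasUni hF hm3 (fun h => hex ⟨h.2, h.1⟩)) (hw0 j) (hw j) (h0 j) (hus j)
    obtain ⟨f, hf, hfx⟩ := hB j g (TG_le_SUG hF hg)
    have h1 := ih.map hF hG hf
    rwa [hfx, Finset.piecewise_eq_of_notMem _ _ _ hj, hgw, ← Finset.piecewise_insert] at h1

/-- A commuting parameter or all centres. -/
theorem cent_or_commute (hm3 : 3 ≤ m) (hex : ¬ (q = 2 ∧ m = 3)) {Y : Ten F m t →ₗ[F] Ten F m t}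
    (hY : IsP q G Y) (hns : ∀ c : F, Y ≠ c • LinearMap.id) :
    (∀ M, hV q M M = 0 → IsCent q G M) ∨
      ∃ (j : Fin t) (Z : Ten F m t →ₗ[F] Ten F m t), IsP q G Z ∧ (∀ c : F, Z ≠ c • LinearMap.id) ∧
        ∀ w, herm q w w = 0 → ∀ X, Z (proj q j w X) = proj q j w (Z X) := by
  classical
  by_cases hcase : ∃ (j : Fin t) (Z : Ten F m t →ₗ[F] Ten F m t), IsP q G Z ∧
      (∀ c : F, Z ≠ c • LinearMap.id) ∧
      ∀ w, herm q w w = 0 → ∀ X, Z (proj q j w X) = proj q j w (Z X)
  · exact Or.inr hcase
  left
  push Not at hcase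
  suffices ∀ s : Finset (Fin t), ∃ w : Fin t → Fin m → F, (∀ i, herm q (w i) (w i) = 0) ∧
      ∀ c : F, prj q s w ∘ₗ Y ∘ₗ prj q s w ≠ c • LinearMap.id by
    obtain ⟨w, hw, hne⟩ := this Finset.univ
    refine fun M hM => cent_of_value hF hG hB hm3 hex hY hw (fun h0 => hne 0 ?_) hM
    refine LinearMap.ext fun X => ?_
    simp [prj_univ, map_smul, hm_smul_left, h0, -Matrix.toLin'_apply]
  intro s
  induction s using Finset.induction with
  | empty =>
    refine ⟨fun _ => 0, fun _ => herm_zero_left _, fun c hc => hns c ?_⟩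
    rw [← hc]
    refine LinearMap.ext fun X => ?_
    simp [pureMat_one]
  | @insert j s hj ih =>
    obtain ⟨w, hw, hne⟩ := ih
    set Z := prj q s w ∘ₗ Y ∘ₗ prj q s w with hZ
    obtain ⟨u, hu, X, hX⟩ : ∃ u, herm q u u = 0 ∧ ∃ X, proj q j u (Z (proj q j u X)) ≠ 0 := by
      by_contra hcon
      push Not at hcon
      obtain ⟨u, hu, X, hX⟩ := hcase j Z (hY.compress_set hF hG hB hm3 hex s hw) hne
      exact hX (commute_of_compress hF hm3 hcon hu X)
    refine ⟨Function.update w j u, fun i => ?_, fun c hc => ?_⟩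
    · rcases eq_or_ne i j with rfl | hi
      · simpa using hu
      · simpa [Function.update_of_ne hi] using hw i
    have he : ∀ A, prj q s (Function.update w j u) A = prj q s w A := fun A => by
      have e : (fun i => if i ∈ s then vecMulVec (Function.update w j u i)
          (cv q (Function.update w j u i)) else (1 : Matrix (Fin m) (Fin m) F)) =
          fun i => if i ∈ s then vecMulVec (w i) (cv q (w i)) else 1 := by
        funext i
        by_cases hi : i ∈ s
        · rw [if_pos hi, if_pos hi, Function.update_of_ne (ne_of_mem_of_not_mem hi hj)]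
        · rw [if_neg hi, if_neg hi]
      simp [e]
    have h1 : ∀ A, proj q j u (Z (proj q j u A)) = c • A := fun A => by
      have := LinearMap.congr_fun hc A
      rw [LinearMap.comp_apply, LinearMap.comp_apply, (prj_insert hj _ (Y _)).1,
        (prj_insert hj _ A).2, he, he, Function.update_self] at this
      exact this
    obtain ⟨e, he0, -⟩ := exists_isotropic hF (n := m) (by omega)
    have hu0 : u ≠ 0 := fun h0 => hX (by rw [h0, proj_zero hF.q_ne_zero])
    have h2 := h1 (pvec (Function.update (fun _ => e) j u))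
    rw [proj_pvec, Function.update_self, hu, zero_smul, map_zero, map_zero, eq_comm,
      smul_eq_zero] at h2
    have hc0 : c = 0 := h2.resolve_right (pvec_ne_zero fun i => by
      rcases eq_or_ne i j with rfl | hi
      · simpa using hu0
      · simpa [Function.update_of_ne hi] using he0)
    exact hX (by rw [h1, hc0, zero_smul])

end Cfsg.Agent.MaxSub.TensorPowU
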