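import Cfsg.Agent.MaxSub.TensorPowU.Sel
import Cfsg.Agent.MaxSub.TensorPowU.Tens
import Cfsg.Agent.MaxSub.TensorPowU.Swap

/-!
Induction on the number of factors: a group of isometries containing the special unitary group of
every factor (and the permutations, for at least three factors) is monomial, or one of its
conjugates by a permutation has a non-scalar parameter.
-/

set_option autoImplicit false
set_option linter.unusedSectionVars false
set_option linter.style.haveILetI false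
set_option maxHeartbeats 1000000

namespace Cfsg.Agent.MaxSub.TensorPowU

open Module Matrix Cfsg.Agent.Classical.U Cfsg.Agent.MaxSub.TensorPow Cfsg.Agent.GeoClasses
open Cfsg.Agent.MaxSub.ExtField (Mem inv_apply_self self_inv_apply)

universe u

variable {F : Type u} [Field F] [Finite F] {m t q : ℕ}

/-- The isometries. -/
def isoSub (F : Type u) [Field F] (m t q : ℕ) : Subgroup (Ten F m t ≃ₗ[F] Ten F m t) where
  carrier := {g | ∀ X Y, hm q (g X) (g Y) = hm q X Y}
  one_mem' := fun _ _ => rfl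
  mul_mem' {a b} ha hb := fun X Y => (ha (b X) (b Y)).trans (hb X Y)
  inv_mem' {a} ha := fun X Y => by
    rw [← ha, self_inv_apply, self_inv_apply]

/-- The isometries of the last factors occurring in `G`. -/
def tailU (q : ℕ) (G : Subgroup (Ten F m (t + 1) ≃ₗ[F] Ten F m (t + 1))) :
    Subgroup (Ten F m t ≃ₗ[F] Ten F m t) :=
  tailGroup G ⊓ isoSub F m t q

/-- A scalar map. -/
noncomputable def scal {c : F} (hc : c ≠ 0) : Ten F m t ≃ₗ[F] Ten F m t :=
  LinearEquiv.smulOfUnit (R := F) (M := Ten F m t) (Units.mk0 c hc)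

lemma scal_apply {c : F} (hc : c ≠ 0) (X : Ten F m t) : scal hc X = c • X := rfl

lemma scal_mem {c : F} (hc : c ≠ 0) (ht : 1 ≤ t) :
    scal (m := m) (t := t) hc ∈ monomial F m t := by
  refine ⟨1, Function.update (fun _ => 1) ⟨0, ht⟩ (c • 1), fun us => ?_⟩
  have e : (fun i => Function.update (fun _ => (1 : Matrix (Fin m) (Fin m) F)) ⟨0, ht⟩ (c • 1) i *ᵥ
      us ((1 : Equiv.Perm (Fin t)) i)) = Function.update us ⟨0, ht⟩ (c • us ⟨0, ht⟩) := by
    funext i
    rcases eq_or_ne i ⟨0, ht⟩ with rfl | hi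
    · simp [Matrix.smul_mulVec]
    · simp [Function.update_of_ne hi]
  rw [scal_apply, e, pvec_update_smul, Function.update_eq_self]

lemma conjG_one (G : Subgroup (Ten F m t ≃ₗ[F] Ten F m t)) : conjG 1 G = G := by
  ext g
  have h0 : perm F m (1 : Equiv.Perm (Fin t)) = 1 :=
    LinearEquiv.toLinearMap_injective (ext_pvec fun us => by
      simp only [LinearEquiv.coe_coe, perm_pvec]; rfl)
  simp [conjG, h0]

/-- A permutation of the last factors. -/
lemma toS_perm (σ : Equiv.Perm (Fin t)) (u : Fin m → F) (w : Ten F m t) :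
    toS F m t (perm F m (Equiv.Perm.decomposeFin.symm (0, σ))) (ins u w) =
      ins u (perm F m σ w) := by
  refine LinearMap.congr_fun (ext_pvec
    (f := (toS F m t (perm F m (Equiv.Perm.decomposeFin.symm (0, σ)))).toLinearMap ∘ₗ ins u)
    (g := ins u ∘ₗ (perm F m σ).toLinearMap) fun us => ?_) w
  set σ' := Equiv.Perm.decomposeFin.symm ((0 : Fin (t + 1)), σ)
  have h0 : σ'.symm 0 = 0 := by rw [Equiv.symm_apply_eq]; simp [σ']
  have hs : ∀ i, σ'.symm (Fin.succ i) = Fin.succ (σ.symm i) := fun i => by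
    rw [Equiv.symm_apply_eq]; simp [σ']
  simp only [LinearMap.comp_apply, LinearEquiv.coe_coe, toS_apply, slice_symm_ins_pvec, perm_pvec,
    slice_pvec, h0, hs, Fin.cons_zero, Fin.cons_succ]

variable (hF : SqField F q)
include hF

lemma herm_single_self (i : Fin m) : herm q (Pi.single i (1 : F)) (Pi.single i 1) = 1 := by
  rw [herm_def, Finset.sum_eq_single i (fun j _ hj => by simp [Pi.single_eq_of_ne hj]) (by simp)]
  simp

/-- The factor of the last factors can be made an isometry. -/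
lemma normalise (hm3 : 3 ≤ m) {G : Subgroup (Ten F m (t + 1) ≃ₗ[F] Ten F m (t + 1))}
    (hI : IsoT q G) {g : Ten F m (t + 1) ≃ₗ[F] Ten F m (t + 1)} (hg : g ∈ G)
    {B : Matrix (Fin m) (Fin m) F} {k : Ten F m t ≃ₗ[F] Ten F m t}
    (hBk : ∀ u w, toS F m t g (ins u w) = ins (B *ᵥ u) (k w)) :
    ∃ (c : F) (hc : c ≠ 0), scal hc * k ∈ tailU q G := by
  classical
  set e : Fin m → F := Pi.single ⟨0, by omega⟩ 1
  set μ := herm q (B *ᵥ e) (B *ᵥ e)
  have h1 : ∀ w w', μ * hm q (k w) (k w') = hm q w w' := fun w w' => by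
    rw [← hV_ins_ins hF, ← hBk, ← hBk, toS_apply, toS_apply, hV_slice, hI g hg, hm_slice,
      hV_ins_ins hF, herm_single_self hF, one_mul]
  haveI : Nonempty (Fin t → Fin m) := ⟨fun _ => ⟨0, by omega⟩⟩
  obtain ⟨z⟩ := (inferInstance : Nonempty (Fin t → Fin m))
  have hμ0 : μ ≠ 0 := fun h0 => by
    have h2 := h1 (Pi.single z 1) (Pi.single z 1)
    rw [h0, zero_mul, hm_single z hF.q_ne_zero] at h2
    exact zero_ne_one h2
  obtain ⟨x, hx⟩ := hF.exists_norm (c := μ) (hF.herm_symm _ _)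
  have hx0 : x ≠ 0 := fun h0 => hμ0 (by rw [← hx, h0, zero_pow (Nat.succ_ne_zero q)])
  refine ⟨x, hx0, Subgroup.mem_inf.2 ⟨⟨g, hg, x⁻¹ • B, fun u w => ?_⟩, fun w w' => ?_⟩⟩
  · rw [hBk, LinearEquiv.mul_apply, scal_apply, Matrix.smul_mulVec, map_smul, ins_smul, smul_smul,
      mul_inv_cancel₀ hx0, one_smul]
  · show hm q (((scal hx0 : Ten F m t ≃ₗ[F] Ten F m t) * k) w)
      (((scal hx0 : Ten F m t ≃ₗ[F] Ten F m t) * k) w') = hm q w w'
    rw [LinearEquiv.mul_apply, LinearEquiv.mul_apply, scal_apply, scal_apply, hm_smul_left,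
      hm_smul_right, ← mul_assoc, ← pow_succ', hx, h1]

lemma baseU_tail (hm3 : 3 ≤ m) {G : Subgroup (Ten F m (t + 1) ≃ₗ[F] Ten F m (t + 1))}
    (hB : BaseU q G) (hI : IsoT q G) : BaseU q (tailU q G) := fun j g hg => by
  classical
  obtain ⟨f, hf, hfx⟩ := hB j.succ g hg
  have hw : Wit 1 (Function.update (fun _ => (1 : Matrix (Fin m) (Fin m) F)) j.succ
      (LinearMap.toMatrix' g.1.toLinearMap)) f := fun us => by
    rw [hfx]
    congr 1
    funext i
    rcases eq_or_ne i j.succ with rfl | hi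
    · simp
    · simp [Function.update_of_ne hi]
  obtain ⟨k, hk, hform⟩ := isT_of_wit (by omega) hw rfl
  refine ⟨k, Subgroup.mem_inf.2 ⟨⟨f, hf, _, hform⟩, fun w w' => ?_⟩, fun us => ?_⟩
  · set e : Fin m → F := Pi.single ⟨0, by omega⟩ 1
    have h1 : hV q (toS F m t f (ins e w)) (toS F m t f (ins e w')) = hV q (ins e w) (ins e w') := by
      rw [toS_apply, toS_apply, hV_slice, hI f hf, hm_slice]
    rw [hform, hform, hV_ins_ins hF, hV_ins_ins hF, Function.update_of_ne (Fin.succ_ne_zero j).symm,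
      Matrix.one_mulVec, herm_single_self hF, one_mul, one_mul] at h1
    exact h1
  · rw [hk]
    congr 1
    funext i
    rcases eq_or_ne i j with rfl | hi
    · simp
    · simp [Function.update_of_ne hi, Function.update_of_ne ((Fin.succ_injective t).ne hi)]

lemma perms_tailU (hm3 : 3 ≤ m) (ht : 1 ≤ t)
    {G : Subgroup (Ten F m (t + 1) ≃ₗ[F] Ten F m (t + 1))}
    (hI : IsoT q G) (hP : Perms G) : Perms (tailU q G) := fun σ => by
  classical
  obtain ⟨g, hg, A, hA⟩ := hP (Equiv.Perm.decomposeFin.symm (0, σ))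
  obtain ⟨k, hk, hform⟩ := isT_of_wit (by omega) hA (by simp)
  obtain ⟨c, hc, hmem⟩ := normalise hF hm3 hI hg hform
  refine ⟨_, hmem, Function.update (fun i => A i.succ) ⟨0, ht⟩ (c • A (Fin.succ ⟨0, ht⟩)),
    fun us => ?_⟩
  have e : (fun i => Function.update (fun i => A (Fin.succ i)) ⟨0, ht⟩
      (c • A (Fin.succ ⟨0, ht⟩)) i *ᵥ us (σ i)) =
      Function.update (fun i => A (Fin.succ i) *ᵥ us (σ i)) ⟨0, ht⟩
        (c • (A (Fin.succ ⟨0, ht⟩) *ᵥ us (σ ⟨0, ht⟩))) := by
    funext i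
    rcases eq_or_ne i ⟨0, ht⟩ with rfl | hi
    · simp [Matrix.smul_mulVec]
    · simp [Function.update_of_ne hi]
  rw [LinearEquiv.mul_apply, scal_apply, hk, e, pvec_update_smul, Function.update_eq_self]
  simp

/-- A parameter of the last factors gives one of a conjugate. -/
lemma not_noPar_of_tail (hm3 : 3 ≤ m)
    {G : Subgroup (Ten F m (t + 1 + 1) ≃ₗ[F] Ten F m (t + 1 + 1))} (hB : BaseU q G)
    {σ : Equiv.Perm (Fin (t + 1))}
    (h : ¬ NoPar q ((conjG σ (tailU q G)).map (toS F m t).toMonoidHom)) :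
    ∃ τ, ¬ NoPar q ((conjG τ G).map (toS F m (t + 1)).toMonoidHom) := by
  simp only [NoPar] at h
  push Not at h
  obtain ⟨v, Y, hv0, hv, ⟨_, ⟨_, ⟨κ, hκ, rfl⟩, rfl⟩, hx⟩, hY⟩ := h
  obtain ⟨g, hg, B, hgB⟩ := (Subgroup.mem_inf.1 hκ).1
  set σ' := Equiv.Perm.decomposeFin.symm ((0 : Fin (t + 1 + 1)), σ) with hσ'
  refine ⟨Equiv.swap 0 1 * σ', ?_⟩
  rw [← conjG_conjG]
  refine exists_param_of_tail hF hm3 (baseU_conj hB σ') (mem_conjG hg) (B := B)
    (κ := perm F m σ * κ * (perm F m σ)⁻¹) (fun u w => ?_) hv0 hv (fun Z => hx Z) hY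
  have hinv : (toS F m (t + 1) (perm F m σ'))⁻¹ (ins u w) = ins u ((perm F m σ)⁻¹ w) := by
    refine (toS F m (t + 1) (perm F m σ')).injective ?_
    rw [self_inv_apply, hσ', toS_perm, self_inv_apply]
  rw [map_mul, map_mul, map_inv, LinearEquiv.mul_apply, LinearEquiv.mul_apply, hinv, hgB, hσ',
    toS_perm]
  rfl

/-- The dichotomy. -/
theorem monomial_or_param (hm3 : 3 ≤ m) (hex : ¬ (q = 2 ∧ m = 3)) :
    ∀ t (G : Subgroup (Ten F m (t + 1) ≃ₗ[F] Ten F m (t + 1))), BaseU q G → IsoT q G →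
      (3 ≤ t + 1 → Perms G) →
      G ≤ monomial F m (t + 1) ∨ ∃ σ, ¬ NoPar q ((conjG σ G).map (toS F m t).toMonoidHom) := by
  classical
  intro t
  induction t with
  | zero => exact fun G _ _ _ => Or.inl fun g _ => monomial_one g
  | succ t ih =>
    intro G hB hI hPerm
    by_cases hnp : ∀ σ, NoPar q ((conjG σ G).map (toS F m (t + 1)).toMonoidHom)
    swap
    · push Not at hnp
      exact Or.inr hnp
    left
    haveI : Nonempty (Fin (t + 1) → Fin m) := ⟨fun _ => ⟨0, by omega⟩⟩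
    set G0 := G.map (toS F m (t + 1)).toMonoidHom
    set N0 := (monomial F m (t + 1 + 1)).map (toS F m (t + 1)).toMonoidHom
    have hG : UGrp q G0 := ugrp_toS hB hI
    have hP : NoPar q G0 := by
      have h1 := hnp 1
      rwa [conjG_one] at h1
    have htail : ∀ κ ∈ tailU q G, κ ∈ monomial F m (t + 1) := by
      intro κ hκ
      rcases ih (tailU q G) (baseU_tail hF hm3 hB hI)
          (fun g hg => (Subgroup.mem_inf.1 hg).2)
          (fun h3 => perms_tailU hF hm3 (by omega) hI (hPerm (by omega))) with h | ⟨σ, hσ⟩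
      · exact h hκ
      · obtain ⟨τ, hτ⟩ := not_noPar_of_tail hF hm3 hB hσ
        exact absurd (hnp τ) hτ
    have hline_iso : ∀ {h : (Fin m → Ten F m (t + 1)) ≃ₗ[F] (Fin m → Ten F m (t + 1))}
        {v v' : Fin m → F}, (∀ X Y, hV q (h X) (h Y) = hV q X Y) → herm q v v = 0 → v' ≠ 0 →
        v ≠ 0 → (∀ w, h (ins v w) ∈ line (Ten F m (t + 1)) v') → herm q v' v' = 0 := by
      intro h v v' hiso hv hv' hv0 hl
      have hle : (line (Ten F m (t + 1)) v).map h.toLinearMap ≤ line (Ten F m (t + 1)) v' := by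
        rintro _ ⟨_, ⟨w, rfl⟩, rfl⟩
        exact hl w
      have heq := Submodule.eq_of_le_of_finrank_le hle (by
        rw [LinearEquiv.finrank_map_eq, finrank_line hF hv0, finrank_line hF hv'])
      obtain ⟨z⟩ := (inferInstance : Nonempty (Fin (t + 1) → Fin m))
      obtain ⟨_, ⟨w, rfl⟩, hw⟩ := heq.ge ⟨Pi.single z 1, rfl⟩
      have h2 := hV_ins_ins hF v' v' (Pi.single z 1) (Pi.single z 1)
      rw [← hw, LinearEquiv.coe_coe, hiso, hV_ins_ins hF, hv, zero_mul, hm_single z hF.q_ne_zero,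
        mul_one] at h2
      exact h2.symm
    -- `hB1`
    have hB1 : ∀ g ∈ G, ∀ v v' : Fin m → F, v ≠ 0 → herm q v v = 0 → v' ≠ 0 →
        (∀ w, toS F m (t + 1) g (ins v w) ∈ line (Ten F m (t + 1)) v') →
        g ∈ monomial F m (t + 1 + 1) := by
      intro g hg v v' hv0 hv hv'0 hline
      have hgG := Subgroup.mem_map_of_mem (toS F m (t + 1)).toMonoidHom hg
      obtain ⟨B, k, hBk⟩ := isT_of_line hF hG hG hP
        (fun f hf => G0.mul_mem (G0.mul_mem hgG hf) (G0.inv_mem hgG)) hm3 hex (hG.iso _ hgG)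
        hv0 hv hv'0 (hline_iso (hG.iso _ hgG) hv hv'0 hv0 hline) hline
      obtain ⟨c, hc, hmem⟩ := normalise hF hm3 hI hg hBk
      exact mem_monomial_of_isT hBk
        ((Subgroup.mul_mem_cancel_left _ (scal_mem hc (by omega))).1 (htail _ hmem))
    suffices G0 ≤ N0 by
      intro g hg
      exact (Subgroup.mem_map_iff_mem (toS F m (t + 1)).injective).1
        (this (Subgroup.mem_map_of_mem _ hg))
    refine split_le hF hm3 hex hG hP ?_ ?_
    · rintro _ ⟨g, hg, rfl⟩ v v' hv0 hv hv'0 - hline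
      exact Subgroup.mem_map_of_mem _ (hB1 g hg v v' hv0 hv hv'0 hline)
    rintro _ ⟨g, hg, rfl⟩ hxN v hv0 hv
    simp only [MulEquiv.coe_toMonoidHom] at hxN ⊢
    have hgN : g ∉ monomial F m (t + 1 + 1) := fun h => hxN (Subgroup.mem_map_of_mem _ h)
    by_contra hcon
    push Not at hcon
    -- the monomial element of each transvection
    let Tc : F → Ten F m (t + 1 + 1) → Ten F m (t + 1 + 1) := fun c X =>
      (slice F m (t + 1)).symm ((toS F m (t + 1) g)⁻¹
        (c • ins v (evh q v (toS F m (t + 1) g (slice F m (t + 1) X)))))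
    have hroot : ∀ c : F, c ^ q = -c → ∃ n ∈ monomial F m (t + 1 + 1), ∀ X, n X = X + Tc c X := by
      intro c hc
      obtain ⟨τ, hτ, hτx⟩ := mem_transv hF hG hv hc
      have hτx' : ∀ X, τ X = X + c • ins v (evh q v X) := fun X => by
        rw [hτx, root_apply, LinearMap.smul_apply, LinearMap.id_apply, map_smul]
      obtain ⟨n, hn, hnx⟩ := hcon c τ hτ hτx'
      refine ⟨n, hn, fun X => (slice F m (t + 1)).injective ?_⟩
      have h1 : toS F m (t + 1) n (slice F m (t + 1) X) =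
          ((toS F m (t + 1) g)⁻¹ * τ * toS F m (t + 1) g) (slice F m (t + 1) X) :=
        congrArg (fun e : (Fin m → Ten F m (t + 1)) ≃ₗ[F] (Fin m → Ten F m (t + 1)) =>
          e (slice F m (t + 1) X)) hnx
      rw [LinearEquiv.mul_apply, LinearEquiv.mul_apply, hτx', map_add, inv_apply_self, toS_apply,
        LinearEquiv.symm_apply_apply] at h1
      rw [h1, map_add, LinearEquiv.apply_symm_apply]
    obtain ⟨y, -, hy, -⟩ := exists_dual hF hv0 hv
    have hadd : ∀ c c' X, Tc c X + Tc c' X = Tc (c + c') X := fun c c' X => by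
      simp only [Tc, add_smul, map_add]
    have hTT : ∀ c c' X, Tc c (Tc c' X) = 0 := fun c c' X => by
      simp only [Tc, LinearEquiv.apply_symm_apply, self_inv_apply, map_smul, evh_ins, hv, zero_smul,
        map_zero, smul_zero]
    have hfacts : ∀ (c : F) (n : Ten F m (t + 1 + 1) ≃ₗ[F] Ten F m (t + 1 + 1)),
        (∀ X, n X = X + Tc c X) →
        (∀ X, n (n X - X) = n X - X) ∧
        finrank F (LinearMap.range (n.toLinearMap - LinearMap.id)) * m ≤ m ^ (t + 1 + 1) ∧
        (c ≠ 0 → n ≠ 1) := by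
      intro c n hn
      refine ⟨fun X => ?_, ?_, fun hc0 h1 => ?_⟩
      · rw [hn (n X - X), hn X, add_sub_cancel_left, hTT, add_zero]
      · rw [pow_succ]
        refine Nat.mul_le_mul_right m ?_
        rw [← finrank_ten (F := F) (m := m) (t := t + 1)]
        refine (Submodule.finrank_mono (t := LinearMap.range ((slice F m (t + 1)).symm.toLinearMap ∘ₗ
          ((toS F m (t + 1) g)⁻¹ : _ ≃ₗ[F] _).toLinearMap ∘ₗ ins (W := Ten F m (t + 1)) v)) ?_).trans
            (LinearMap.finrank_range_le _)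
        rintro _ ⟨X, rfl⟩
        refine ⟨c • evh q v (toS F m (t + 1) g (slice F m (t + 1) X)), ?_⟩
        simp [hn, Tc, -ev_apply]
      · obtain ⟨w, hw⟩ := exists_ne (0 : Ten F m (t + 1))
        have h2 := hn ((slice F m (t + 1)).symm ((toS F m (t + 1) g)⁻¹ (ins y w)))
        rw [h1] at h2
        simp only [Tc, LinearEquiv.apply_symm_apply, self_inv_apply, evh_ins, hy, one_smul] at h2
        have h3 := add_eq_left.1 h2.symm
        rw [LinearEquiv.map_eq_zero_iff, LinearEquiv.map_eq_zero_iff, smul_eq_zero] at h3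
        exact hw (ins_injective hv0 ((h3.resolve_left hc0).trans (map_zero _).symm))
    obtain ⟨c, n, A, hc0, hn, hA⟩ : ∃ (c : F)
        (n : Ten F m (t + 1 + 1) ≃ₗ[F] Ten F m (t + 1 + 1))
        (A : Fin (t + 1 + 1) → Matrix (Fin m) (Fin m) F), c ≠ 0 ∧
        (∀ X, n X = X + Tc c X) ∧ Wit 1 A n := by
      obtain ⟨c, hc0, hc⟩ := hF.exists_skew
      obtain ⟨n, ⟨σ, A, hA⟩, hn⟩ := hroot c hc
      by_cases h1 : σ = 1
      · exact ⟨c, n, A, hc0, hn, h1 ▸ hA⟩
      obtain ⟨a, b, -⟩ := hfacts c n hn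
      rcases Nat.lt_or_ge m 4 with hm4 | hm4
      swap
      · exact (false_of_ne_one hm4 hA a b h1).elim
      have hq : 3 ≤ q := by
        by_contra hq
        exact hex ⟨by have := hF.one_lt; omega, by omega⟩
      obtain ⟨l, hl0, hl, hl2⟩ : ∃ l : F, l ≠ 0 ∧ (1 + l) ≠ 0 ∧ l ^ q = l := by
        by_cases h2 : (2 : F) = 0
        · obtain ⟨x, hx0, hx⟩ : ∃ x : F, x ≠ 0 ∧ x ^ (q + 1) ≠ 1 := by
            by_contra hcon
            push Not at hcon
            haveI := Fintype.ofFinite F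
            have h3 : Nat.card Fˣ ≤ q + 1 := by
              rw [← hF.card_norm_one]
              exact Nat.card_le_card_of_injective
                (fun x : Fˣ => (⟨(x : F), hcon _ x.ne_zero⟩ : {x : F // x ^ (q + 1) = 1}))
                fun x y hxy => Units.ext (congrArg Subtype.val hxy)
            rw [hF.card_units] at h3
            have : 2 * (q + 1) ≤ (q - 1) * (q + 1) := Nat.mul_le_mul_right _ (by omega)
            omega
          refine ⟨x ^ (q + 1), pow_ne_zero _ hx0, fun h0 => hx ?_, ?_⟩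
          · linear_combination h0 - h2
          · rw [pow_succ, mul_pow, hF.pow_pow, mul_comm]
        · exact ⟨1, one_ne_zero, by rwa [one_add_one_eq_two], one_pow q⟩
      have hlc : (l * c) ^ q = -(l * c) := by rw [mul_pow, hl2, hc, mul_neg]
      obtain ⟨n', ⟨σ', A', hA'⟩, hn'⟩ := hroot (l * c) hlc
      by_cases h2 : σ' = 1
      · exact ⟨_, n', A', mul_ne_zero hl0 hc0, hn', h2 ▸ hA'⟩
      have hsum : ∀ X, (n * n') X = X + Tc ((1 + l) * c) X := fun X => by
        rw [LinearEquiv.mul_apply, hn' X, map_add, hn, hn, hTT, add_zero, one_add_mul, ← hadd]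
        abel
      by_cases h3 : σ' * σ = 1
      · exact ⟨_, n * n', _, mul_ne_zero hl hc0, hsum, h3 ▸ hA.mul hA'⟩
      exfalso
      obtain ⟨a', b', -⟩ := hfacts _ n' hn'
      obtain ⟨a'', b'', -⟩ := hfacts _ _ hsum
      have := sign_of_ne_one hm3 (hA.mul hA') a'' b'' h3
      rw [map_mul, sign_of_ne_one hm3 hA a b h1, sign_of_ne_one hm3 hA' a' b' h2] at this
      exact absurd this (by decide)
    obtain ⟨hsq, hrank, hne⟩ := hfacts c n hn
    obtain ⟨j, s, hs, hblock⟩ := exists_bspan hm3 _ A n hA hsq hrank (hne hc0)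
    have himg : ∀ w, g⁻¹ ((slice F m (t + 1)).symm (ins v w)) ∈ bspan j s := fun w => by
      have h2 := hblock ((slice F m (t + 1)).symm ((toS F m (t + 1) g)⁻¹ (ins y w)))
      rw [hn, add_sub_cancel_left] at h2
      simp only [Tc, LinearEquiv.apply_symm_apply, self_inv_apply, evh_ins, hy, one_smul,
        map_smul] at h2
      rw [(bspan j s).smul_mem_iff hc0, ← map_inv, toS_apply,
        LinearEquiv.symm_apply_apply] at h2
      exact h2
    -- images of blocks
    have hslice : ∀ s : Fin m → F, (bspan (0 : Fin (t + 1 + 1)) s).map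
        (slice F m (t + 1)).toLinearMap ≤ line (Ten F m (t + 1)) s := fun s => by
      rw [bspan, Submodule.map_span_le]
      rintro _ ⟨us, hus, rfl⟩
      rw [LinearEquiv.coe_coe, slice_pvec, show us 0 = s from hus]
      exact ⟨_, rfl⟩
    have hmove : ∀ (P : Ten F m (t + 1 + 1) ≃ₗ[F] Ten F m (t + 1 + 1))
        (B : Fin (t + 1 + 1) → Matrix (Fin m) (Fin m) F), Wit (Equiv.swap 0 j) B P →
        ∀ w, toS F m (t + 1) (P * g⁻¹) (ins v w) ∈ line (Ten F m (t + 1)) (B 0 *ᵥ s) :=
      fun P B hP' w => by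
      have hle : (bspan j s).map P.toLinearMap ≤ bspan 0 (B 0 *ᵥ s) := by
        rw [bspan, Submodule.map_span_le]
        rintro _ ⟨us, hus, rfl⟩
        rw [LinearEquiv.coe_coe, hP']
        refine Submodule.subset_span ⟨_, ?_, rfl⟩
        simp [show us j = s from hus]
      exact hslice _ ⟨_, hle ⟨_, himg w, rfl⟩, rfl⟩
    rcases eq_or_ne j 0 with rfl | hj
    · refine hgN ((Subgroup.inv_mem_iff _).1 (hB1 g⁻¹ (G.inv_mem hg) v s hv0 hv hs fun w => ?_))
      exact hslice _ ⟨_, himg w, rfl⟩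
    rcases Nat.eq_zero_or_pos t with rfl | h2
    · set σ := Equiv.swap (0 : Fin 2) j with hσ
      have hline : ∀ w, toS F m 1 (perm F m σ * g⁻¹) (ins v w) ∈ line (Ten F m 1) s := fun w => by
        simpa using hmove (perm F m σ) (fun _ => 1)
          (by have := wit_perm (F := F) (m := m) σ; rwa [hσ, Equiv.symm_swap] at this) w
      have hiso : ∀ X Y, hV q (toS F m 1 (perm F m σ * g⁻¹) X)
          (toS F m 1 (perm F m σ * g⁻¹) Y) = hV q X Y := fun X Y => by
        rw [toS_apply, toS_apply, hV_slice, LinearEquiv.mul_apply, LinearEquiv.mul_apply,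
          hm_perm, hI _ (G.inv_mem hg), hm_slice]
      obtain ⟨B, k, hBk⟩ := isT_of_line hF hG (ugrp_toS (baseU_conj hB σ) (isoT_conj hI σ))
        (hnp σ) (h := toS F m 1 (perm F m σ * g⁻¹)) (by
          rintro _ ⟨f, hf, rfl⟩
          refine ⟨perm F m σ * (g⁻¹ * f * g) * (perm F m σ)⁻¹,
            mem_conjG (G.mul_mem (G.mul_mem (G.inv_mem hg) hf) hg), ?_⟩
          simp only [MulEquiv.coe_toMonoidHom, map_mul, map_inv, _root_.mul_inv_rev]
          group)
        hm3 hex hiso hv0 hv hs (hline_iso hiso hv hs hv0 hline) hline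
      have h1 := mem_monomial_of_isT hBk (monomial_one k)
      rw [Subgroup.mul_mem_cancel_left _ (show perm F m σ ∈ monomial F m _ from ⟨_, _, wit_perm σ⟩),
        Subgroup.inv_mem_iff] at h1
      exact hgN h1
    · obtain ⟨P, hPG, B, hPB⟩ := hPerm (by omega) (Equiv.swap 0 j)
      have hB0 : B 0 *ᵥ s ≠ 0 := fun h0 => hs (wit_injective (by omega) hPB 0
        (h0.trans (Matrix.mulVec_zero _).symm))
      have := hB1 _ (G.mul_mem hPG (G.inv_mem hg)) v _ hv0 hv hB0 (hmove P B hPB)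
      rw [Subgroup.mul_mem_cancel_left _ (show P ∈ monomial F m _ from ⟨_, _, hPB⟩),
        Subgroup.inv_mem_iff] at this
      exact hgN this

end Cfsg.Agent.MaxSub.TensorPowU
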