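import Cfsg.Agent.MaxSub.TensorPowU.Top
import Cfsg.Agent.MaxSub.TensorPow.Maximal
import Cfsg.Agent.MaxSub.TensorU.Main

/-!
The stabiliser of a unitary tensor power with `t ≥ 2` factors of dimension `k ≥ 3` is maximal in the
special unitary group.
-/

set_option autoImplicit false
set_option linter.unusedSectionVars false
set_option linter.style.haveILetI false
set_option maxHeartbeats 1000000

namespace Cfsg.Agent.MaxSub.TensorPowU

open Module Matrix Cfsg.Geo Cfsg.Agent.GeoClasses Cfsg.Agent.Classical.U Cfsg.Agent.ClassicalMax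
  Cfsg.Agent.MaxSub.TensorPow
open Cfsg.Agent.MaxSub.TensorU (exists_congr_of_form formOf_one exists_isotropic exists_partner)
open Cfsg.Agent.MaxSub.ExtField (inv_apply_self self_inv_apply)
open scoped MatrixGroups

universe u

variable {F : Type u} [Field F] [Finite F] {n k t q : ℕ}

lemma iso_of_pvec (hF : SqField F q) {f : Ten F k t →ₗ[F] Ten F k t}
    (h : ∀ us vs, hm q (f (pvec us)) (f (pvec vs)) = hm q (pvec us) (pvec vs)) (X Y : Ten F k t) :
    hm q (f X) (f Y) = hm q X Y := by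
  let L : Ten F k t → Ten F k t →ₗ[F] F := fun B =>
    { toFun := fun A => hm q A B
      map_add' := fun A A' => hm_add_left A A' B
      map_smul' := fun c A => hm_smul_left c A B }
  refine LinearMap.congr_fun (ext_pvec (f := L (f Y) ∘ₗ f) (g := L Y) fun us => ?_) X
  show hm q (f (pvec us)) (f Y) = hm q (pvec us) Y
  rw [← hm_symm hF (f Y), ← hm_symm hF Y]
  congr 1
  exact LinearMap.congr_fun (ext_pvec (f := L (f (pvec us)) ∘ₗ f) (g := L (pvec us))
    fun vs => h vs us) Y

/-- A rank one transvection does not permute the pure tensors. -/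
lemma not_monomial_trv (hF : SqField F q) (hk : 2 ≤ k) (ht : 2 ≤ t) {d : F} (hd : d ≠ 0)
    {e : Fin k → F} (he0 : e ≠ 0) (he : herm q e e = 0) {g : Ten F k t ≃ₗ[F] Ten F k t}
    (hg : ∀ X, g X = X + (d * hm q X (pvec fun _ => e)) • pvec fun _ => e) :
    g ∉ monomial F k t := by
  classical
  rintro ⟨σ, A, hA⟩
  obtain ⟨y, hy⟩ := exists_partner hF he0 he
  have hye : herm q y e = 1 := (hy.symm hF).2.2
  have h1 := hA fun _ => y
  rw [hg, hm_pvec, Finset.prod_eq_one fun i _ => hye, mul_one] at h1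
  set i0 : Fin t := ⟨0, by omega⟩
  set i1 : Fin t := ⟨1, by omega⟩
  have h01 : i0 ≠ i1 := by simp [i0, i1, Fin.ext_iff]
  set a := cv q e
  set b := cv q y
  set T : Fin t → Fin k → F := fun i => A i *ᵥ y
  let ψ : (Fin k → F) → (Fin k → F) → Fin t → Fin k → F := fun x x' i =>
    if i = i0 then x else if i = i1 then x' else a + b
  have hval : ∀ x x', fprod (ψ x x') (pvec fun _ => y) + d * fprod (ψ x x') (pvec fun _ => e) =
      (x ⬝ᵥ T i0) * ((x' ⬝ᵥ T i1) * ∏ i ∈ (Finset.univ.erase i0).erase i1, (a + b) ⬝ᵥ T i) := by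
    intro x x'
    have h2 := congrArg (fprod (ψ x x')) h1
    rw [map_add, map_smul, smul_eq_mul] at h2
    rw [h2, fprod_pvec, ← Finset.mul_prod_erase _ _ (Finset.mem_univ i0),
      ← Finset.mul_prod_erase (Finset.univ.erase i0) _
        (Finset.mem_erase.2 ⟨h01.symm, Finset.mem_univ i1⟩)]
    simp only [ψ, if_pos, if_neg h01.symm, T]
    congr 2
    refine Finset.prod_congr rfl fun i hi => ?_
    simp only [Finset.mem_erase] at hi
    rw [if_neg hi.2.1, if_neg hi.1]
  have hay : a ⬝ᵥ y = 1 := by rw [cv_dot, hye]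
  have hae : a ⬝ᵥ e = 0 := by rw [cv_dot, he]
  have hby : b ⬝ᵥ y = 0 := by rw [cv_dot, hy.2.1]
  have hbe : b ⬝ᵥ e = 1 := by rw [cv_dot, hy.2.2]
  have v : ∀ (x x' z : Fin k → F), fprod (ψ x x') (pvec fun _ => z) =
      (x ⬝ᵥ z) * ((x' ⬝ᵥ z) * ((a + b) ⬝ᵥ z) ^ (((Finset.univ : Finset (Fin t)).erase i0).erase i1).card) := by
    intro x x' z
    rw [fprod_pvec, ← Finset.mul_prod_erase _ _ (Finset.mem_univ i0),
      ← Finset.mul_prod_erase (Finset.univ.erase i0) _
        (Finset.mem_erase.2 ⟨h01.symm, Finset.mem_univ i1⟩), ← Finset.prod_const]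
    simp only [ψ, if_pos, if_neg h01.symm]
    congr 2
    refine Finset.prod_congr rfl fun i hi => ?_
    simp only [Finset.mem_erase] at hi
    rw [if_neg hi.2.1, if_neg hi.1]
  have hab : (a + b) ⬝ᵥ y = 1 ∧ (a + b) ⬝ᵥ e = 1 := by
    rw [add_dotProduct, add_dotProduct, hay, hby, hae, hbe, add_zero, zero_add]
    exact ⟨rfl, rfl⟩
  have c00 := hval a a
  have c11 := hval b b
  have c01 := hval a b
  have c10 := hval b a
  simp only [v, hay, hae, hby, hbe, hab.1, hab.2, one_pow, one_mul, zero_mul, mul_one,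
    mul_zero, zero_add, add_zero] at c00 c11 c01 c10
  set R := ∏ i ∈ (Finset.univ.erase i0).erase i1, (a + b) ⬝ᵥ T i
  refine hd ?_
  calc d = 1 * d := (one_mul d).symm
    _ = (a ⬝ᵥ T i0) * ((a ⬝ᵥ T i1) * R) * ((b ⬝ᵥ T i0) * ((b ⬝ᵥ T i1) * R)) := by rw [← c00, ← c11]
    _ = (a ⬝ᵥ T i0) * ((b ⬝ᵥ T i1) * R) * ((b ⬝ᵥ T i0) * ((a ⬝ᵥ T i1) * R)) := by ring
    _ = 0 := by rw [← c01, zero_mul]

/-- The stabiliser of a unitary tensor power is maximal. -/
theorem suGL_tensorPow_maximal (hF : SqField F q) (hk : 3 ≤ k) (ht : 2 ≤ t)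
    (hex : ¬ (q = 2 ∧ k = 3)) (e : Fin n ≃ (Fin t → Fin k)) (P : GL (Fin n) F)
    {f₁ : (Fin k → F) → (Fin k → F) → F} (hf₁ : IsUnitaryFormPow q f₁)
    (hT : IsTensorPowerFormStructure (fun x : F => x ^ q) (Cfsg.hermForm n F q) f₁ e P) :
    IsMaximalIn (suGL n F q) (tensorWreathSubgroup k t e P ⊓ suGL n F q) := by
  classical
  obtain ⟨s, rfl⟩ : ∃ s, t = s + 1 := ⟨t - 1, by omega⟩
  obtain ⟨c, hc, hT⟩ := hT
  obtain ⟨D₀, hD₀⟩ := exists_congr_of_form hF hf₁
  set K : GL (Fin (s + 1) → Fin k) F := glPure fun _ => D₀ with hKdef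
  set P' := P * glReindex e.symm K with hP'
  have hsub : tensorWreathSubgroup k (s + 1) e P' = tensorWreathSubgroup k (s + 1) e P := by
    have hKm : K ∈ tensorWreathStandard k (s + 1) F :=
      Subgroup.subset_closure (Or.inl ⟨_, fun x y => rfl⟩)
    ext g
    constructor
    · rintro ⟨_, ⟨x, hx, rfl⟩, rfl⟩
      refine ⟨glReindex e.symm (K * x * K⁻¹), ⟨_, mul_mem (mul_mem hKm hx) (inv_mem hKm), rfl⟩, ?_⟩
      simp [MulAut.conj_apply, hP', mul_assoc]
    · rintro ⟨_, ⟨x, hx, rfl⟩, rfl⟩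
      refine ⟨glReindex e.symm (K⁻¹ * x * K), ⟨_, mul_mem (mul_mem (inv_mem hKm) hx) hKm, rfl⟩, ?_⟩
      simp [MulAut.conj_apply, hP', mul_assoc]
  rw [← hsub]
  have hre : ∀ (g : GL (Fin (s + 1) → Fin k) F) (x : (Fin (s + 1) → Fin k) → F),
      ((glReindex e.symm g : GL (Fin n) F) : Matrix (Fin n) (Fin n) F) *ᵥ (x ∘ e) =
        ((g : Matrix (Fin (s + 1) → Fin k) (Fin (s + 1) → Fin k) F) *ᵥ x) ∘ e := fun g x => by
    funext i
    simp only [glReindex_apply, Matrix.mulVec, dotProduct, Matrix.reindexAlgEquiv_apply,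
      Matrix.reindex_apply, Matrix.submatrix_apply, Equiv.symm_symm, Function.comp_apply]
    exact Equiv.sum_comp e fun p => (g : Matrix _ _ F) (e i) p * x p
  let v₀ : Ten F k (s + 1) → Fin n → F := fun x => (P' : Matrix (Fin n) (Fin n) F) *ᵥ (x ∘ e)
  have hv₀ : Function.Surjective v₀ := fun u =>
    ⟨(((P'⁻¹ : GL (Fin n) F) : Matrix (Fin n) (Fin n) F) *ᵥ u) ∘ e.symm, by
      show (P' : Matrix (Fin n) (Fin n) F) *ᵥ ((((P'⁻¹ : GL (Fin n) F) : Matrix (Fin n) (Fin n) F) *ᵥ u) ∘ e.symm ∘ e) = u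
      rw [Equiv.symm_comp_self, Function.comp_id, Matrix.mulVec_mulVec, ← Units.val_mul,
        mul_inv_cancel, Units.val_one, Matrix.one_mulVec]⟩
  have hform : ∀ x y, herm q (v₀ x) (v₀ y) = c * hm q x y := fun x y => by
    show Cfsg.hermForm n F q _ _ = _
    simp only [v₀, hP', Units.val_mul, ← Matrix.mulVec_mulVec, hre]
    rw [hT]
    congr 1
    have h1 := formOfGram_eq (qConj hF) (pureMat fun _ : Fin (s + 1) => gramMatrix f₁)
    have h2 := congrFun (congrFun h1 ((K : Matrix (Fin (s + 1) → Fin k) (Fin (s + 1) → Fin k) F) *ᵥ x)) ((K : Matrix (Fin (s + 1) → Fin k) (Fin (s + 1) → Fin k) F) *ᵥ y)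
    refine Eq.trans ?_ (h2.trans ?_)
    · rfl
    rw [formOf_mulVec, show (K : Matrix (Fin (s + 1) → Fin k) (Fin (s + 1) → Fin k) F) = pureMat fun _ => (D₀ : Matrix (Fin k) (Fin k) F)
        from rfl, adjForm_pureMat, hD₀, pureMat_one, formOf_one]
    rfl
  set ψ : GL (Fin (s + 1) → Fin k) F ≃* GL (Fin n) F :=
    (glReindex e.symm).trans (MulAut.conj P') with hψ
  have hψv : ∀ g x, ((ψ g : GL (Fin n) F) : Matrix (Fin n) (Fin n) F) *ᵥ v₀ x =
      v₀ (actT F k (s + 1) g x) := fun g x => by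
    show ((P' : Matrix (Fin n) (Fin n) F) * ((glReindex e.symm g : GL (Fin n) F) : Matrix (Fin n) (Fin n) F) *
      ((P'⁻¹ : GL (Fin n) F) : Matrix (Fin n) (Fin n) F)) *ᵥ v₀ x = _
    rw [actT_apply, Matrix.mulVec_mulVec, mul_assoc, Units.inv_mul, mul_one, ← Matrix.mulVec_mulVec, hre]
  have hdet : ∀ g, ψ g ∈ specialLinear (Fin n) F ↔
      LinearMap.det (actT F k (s + 1) g).toLinearMap = 1 := fun g => by
    rw [det_actT, mem_specialLinear_iff, show ((ψ g : GL (Fin n) F) : Matrix (Fin n) (Fin n) F) =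
      (P' : Matrix (Fin n) (Fin n) F) * ((glReindex e.symm g : GL (Fin n) F) : Matrix (Fin n) (Fin n) F) *
        ((P'⁻¹ : GL (Fin n) F) : Matrix (Fin n) (Fin n) F) from rfl,
      Matrix.det_units_conj, glReindex_apply, Matrix.det_reindexAlgEquiv]
  have hwr : ∀ g, ψ g ∈ tensorWreathSubgroup k (s + 1) e P' ↔
      actT F k (s + 1) g ∈ monomial F k (s + 1) := fun g => by
    rw [tensorWreathSubgroup, Subgroup.map_map, ← mem_standard_iff (by omega)]
    exact Subgroup.mem_map_iff_mem (f := (MulAut.conj P').toMonoidHom.comp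
      (glReindex e.symm).toMonoidHom) (K := tensorWreathStandard k (s + 1) F) ψ.injective
  have hgu : ∀ g, (∀ X Y, hm q (actT F k (s + 1) g X) (actT F k (s + 1) g Y) = hm q X Y) →
      ψ g ∈ Cfsg.GU n F q := fun g hg x y => by
    obtain ⟨X, rfl⟩ := hv₀ x
    obtain ⟨Y, rfl⟩ := hv₀ y
    show herm q (((ψ g : GL (Fin n) F) : Matrix (Fin n) (Fin n) F) *ᵥ v₀ X)
      (((ψ g : GL (Fin n) F) : Matrix (Fin n) (Fin n) F) *ᵥ v₀ Y) = _
    rw [hψv, hψv, hform, hg]
    exact (hform X Y).symm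
  haveI : Nonempty (Fin (s + 1) → Fin k) := ⟨fun _ => ⟨0, by omega⟩⟩
  have hcq : c ^ q = c := by
    obtain ⟨z⟩ := (inferInstance : Nonempty (Fin (s + 1) → Fin k))
    have h2 := hform (Pi.single z 1) (Pi.single z 1)
    rw [hm_single z hF.q_ne_zero, mul_one] at h2
    rw [← h2, hF.herm_symm]
  obtain ⟨v₁, hv₁0, hv₁⟩ := exists_isotropic hF (n := k) (by omega)
  refine ⟨lt_of_le_not_ge inf_le_right fun hle => ?_, fun M hM hMS => ?_⟩
  · set p : Ten F k (s + 1) := pvec fun _ => v₁
    have hp : herm q (v₀ p) (v₀ p) = 0 := by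
      rw [hform, hm_pvec, Finset.prod_eq_zero (Finset.mem_univ 0) hv₁, mul_zero]
    obtain ⟨δ, hδ0, hδ⟩ := hF.exists_skew
    obtain ⟨g, hg⟩ := ψ.surjective (uTau hp δ)
    have hmem : ψ g ∈ tensorWreathSubgroup k (s + 1) e P' := by
      rw [hg]; exact (hle (uTau_mem hF hp hδ)).1
    refine not_monomial_trv hF (by omega) ht (mul_ne_zero hδ0 hc) hv₁0 hv₁ (fun X => ?_)
      ((hwr g).1 hmem)
    have h1 := hψv g X
    rw [hg, (uTau_isTransvec hp δ).apply_eq, LinearMap.smul_apply, hermDual_apply] at h1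
    have hinj : Function.Injective v₀ := fun x y hxy =>
      funext fun z => by
        have := congrFun (Matrix.mulVec_injective_iff_isUnit.2 P'.isUnit hxy) (e.symm z)
        simpa using this
    refine hinj ?_
    rw [← h1, show Cfsg.hermForm n F q (v₀ X) (v₀ p) = c * hm q X p from hform X p, smul_eq_mul,
      ← mul_assoc]
    simp only [v₀, Pi.add_comp, Pi.smul_comp, Matrix.mulVec_add, Matrix.mulVec_smul, p]
  let G : Subgroup (Ten F k (s + 1) ≃ₗ[F] Ten F k (s + 1)) :=
    M.comap ((actT F k (s + 1)).symm.trans ψ).toMonoidHom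
  have hG : ∀ f, f ∈ G ↔ ψ ((actT F k (s + 1)).symm f) ∈ M := fun f => Iff.rfl
  have hI : IsoT q G := fun f hf X Y => by
    have h1 := (hMS ((hG f).1 hf)).1 (v₀ X) (v₀ Y)
    simp only [Units.coeHom_apply] at h1
    rw [hψv, hψv, MulEquiv.apply_symm_apply] at h1
    exact mul_left_cancel₀ hc ((hform _ _).symm.trans (h1.trans (hform X Y)))
  have hin : ∀ f : Ten F k (s + 1) ≃ₗ[F] Ten F k (s + 1), f ∈ monomial F k (s + 1) →
      (∀ X Y, hm q (f X) (f Y) = hm q X Y) → LinearMap.det f.toLinearMap = 1 → f ∈ G :=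
    fun f hf hiso hd => (hG f).2 (hM ⟨(hwr _).2 (by simpa using hf),
      hgu _ (by simpa using hiso), (hdet _).2 (by simpa using hd)⟩)
  have hB : BaseU q G := fun j => by
    let S : Subgroup (UG k F q) :=
      { carrier := {g | ∃ f ∈ G, ∀ us, f (pvec us) = pvec (Function.update us j (g.1 (us j)))}
        one_mem' := ⟨1, one_mem _, fun us => by simp⟩
        mul_mem' := by
          rintro a b ⟨f, hf, hfx⟩ ⟨f', hf', hfx'⟩
          refine ⟨f * f', mul_mem hf hf', fun us => ?_⟩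
          rw [LinearEquiv.mul_apply, hfx', hfx, Function.update_self, Function.update_idem]
          rfl
        inv_mem' := by
          rintro a ⟨f, hf, hfx⟩
          refine ⟨f⁻¹, inv_mem hf, fun us => f.injective ?_⟩
          rw [self_inv_apply, hfx, Function.update_self, Function.update_idem]
          show _ = pvec (Function.update us j (a.1 (a.1.symm (us j))))
          rw [LinearEquiv.apply_symm_apply, Function.update_eq_self] }
    suffices SUG k F q ≤ S from fun g hg => this hg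
    rw [SUG_eq_TG hF (by omega) (fun h => hex ⟨h.2, h.1⟩), TG, Subgroup.closure_le]
    rintro g ⟨w, a, hwa, hga⟩
    set U := pos j (vecMulVec (a • w) (cv q w)) with hU
    have hUU : U * U = 0 := by
      rw [hU, pos_mul, Matrix.vecMulVec_mul_vecMulVec, dotProduct_smul, cv_dot, hwa.1, smul_zero,
        zero_smul, Matrix.vecMulVec_zero]
      exact (posL (F := F) (m := k) j).map_zero
    have hsq : (Matrix.toLin' U : Module.End F (Ten F k (s + 1))) * Matrix.toLin' U = 0 := by
      rw [Module.End.mul_eq_comp, ← Matrix.toLin'_mul, hUU, map_zero]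
    have hUx : ∀ X, Matrix.toLin' U (Matrix.toLin' U X) = 0 := LinearMap.congr_fun hsq
    let f : Ten F k (s + 1) ≃ₗ[F] Ten F k (s + 1) := LinearEquiv.ofLinearMap
      (LinearMap.id + Matrix.toLin' U) (LinearMap.id - Matrix.toLin' U)
      (LinearMap.ext fun X => by simp [hUx, -Matrix.toLin'_apply])
      (LinearMap.ext fun X => by simp [hUx, -Matrix.toLin'_apply])
    have hfx : ∀ us, f (pvec us) = pvec (Function.update us j (g.1 (us j))) := fun us => by
      show pvec us + Matrix.toLin' U (pvec us) = _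
      rw [Matrix.toLin'_apply, hU, pos_pvec, Matrix.vecMulVec_mulVec, cv_dot, op_smul_eq_smul, hga,
        smul_smul, mul_comm, pvec_update_add, Function.update_eq_self]
    refine ⟨f, hin f (pos_mem_monomial (j := j) (M := vecMulVec (a • w) (cv q w)) fun X => rfl)
      (fun X Y => iso_of_pvec hF (f := f.toLinearMap) (fun us vs => ?_) X Y)
      (det_one_add_eq_one hsq), hfx⟩
    simp only [LinearEquiv.coe_coe, hfx, hm_pvec]
    refine Finset.prod_congr rfl fun i _ => ?_
    rcases eq_or_ne i j with rfl | hi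
    · rw [Function.update_self, Function.update_self, UG_app]
    · rw [Function.update_of_ne hi, Function.update_of_ne hi]
  have hP : 3 ≤ s + 1 → Perms G := fun h3 σ => by
    have hw : Wit σ (fun _ => (1 : Matrix (Fin k) (Fin k) F)) (perm F k σ.symm) := by
      simpa using wit_perm (F := F) (m := k) σ.symm
    rcases Nat.even_or_odd k with hme | hmo
    · exact ⟨_, hin _ ⟨_, _, hw⟩ (hm_perm σ.symm) (permDet_eq_one hme (by omega) σ.symm), _, hw⟩
    set D := permDet F k (s + 1) σ.symm with hDdef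
    have hD2 : D * D = 1 := permDet_sq σ.symm
    have hD0 : D ≠ 0 := fun h0 => one_ne_zero (hD2.symm.trans (by rw [h0, mul_zero]))
    have hDq : D * D ^ q = 1 := by
      rcases mul_self_eq_one_iff.1 hD2 with h | h
      · rw [h, one_pow, mul_one]
      · rw [h, hF.neg_pow, one_pow]; ring
    set g := LinearEquiv.smulOfUnit (R := F) (M := Ten F k (s + 1)) (Units.mk0 D hD0) *
      perm F k σ.symm
    have hg : Wit σ (Function.update (fun _ => (1 : Matrix (Fin k) (Fin k) F)) 0 (D • 1)) g :=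
      fun us => by
        show D • perm F k σ.symm (pvec us) = _
        rw [hw]
        have e1 : (fun i => Function.update (fun _ => (1 : Matrix (Fin k) (Fin k) F)) 0 (D • 1) i *ᵥ
            us (σ i)) = Function.update (fun i => us (σ i)) 0 (D • us (σ 0)) := by
          funext i
          rcases eq_or_ne i 0 with rfl | hi
          · simp [Matrix.smul_mulVec]
          · simp [Function.update_of_ne hi]
        rw [e1, pvec_update_smul, Function.update_eq_self]
        simp
    refine ⟨g, hin g ⟨_, _, hg⟩ (fun X Y => ?_) ?_, _, hg⟩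
    · show hm q (D • perm F k σ.symm X) (D • perm F k σ.symm Y) = _
      rw [hm_smul_left, hm_smul_right, hm_perm, ← mul_assoc, hDq, one_mul]
    have : g.toLinearMap = D • (perm F k σ.symm).toLinearMap := rfl
    rw [this, LinearMap.det_smul, finrank_ten]
    show D ^ k ^ (s + 1) * D = 1
    obtain ⟨r, hr⟩ : Odd (k ^ (s + 1)) := hmo.pow
    rw [hr, pow_succ, pow_mul, pow_two, hD2, one_pow, one_mul, hD2]
  rcases monomial_or_allT hF hk hex G hB hI hP with h | h
  · refine Or.inl (le_antisymm (le_inf (fun g hg => ?_) hMS) hM)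
    obtain ⟨f, rfl⟩ := ψ.surjective g
    exact (hwr f).2 (h ((hG _).2 (by rwa [MulEquiv.symm_apply_apply])))
  · refine Or.inr (le_antisymm hMS ?_)
    suffices hS : SUG n F q ≤ M.comap (ugToGL n F q) by
      intro g hg
      obtain ⟨x, hx, rfl⟩ := exists_ugToGL_eq hg
      exact hS hx
    have hn : n = k ^ (s + 1) := by simpa using Fintype.card_congr e
    have hn4 : 4 ≤ n := by
      rw [hn]
      calc 4 ≤ k ^ 2 := by nlinarith
        _ ≤ k ^ (s + 1) := Nat.pow_le_pow_right (by omega) ht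
    rw [SUG_eq_TG hF (by omega) (by omega), TG, Subgroup.closure_le]
    rintro x ⟨v, a, hva, hx⟩
    obtain ⟨V, rfl⟩ := hv₀ v
    have hV : hm q V V = 0 := by
      have h1 := hva.1
      rw [hform] at h1
      exact (mul_eq_zero.1 h1).resolve_left hc
    obtain ⟨g, hg, hgx⟩ := h V hV (a * c) (by rw [mul_pow, hva.2, hcq, neg_mul])
    show ugToGL n F q x ∈ M
    suffices heq : ugToGL n F q x = ψ ((actT F k (s + 1)).symm g) by rw [heq]; exact (hG g).1 hg
    refine gl_ext_mulVec fun u => ?_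
    obtain ⟨X, rfl⟩ := hv₀ u
    rw [hψv, MulEquiv.apply_symm_apply, hgx, ugToGL_mulVec, hx, hform, ← mul_assoc]
    simp only [v₀, Pi.add_comp, Pi.smul_comp, Matrix.mulVec_add, Matrix.mulVec_smul]

end Cfsg.Agent.MaxSub.TensorPowU
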