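import Cfsg.Agent.MaxSub.TensorPowU.Line
import Cfsg.Agent.MaxSub.TensorPow.TwoSquareZero

/-!
A group containing the special unitary group of the first factor and without non-scalar parameters
lies in every subgroup `N` containing the elements mapping an isotropic line `v ⊗ W` to another and
closed under the conjugation criterion `hB2`.
-/

set_option autoImplicit false
set_option linter.unusedSectionVars false
set_option linter.style.haveILetI false
set_option maxHeartbeats 1000000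

namespace Cfsg.Agent.MaxSub.TensorPowU

open Module Matrix Cfsg.Agent.Classical.U Cfsg.Agent.MaxSub.TensorPow
open Cfsg.Agent.MaxSub.TensorU (exists_partner exists_ne_pow herm_eq_zero_symm exists_second_pair
  mem_of_isotropic perpTwo mem_perpTwo finrank_perpTwo exists_isotropic dualF dualF_apply)
open Cfsg.Agent.MaxSub.ExtField (Mem inv_apply_self self_inv_apply)

universe u

variable {F : Type u} [Field F] {m q : ℕ} {κ : Type} [Fintype κ] [DecidableEq κ] [Nonempty κ]

/-- The data of the conjugate `a` of a root element by `x ∉ N`. -/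
structure Sel (q : ℕ) (G N : Subgroup ((Fin m → κ → F) ≃ₗ[F] (Fin m → κ → F)))
    (x a : (Fin m → κ → F) ≃ₗ[F] (Fin m → κ → F)) (v₀ : Fin m → F) (c₀ : F) : Prop where
  hm : 3 ≤ m
  hex : ¬ (q = 2 ∧ m = 3)
  hG : UGrp q G
  hP : NoPar q G
  hB1 : ∀ g ∈ G, ∀ v v' : Fin m → F, v ≠ 0 → herm q v v = 0 → v' ≠ 0 → herm q v' v' = 0 →
    (∀ w, g (ins v w) ∈ line (κ → F) v') → g ∈ N
  hx : x ∈ G
  hxN : x ∉ N
  hv₀ : v₀ ≠ 0
  hiso : herm q v₀ v₀ = 0
  hc₀ : c₀ ≠ 0
  haG : a ∈ G
  ha : ∀ X, a X = X + x (c₀ • ins v₀ (evh q v₀ (x⁻¹ X)))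

/-- The image of the line `v₀ ⊗ W`. -/
abbrev imD (x : (Fin m → κ → F) ≃ₗ[F] (Fin m → κ → F)) (v₀ : Fin m → F) :
    Submodule F (Fin m → κ → F) :=
  (line (κ → F) v₀).map x.toLinearMap

/-- `u` is admissible for `D = x(v₀ ⊗ W)`, relative to `v'`. -/
structure Adm (q : ℕ) (D : Submodule F (Fin m → κ → F)) (u v' : Fin m → F) : Prop where
  hu0 : u ≠ 0
  hu : herm q u u = 0
  hv'0 : v' ≠ 0
  hv' : herm q v' v' = 0
  hsel : ∀ X ∈ D, evh q u X = 0 → X ∈ line (κ → F) v'
  hs : ∃ s, herm q s u = 0 ∧ s ∉ Submodule.span F ({u, v'} : Set (Fin m → F))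

/-- `D` lies in the sum of the line of `u` and a second line. -/
def Plane (q : ℕ) (D : Submodule F (Fin m → κ → F)) (u : Fin m → F) : Prop :=
  ∃ r, herm q r u ≠ 0 ∧ D ≤ line (κ → F) u ⊔ line (κ → F) r ∧ D ⊓ line (κ → F) u = ⊥

/-- Vectors in the sum of two lines have their columns in the span. -/
lemma col_mem {u r : Fin m → F} {X : Fin m → κ → F}
    (hX : X ∈ line (κ → F) u ⊔ line (κ → F) r) (j : κ) :
    (fun i => X i j) ∈ Submodule.span F ({u, r} : Set (Fin m → F)) := by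
  obtain ⟨_, ⟨a, rfl⟩, _, ⟨b, rfl⟩, rfl⟩ := Submodule.mem_sup.1 hX
  exact Submodule.mem_span_pair.2 ⟨a j, b j, funext fun i => by simp [mul_comm]⟩

variable {G N : Subgroup ((Fin m → κ → F) ≃ₗ[F] (Fin m → κ → F))}
  {x a z : (Fin m → κ → F) ≃ₗ[F] (Fin m → κ → F)} {v₀ u v' : Fin m → F} {c₀ : F}

/-- An element commuting with a root element stabilises its line. -/
lemma line_of_root {t g : (Fin m → κ → F) ≃ₗ[F] (Fin m → κ → F)} {c : F} (hc : c ≠ 0)
    {y : Fin m → F} (hy : herm q y u = 1) (ht : ∀ X, t X = X + c • ins u (evh q u X))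
    (h : g * t = t * g) (w : κ → F) : g (ins u w) ∈ line (κ → F) u := by
  refine ⟨evh q u (g (ins y w)), smul_right_injective (Fin m → κ → F) hc ?_⟩
  have h1 := congrFun (congrArg DFunLike.coe h) (ins y w)
  simp only [LinearEquiv.mul_apply, ht, map_add, map_smul, evh_ins, hy, one_smul,
    add_right_inj] at h1
  exact h1.symm

variable (hF : SqField F q)
include hF

lemma finrank_line {v : Fin m → F} (hv : v ≠ 0) :
    finrank F (line (κ → F) v) = finrank F (κ → F) :=
  LinearMap.finrank_range_of_inj (ins_injective hv)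

variable (S : Sel q G N x a v₀ c₀)
include S

lemma Sel.finrank_imD : finrank F (imD x v₀) = finrank F (κ → F) := by
  rw [LinearEquiv.finrank_map_eq, finrank_line hF S.hv₀]

/-- `D` is not the line of any vector. -/
lemma Sel.not_le {s : Fin m → F} (h : imD x v₀ ≤ line (κ → F) s) : False := by
  obtain ⟨i⟩ := (inferInstance : Nonempty κ)
  rcases eq_or_ne s 0 with rfl | hs
  · have h1 : imD x v₀ = ⊥ := le_bot_iff.1 (h.trans (by
      rintro _ ⟨w, rfl⟩; simp [ins_zero]))
    have := S.finrank_imD hF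
    rw [h1, finrank_bot] at this
    exact (Module.finrank_pos (R := F) (M := κ → F)).ne' this.symm
  have heq := Submodule.eq_of_le_of_finrank_le h (by rw [S.finrank_imD hF, finrank_line hF hs])
  refine S.hxN (S.hB1 x S.hx v₀ s S.hv₀ S.hiso hs ?_ fun w => h ⟨_, ⟨w, rfl⟩, rfl⟩)
  have hss : ∀ w, ins s w ∈ imD x v₀ := fun w => heq.ge ⟨w, rfl⟩
  obtain ⟨_, ⟨w₁, rfl⟩, h1⟩ := hss (Pi.single i 1)
  simp only [LinearEquiv.coe_coe] at h1
  have h2 := hV_ins_ins hF s s (Pi.single i 1) (Pi.single i 1)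
  rw [← h1, S.hG.iso x S.hx, hV_ins_ins hF, S.hiso, zero_mul, hm_single i hF.q_ne_zero,
    mul_one] at h2
  exact h2.symm

lemma Sel.a_mem (X : Fin m → κ → F) : a X - X ∈ imD x v₀ := by
  rw [S.ha, add_sub_cancel_left, map_smul]
  exact Submodule.smul_mem _ _ ⟨_, ⟨_, rfl⟩, rfl⟩

lemma Sel.a_fix {X : Fin m → κ → F} (hX : X ∈ imD x v₀) : a X = X := by
  obtain ⟨_, ⟨w, rfl⟩, rfl⟩ := hX
  rw [S.ha, LinearEquiv.coe_coe, inv_apply_self, evh_ins, S.hiso, zero_smul, map_zero, smul_zero,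
    map_zero, add_zero]

lemma Sel.a_ne_one : a ≠ 1 := by
  obtain ⟨y, -, hy, -⟩ := exists_dual hF S.hv₀ S.hiso
  obtain ⟨i⟩ := (inferInstance : Nonempty κ)
  intro h
  have h1 := S.ha (x (ins y (Pi.single i 1)))
  rw [h, inv_apply_self, evh_ins, hy, one_smul, eq_comm] at h1
  have h2 : x (c₀ • ins v₀ (Pi.single i 1)) = 0 := add_eq_left.1 h1
  rw [map_eq_zero_iff _ x.injective, smul_eq_zero] at h2
  have h3 := ins_injective S.hv₀ ((h2.resolve_left S.hc₀).trans (map_zero _).symm)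
  simpa using congrFun h3 i

/-- An element of the radical pair fixing the line of `u` is a root element, or gives a plane. -/
lemma Sel.zcase (A : Adm q (imD x v₀) u v') (hz : z ∈ G)
    (hM : ∀ X, z X - X ∈ line (κ → F) u ⊔ imD x v₀)
    (hline : ∀ w, z (ins u w) ∈ line (κ → F) u) :
    (∃ c : F, c ^ q = -c ∧ ∀ X, z X = X + c • ins u (evh q u X)) ∨ Plane q (imD x v₀) u := by
  classical
  haveI : Finite F := hF.1
  obtain ⟨B, k, hBk⟩ := isT_of_line hF S.hG S.hG S.hP
    (fun g hg => G.mul_mem (G.mul_mem hz hg) (G.inv_mem hz)) S.hm S.hex (S.hG.iso z hz)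
    A.hu0 A.hu A.hu0 A.hu hline
  obtain ⟨i⟩ := (inferInstance : Nonempty κ)
  have hne : ∀ w : κ → F, w ≠ 0 → k w ≠ 0 := fun w hw h0 =>
    hw (k.injective (h0.trans (map_zero k).symm))
  set e : κ → F := Pi.single i 1
  have he : e ≠ 0 := by simp [e]
  obtain ⟨μ, hμ⟩ : ∃ μ : F, μ • u = B *ᵥ u := Submodule.mem_span_singleton.1
    (mem_span_of_perp fun ψ hψ => by
      have h1 := line_le_ker hψ (hline e)
      rw [hBk, ev_ins] at h1
      exact (smul_eq_zero.1 h1).resolve_right (hne e he))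
  have hμ0 : μ ≠ 0 := fun h0 => by
    have h1 : z (ins u e) = 0 := by rw [hBk, ← hμ, h0, zero_smul, ins_zero]
    rw [map_eq_zero_iff _ z.injective] at h1
    exact he (ins_injective A.hu0 (h1.trans (map_zero _).symm))
  have hker : ∀ X, evh q u X = 0 → evh q u (z X) = 0 := fun X hX => by
    refine evh_eq_zero hF fun w => ?_
    have h1 := S.hG.iso z hz (ins u (k.symm w)) X
    rw [hBk, ← hμ, LinearEquiv.apply_symm_apply, ins_smul, hV_smul_left, hV_ins_left hF u
      (k.symm w), hX, hm_zero_right hF, mul_eq_zero] at h1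
    exact h1.resolve_left hμ0
  have hMk : ∀ Y ∈ line (κ → F) u ⊔ imD x v₀, evh q u Y = 0 →
      Y ∈ line (κ → F) u ⊔ line (κ → F) v' := fun Y hY hY0 => by
    obtain ⟨p, ⟨p', rfl⟩, d, hd, rfl⟩ := Submodule.mem_sup.1 hY
    refine add_mem (Submodule.mem_sup_left ⟨p', rfl⟩) (Submodule.mem_sup_right (A.hsel d hd ?_))
    rwa [map_add, evh_ins, A.hu, zero_smul, zero_add] at hY0
  have hkill : ∀ ψ : Fin m → F, ψ ⬝ᵥ u = 0 → ψ ⬝ᵥ v' = 0 →
      ∀ Y ∈ line (κ → F) u ⊔ line (κ → F) v', ev ψ Y = 0 := fun ψ h1 h2 Y hY => by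
    obtain ⟨p, hp, d, hd, rfl⟩ := Submodule.mem_sup.1 hY
    rw [map_add, line_le_ker h1 hp, line_le_ker h2 hd, add_zero]
  obtain ⟨s, hsu, hs⟩ := A.hs
  obtain ⟨σ, hσ, hσS⟩ := exists_perp hs
  have hσu : σ ⬝ᵥ u = 0 := hσS u (Submodule.subset_span (by simp))
  have hσv : σ ⬝ᵥ v' = 0 := hσS v' (Submodule.subset_span (by simp))
  set c := σ ⬝ᵥ (B *ᵥ s)
  have hc : ∀ w, c • k w = w := fun w => by
    have h1 := hkill σ hσu hσv _ (hMk _ (hM (ins s w)) (by
      rw [map_sub, hker _ (by rw [evh_ins, hsu, zero_smul]), evh_ins, hsu, zero_smul, sub_zero]))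
    rwa [map_sub, hBk, ev_ins, ev_ins, hσ, one_smul, sub_eq_zero] at h1
  have hc0 : c ≠ 0 := fun h0 => he (by rw [← hc e, h0, zero_smul])
  set T : (Fin m → F) →ₗ[F] (Fin m → F) := c⁻¹ • Matrix.toLin' B - LinearMap.id with hT
  have hzform : ∀ s' w, z (ins s' w) = ins (s' + T s') w := fun s' w => by
    rw [hBk, hT, show k w = c⁻¹ • w by rw [eq_inv_smul_iff₀ hc0, hc], map_smul, ← ins_smul]
    simp
  have hTM : ∀ s' w, ins (T s') w ∈ line (κ → F) u ⊔ imD x v₀ := fun s' w => by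
    have h1 := hM (ins s' w)
    rwa [hzform, ins_add, add_sub_cancel_left] at h1
  have hTk : ∀ s', herm q (T s') u = 0 → T s' ∈ F ∙ u := fun s' h0 => by
    have hmem : T s' ∈ Submodule.span F ({u, v'} : Set (Fin m → F)) := by
      by_contra hn
      obtain ⟨ψ, hψ, hψS⟩ := exists_perp hn
      have h1 := hkill ψ (hψS u (Submodule.subset_span (by simp)))
        (hψS v' (Submodule.subset_span (by simp))) _ (hMk _ (hTM s' e) (by
          rw [evh_ins, h0, zero_smul]))
      rw [ev_ins, hψ, one_smul] at h1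
      exact he h1
    obtain ⟨α, β, hab⟩ := Submodule.mem_span_pair.1 hmem
    by_contra hn
    have hβ : β ≠ 0 := fun hb => hn (Submodule.mem_span_singleton.2
      ⟨α, by rw [← hab, hb, zero_smul, add_zero]⟩)
    have hv'u : v' ∉ F ∙ u := fun hv => hn (by
      rw [← hab]
      exact add_mem (Submodule.smul_mem _ _ (Submodule.mem_span_singleton_self u))
        (Submodule.smul_mem _ _ hv))
    obtain ⟨ψ, hψ, hψu⟩ := exists_perp hv'u
    have hperp : herm q v' u = 0 := by
      rw [← hab, herm_add_left, herm_smul_left, herm_smul_left, A.hu, mul_zero, zero_add,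
        mul_eq_zero] at h0
      exact h0.resolve_left hβ
    have hle : line (κ → F) v' ≤ imD x v₀ := by
      rintro _ ⟨w, rfl⟩
      have h1 : ins v' w ∈ line (κ → F) u ⊔ imD x v₀ := by
        have h2 := hTM s' (β⁻¹ • w)
        rw [← hab, ins_add, ins_smul, ins_smul, ← map_smul (ins v') β, smul_inv_smul₀ hβ] at h2
        have h4 : α • ins u (β⁻¹ • w) ∈ line (κ → F) u ⊔ imD x v₀ :=
          Submodule.mem_sup_left ((line (κ → F) u).smul_mem α ⟨β⁻¹ • w, rfl⟩)
        have h3 := sub_mem h2 h4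
        rwa [add_sub_cancel_left] at h3
      obtain ⟨p, ⟨p', rfl⟩, d, hd, hpd⟩ := Submodule.mem_sup.1 h1
      obtain ⟨b, rfl⟩ := A.hsel d hd (by
        have h4 := congrArg (evh q u) hpd
        rwa [map_add, evh_ins, A.hu, zero_smul, zero_add, evh_ins, hperp, zero_smul] at h4)
      have h5 := congrArg (ev ψ) hpd
      rw [map_add, ev_ins, ev_ins, ev_ins, hψu u (Submodule.mem_span_singleton_self u), hψ,
        zero_smul, zero_add, one_smul, one_smul] at h5
      rwa [← h5]
    exact S.not_le hF (Submodule.eq_of_le_of_finrank_le hle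
      (by rw [S.finrank_imD hF, finrank_line hF A.hv'0])).ge
  by_cases hall : ∀ s', herm q (T s') u = 0
  · left
    obtain ⟨y, -, hy, hy'⟩ := exists_dual hF A.hu0 A.hu
    have hφ : ∀ s', ∃ f : F, T s' = f • u := fun s' => by
      obtain ⟨f, hf⟩ := Submodule.mem_span_singleton.1 (hTk s' (hall s'))
      exact ⟨f, hf.symm⟩
    choose f hf using hφ
    have hiso' : ∀ s' t', herm q (s' + T s') (t' + T t') = herm q s' t' := fun s' t' => by
      refine exists_eq_of_hm_smul i hF.q_ne_zero fun w w' => ?_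
      rw [← hV_ins_ins hF, ← hV_ins_ins hF, ← hzform, ← hzform, S.hG.iso z hz]
    have hfs : ∀ s', f s' + f y ^ q * herm q s' u = 0 := fun s' => by
      have h1 := hiso' s' y
      rw [hf, hf, herm_add_left, hF.herm_add_right, hF.herm_add_right, herm_smul_left,
        herm_smul_left, herm_smul_right, herm_smul_right, A.hu, hy'] at h1
      linear_combination h1
    refine ⟨f y, ?_, fun X => ?_⟩
    · have h1 := hfs y
      rw [hy, mul_one] at h1
      linear_combination h1
    · have h2 : ∀ s', f s' = f y * herm q s' u := fun s' => by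
        have h1 := hfs y
        rw [hy, mul_one] at h1
        linear_combination hfs s' - h1 * herm q s' u
      show z.toLinearMap X = (LinearMap.id + f y • (ins u ∘ₗ evh q u) : _ →ₗ[F] _) X
      refine ext_ins (fun s' w => ?_) X
      rw [LinearEquiv.coe_coe, hzform, hf, h2 s']
      simp only [ins_add, ins_smul, LinearMap.add_apply,
        LinearMap.id_apply, LinearMap.smul_apply, LinearMap.comp_apply, evh_ins, map_smul,
        smul_smul]
  · right
    push Not at hall
    obtain ⟨s', hs'⟩ := hall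
    set r := T s'
    have hr0 : r ≠ 0 := fun h0 => hs' (by rw [h0, herm_zero_left])
    have hle : line (κ → F) u ⊔ line (κ → F) r ≤ line (κ → F) u ⊔ imD x v₀ :=
      sup_le le_sup_left (by rintro _ ⟨w, rfl⟩; exact hTM s' w)
    have hdis : line (κ → F) u ⊓ line (κ → F) r = ⊥ := by
      rw [eq_bot_iff]
      rintro _ ⟨⟨a', rfl⟩, ⟨b', hb'⟩⟩
      have h1 := congrArg (evh q u) hb'
      rw [evh_ins, evh_ins, A.hu, zero_smul, smul_eq_zero] at h1
      rw [← hb', h1.resolve_left hs', map_zero]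
      exact zero_mem _
    have e1 := Submodule.finrank_sup_add_finrank_inf_eq (line (κ → F) u) (line (κ → F) r)
    have e2 := Submodule.finrank_sup_add_finrank_inf_eq (line (κ → F) u) (imD x v₀)
    rw [hdis, finrank_bot, finrank_line hF A.hu0, finrank_line hF hr0] at e1
    rw [finrank_line hF A.hu0, S.finrank_imD hF] at e2
    have h3 := Submodule.finrank_mono hle
    have heq := Submodule.eq_of_le_of_finrank_le hle (by omega)
    refine ⟨r, hs', heq ▸ le_sup_right, Submodule.finrank_eq_zero.1 ?_⟩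
    rw [inf_comm]
    omega

/-- A root element of the line of `u` does not commute with `a`. -/
lemma Sel.not_commute (A : Adm q (imD x v₀) u v') {c : F} (hc : c ≠ 0)
    (hzX : ∀ X, z X = X + c • ins u (evh q u X)) (h : a * z = z * a) : False := by
  classical
  haveI : Finite F := hF.1
  obtain ⟨y, -, hy, -⟩ := exists_dual hF A.hu0 A.hu
  have hT := isT_of_line hF S.hG S.hG S.hP
    (fun g hg => G.mul_mem (G.mul_mem S.haG hg) (G.inv_mem S.haG)) S.hm S.hex (S.hG.iso a S.haG)
    A.hu0 A.hu A.hu0 A.hu (line_of_root hc hy hzX h)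
  have hrange : finrank F (LinearMap.range (a.toLinearMap - LinearMap.id)) ≤ finrank F (κ → F) := by
    refine (Submodule.finrank_mono (t := imD x v₀) ?_).trans (S.finrank_imD hF).le
    rintro _ ⟨X, rfl⟩
    exact S.a_mem hF X
  rcases one_factor S.hm hT (fun X => S.a_fix hF (S.a_mem hF X)) hrange with ⟨B, hB⟩ | ⟨k, hk⟩
  · obtain ⟨s', hs'⟩ : ∃ s' : Fin m → F, B *ᵥ s' - s' ≠ 0 := by
      by_contra hcon
      push Not at hcon
      refine S.a_ne_one hF (LinearEquiv.ext fun X => ?_)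
      show a.toLinearMap X = LinearMap.id X
      exact ext_ins (fun u' w => by simp [hB, sub_eq_zero.1 (hcon u')]) X
    have hle : line (κ → F) (B *ᵥ s' - s') ≤ imD x v₀ := by
      rintro _ ⟨w, rfl⟩
      have := S.a_mem hF (ins s' w)
      rwa [hB, ← ins_sub] at this
    exact S.not_le hF (Submodule.eq_of_le_of_finrank_le hle
      (by rw [S.finrank_imD hF, finrank_line hF hs'])).ge
  · obtain ⟨w, hw⟩ : ∃ w, k w - w ≠ 0 := by
      by_contra hcon
      push Not at hcon
      refine S.a_ne_one hF (LinearEquiv.ext fun X => ?_)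
      show a.toLinearMap X = LinearMap.id X
      exact ext_ins (fun u' w => by simp [hk, sub_eq_zero.1 (hcon w)]) X
    obtain ⟨s, hsu, hs⟩ := A.hs
    obtain ⟨σ, hσ, hσS⟩ := exists_perp hs
    have h1 := S.a_mem hF (ins s w)
    rw [hk, ← map_sub] at h1
    obtain ⟨b, hb⟩ := A.hsel _ h1 (by rw [evh_ins, hsu, zero_smul])
    have h2 := congrArg (ev σ) hb
    rw [ev_ins, ev_ins, hσ, hσS v' (Submodule.subset_span (by simp)), zero_smul, one_smul] at h2
    exact hw h2.symm

/-- Each skew scalar gives a plane, or an element exchanging the two root elements. -/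
lemma Sel.swap (A : Adm q (imD x v₀) u v') {c : F} (hc : c ≠ 0) (hcq : c ^ q = -c) :
    Plane q (imD x v₀) u ∨
      ∃ t g, g ∈ G ∧ (∀ X, t X = X + c • ins u (evh q u X)) ∧
        g * t * g⁻¹ = a ∧ g * a * g⁻¹ = t ∧
        (∀ X, g X - X ∈ line (κ → F) u ⊔ imD x v₀) ∧
        (∀ X, evh q u X = 0 → a X = X → g X = X) ∧
        (∀ w, g (ins u w) ∈ imD x v₀) ∧ (∀ X ∈ imD x v₀, g X ∈ line (κ → F) u) := by
  classical
  haveI : Finite F := hF.1
  obtain ⟨t, htG, ht'⟩ := mem_transv hF S.hG A.hu hcq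
  have ht : ∀ X, t X = X + c • ins u (evh q u X) := fun X => by
    rw [ht', root_apply, LinearMap.smul_apply, LinearMap.id_apply, map_smul]
  obtain ⟨y, -, hy, -⟩ := exists_dual hF A.hu0 A.hu
  obtain ⟨i⟩ := (inferInstance : Nonempty κ)
  have hHG : Subgroup.closure {t, a} ≤ G :=
    (Subgroup.closure_le G).2 (by rintro g (rfl | rfl); exacts [htG, S.haG])
  have hfixH : ∀ X, t X = X → a X = X → ∀ g ∈ Subgroup.closure {t, a}, g X = X := by
    intro X h1 h2 g hg
    refine Subgroup.closure_induction (p := fun g _ => g X = X) ?_ ?_ ?_ ?_ hg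
    · rintro g (rfl | rfl) <;> assumption
    · rfl
    · intro g h _ _ hg hh; rw [LinearEquiv.mul_apply, hh, hg]
    · intro g _ hg; exact g.injective (by rw [self_inv_apply, hg])
  have hsubH : ∀ g ∈ Subgroup.closure {t, a}, ∀ X,
      g X - X ∈ line (κ → F) u ⊔ imD x v₀ := by
    intro g hg
    refine Subgroup.closure_induction
      (p := fun g _ => ∀ X, g X - X ∈ line (κ → F) u ⊔ imD x v₀) ?_ ?_ ?_ ?_ hg
    · rintro g (rfl | rfl) X
      · rw [ht, add_sub_cancel_left]
        exact Submodule.mem_sup_left (Submodule.smul_mem _ _ ⟨_, rfl⟩)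
      · exact Submodule.mem_sup_right (S.a_mem hF X)
    · exact fun X => by simp
    · intro g h _ _ ihg ihh X
      rw [LinearEquiv.mul_apply, ← sub_add_sub_cancel (g (h X)) (h X) X]
      exact add_mem (ihg _) (ihh _)
    · intro g _ ih X
      have := neg_mem (ih (g⁻¹ X))
      rwa [neg_sub, self_inv_apply] at this
  have hcentral : ∀ z ∈ Subgroup.closure {t, a}, z ≠ 1 → z * t = t * z → z * a = a * z →
      Plane q (imD x v₀) u := by
    intro z hz hz1 hzt hza
    rcases S.zcase hF A (hHG hz) (hsubH z hz) (line_of_root hc hy ht hzt) with ⟨c', -, hzX⟩ | hp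
    · rcases eq_or_ne c' 0 with rfl | hc'
      · exact absurd (LinearEquiv.ext fun X => by rw [hzX, zero_smul, add_zero]; rfl) hz1
      · exact (S.not_commute hF A hc' hzX hza.symm).elim
    · exact hp
  have ht1 : t ≠ 1 := fun h0 => by
    have h := ht (ins y (Pi.single i (1 : F)))
    rw [h0, evh_ins, hy, one_smul, eq_comm] at h
    have h3 := ins_injective A.hu0 (((smul_eq_zero.1 (add_eq_left.1 h)).resolve_left hc).trans
      (map_zero _).symm)
    simpa using congrFun h3 i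
  obtain ⟨p, hpF⟩ := CharP.exists F
  haveI := hpF
  haveI : Fact p.Prime := ⟨CharP.char_is_prime F p⟩
  let D : TwoSq.Pair F (Fin m → κ → F) :=
    { t := t, a := a
      T := c • (ins u ∘ₗ evh q u)
      A := c₀ • (x.toLinearMap ∘ₗ ins v₀ ∘ₗ evh q v₀ ∘ₗ x.symm.toLinearMap)
      t_eq := LinearMap.ext fun X => by simpa using ht X
      a_eq := LinearMap.ext fun X => by
        simp only [LinearEquiv.coe_coe, S.ha, map_smul, LinearMap.add_apply, Module.End.one_apply,
          LinearMap.smul_apply, LinearMap.comp_apply]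
        rfl
      TT := LinearMap.ext fun X => by
        simp [evh_ins, A.hu, -ev_apply]
      AA := LinearMap.ext fun X => by
        simp [evh_ins, S.hiso, -ev_apply] }
  rcases eq_or_ne p 2 with rfl | hp
  swap
  · haveI : NeZero m := ⟨by have := S.hm; omega⟩
    haveI : Nontrivial (Fin m → κ → F) := inferInstance
    obtain ⟨z, hz, hz1, hzt, hza⟩ := D.exists_central p hp ht1
    exact Or.inl (hcentral z hz hz1 hzt hza)
  have two : ∀ X : Fin m → κ → F, X + X = 0 := fun X => by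
    rw [← two_smul F X, show (2 : F) = 0 from CharTwo.two_eq_zero, zero_smul]
  have htt : t * t = 1 := LinearEquiv.ext fun X => by
    rw [LinearEquiv.mul_apply, ht, ht, map_add, map_smul, evh_ins, A.hu, zero_smul, smul_zero,
      add_zero, add_assoc, two, add_zero]
    rfl
  have haa : a * a = 1 := LinearEquiv.ext fun X => by
    have h1 : a X = (a X - X) + X := (sub_add_cancel _ _).symm
    rw [LinearEquiv.mul_apply, h1, map_add, S.a_fix hF (S.a_mem hF X)]
    conv_lhs => arg 2; rw [h1]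
    rw [← add_assoc, two, zero_add]
    rfl
  haveI : Finite (Fin m → κ → F) := Module.finite_of_finite F
  haveI : Finite ((Fin m → κ → F) ≃ₗ[F] (Fin m → κ → F)) :=
    Finite.of_injective (fun e => (e : (Fin m → κ → F) → _)) DFunLike.coe_injective
  rcases TwoSq.dihedral htt haa with ⟨z, hz, hz1, hzt, hza⟩ | ⟨g, hg, -, hgt, hga⟩
  · exact Or.inl (hcentral z hz hz1 hzt hza)
  refine Or.inr ⟨t, g, hHG hg, ht, hgt, hga, hsubH g hg,
    fun X h1 h2 => hfixH X (by rw [ht, h1, map_zero, smul_zero, add_zero]) h2 g hg,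
    fun w => ?_, fun X hX => ?_⟩
  · have h := congrFun (congrArg DFunLike.coe hgt) (g (ins y w))
    rw [LinearEquiv.mul_apply, LinearEquiv.mul_apply, inv_apply_self, ht, evh_ins, hy, one_smul,
      map_add, map_smul] at h
    have h1 := S.a_mem hF (g (ins y w))
    rw [← h, add_sub_cancel_left] at h1
    exact ((imD x v₀).smul_mem_iff hc).1 h1
  · obtain ⟨_, ⟨w, rfl⟩, rfl⟩ := hX
    obtain ⟨y₀, -, hy₀, -⟩ := exists_dual hF S.hv₀ S.hiso
    have h := congrFun (congrArg DFunLike.coe hga) (g (x (ins y₀ w)))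
    rw [LinearEquiv.mul_apply, LinearEquiv.mul_apply, inv_apply_self, S.ha, inv_apply_self,
      evh_ins, hy₀, one_smul, map_smul, map_add, map_smul, ht, add_right_inj] at h
    refine ((line (κ → F) u).smul_mem_iff S.hc₀).1 ?_
    rw [LinearEquiv.coe_coe, h]
    exact Submodule.smul_mem _ _ ⟨_, rfl⟩

/-- With `q ≥ 3` every admissible vector gives a plane. -/
lemma Sel.plane_big (A : Adm q (imD x v₀) u v') (hq : 3 ≤ q) : Plane q (imD x v₀) u := by
  classical
  haveI : Finite F := hF.1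
  obtain ⟨c, hc0, hc⟩ := hF.exists_skew
  obtain ⟨l, hl0, hl⟩ : ∃ l : F, l ≠ 0 ∧ l ^ (q + 1) ≠ 1 := by
    by_contra hcon
    push Not at hcon
    haveI := Fintype.ofFinite F
    have h1 : Nat.card Fˣ ≤ q + 1 := by
      rw [← hF.card_norm_one]
      exact Nat.card_le_card_of_injective
        (fun x : Fˣ => (⟨(x : F), hcon _ x.ne_zero⟩ : {x : F // x ^ (q + 1) = 1}))
        fun x y hxy => Units.ext (congrArg Subtype.val hxy)
    rw [hF.card_units] at h1
    have : 2 * (q + 1) ≤ (q - 1) * (q + 1) := Nat.mul_le_mul_right _ (by omega)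
    omega
  set c' := l ^ (q + 1) * c
  have hc'0 : c' ≠ 0 := mul_ne_zero (pow_ne_zero _ hl0) hc0
  have hc' : c' ^ q = -c' := by
    show (l ^ (q + 1) * c) ^ q = -(l ^ (q + 1) * c)
    rw [mul_pow, hc, pow_succ, mul_pow, hF.pow_pow]
    ring
  rcases S.swap hF A hc0 hc with hp | ⟨t, g, hgG, ht, hgt, hga, hgM, -, hgu, hgD⟩
  · exact hp
  rcases S.swap hF A hc'0 hc' with hp | ⟨t', g', hg'G, ht', hgt', hga', hgM', -, hgu', hgD'⟩
  · exact hp
  rcases S.zcase hF A (G.mul_mem hgG hg'G) (fun X => by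
      rw [LinearEquiv.mul_apply, ← sub_add_sub_cancel (g (g' X)) (g' X) X]
      exact add_mem (hgM _) (hgM' _))
    (fun w => by rw [LinearEquiv.mul_apply]; exact hgD _ (hgu' w)) with ⟨d, -, hd⟩ | hp
  · exfalso
    have h1 : g * g' * t' = t' * (g * g') := LinearEquiv.ext fun X => by
      rw [LinearEquiv.mul_apply (g * g'), LinearEquiv.mul_apply t', hd, hd, ht', ht']
      simp only [map_add, map_smul, evh_ins, A.hu, zero_smul, smul_zero, add_zero]
      abel
    have h2 : g * g' * t' = t * (g * g') := by rw [← hga, ← hgt']; group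
    have htt : t' = t := mul_right_cancel (h1.symm.trans h2)
    obtain ⟨y, -, hy, -⟩ := exists_dual hF A.hu0 A.hu
    obtain ⟨i⟩ := (inferInstance : Nonempty κ)
    have h3 := ht' (ins y (Pi.single i (1 : F)))
    rw [htt, ht, evh_ins, hy, one_smul, add_right_inj] at h3
    have h4 : ins u (Pi.single i (1 : F)) ≠ (0 : Fin m → κ → F) := fun h0 => by
      have := congrFun (ins_injective A.hu0 (h0.trans (map_zero _).symm)) i
      simp at this
    exact hl (mul_right_cancel₀ hc0 ((smul_left_injective F h4 h3).symm.trans (one_mul c).symm))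
  · exact hp

omit S
/-- All images of isotropic lines of elements outside `N` avoid the kernels of the contractions. -/
def Full (q : ℕ) (G N : Subgroup ((Fin m → κ → F) ≃ₗ[F] (Fin m → κ → F))) : Prop :=
  ∀ g ∈ G, g ∉ N → ∀ v u : Fin m → F, v ≠ 0 → herm q v v = 0 → u ≠ 0 → herm q u u = 0 →
    ∀ w, evh q u (g (ins v w)) = 0 → w = 0

omit hF in
/-- A set of few vectors does not contain an orthogonal space. -/
lemma exists_perp_notin (S' : Submodule F (Fin m → F)) (u : Fin m → F)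
    (h : finrank F S' + 1 < m) : ∃ s, herm q s u = 0 ∧ s ∉ S' := by
  by_contra hcon
  push Not at hcon
  have h1 := (dualF (F := F) q u).finrank_range_add_finrank_ker
  have h2 := (LinearMap.range (dualF (F := F) q u)).finrank_le
  rw [finrank_self] at h2
  rw [finrank_fin_fun] at h1
  have h3 : LinearMap.ker (dualF (F := F) q u) ≤ S' := fun s hs => hcon s (by
    rwa [LinearMap.mem_ker, dualF_apply] at hs)
  have := Submodule.finrank_mono h3
  omega

omit hF in
lemma finrank_span_pair_le (a b : Fin m → F) :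
    finrank F (Submodule.span F ({a, b} : Set (Fin m → F))) ≤ 2 := by
  classical
  refine (finrank_span_le_card _).trans ?_
  rw [Set.toFinset_insert, Set.toFinset_singleton]
  exact Finset.card_le_two

include S in
/-- The case of a line image meeting a line. -/
lemma Sel.false_selected
    (hsel : ∀ u, u ≠ 0 → herm q u u = 0 → herm q v₀ u = 0 → ∀ X ∈ imD x v₀,
      evh q u X = 0 → X ∈ line (κ → F) v₀)
    {w : κ → F} (hw : w ≠ 0) (hD : ins v₀ w ∈ imD x v₀) : False := by
  have hX0 : (ins v₀ w : Fin m → κ → F) ≠ 0 := fun h0 =>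
    hw (ins_injective S.hv₀ (h0.trans (map_zero _).symm))
  rcases Nat.lt_or_ge q 3 with hq | hq
  · have hq2 : q = 2 := by have := hF.one_lt; omega
    have hm4 : 4 ≤ m := by
      have := S.hm
      have := S.hex
      rcases Nat.lt_or_ge m 4 with h | h
      · exact absurd ⟨hq2, by omega⟩ S.hex
      · exact h
    obtain ⟨f, hf⟩ := exists_partner hF S.hv₀ S.hiso
    obtain ⟨u, u', huu, huv, huf, -, -⟩ := exists_second_pair hF hm4 hf
    have hvu : herm q v₀ u = 0 := herm_eq_zero_symm hF huv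
    have hnot : u ∉ F ∙ v₀ := fun h => by
      obtain ⟨α, hα⟩ := Submodule.mem_span_singleton.1 h
      rw [← hα, herm_smul_left, hf.2.2, mul_one] at huf
      exact huu.ne_zero (by rw [← hα, huf, zero_smul])
    have A : Adm q (imD x v₀) u v₀ := ⟨huu.ne_zero, huu.1, S.hv₀, S.hiso,
      hsel u huu.ne_zero huu.1 hvu, exists_perp_notin _ u
        ((Nat.add_le_add_right (finrank_span_pair_le u v₀) 1).trans_lt (by omega))⟩
    obtain ⟨c, hc0, hc⟩ := hF.exists_skew
    rcases S.swap hF A hc0 hc with ⟨r, hr, hDle, -⟩ | ⟨t, g, -, -, -, -, -, hfix, -, hgD⟩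
    · obtain ⟨i, hi⟩ := Function.ne_iff.1 hw
      have h1 := col_mem (hDle hD) i
      obtain ⟨α, β, hab⟩ := Submodule.mem_span_pair.1 h1
      have h2 : (fun j => (ins v₀ w : Fin m → κ → F) j i) = w i • v₀ := by
        funext j; simp [mul_comm]
      rw [h2] at hab
      have h3 := congrArg (fun s => herm q s u) hab
      simp only [herm_add_left, herm_smul_left, huu.1, hvu, mul_zero, zero_add,
        mul_eq_zero] at h3
      rw [h3.resolve_right hr, zero_smul, add_zero] at hab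
      refine hnot (Submodule.mem_span_singleton.2 ⟨α⁻¹ * w i, ?_⟩)
      have hα : α ≠ 0 := fun h0 => by
        rw [h0, zero_smul, eq_comm, smul_eq_zero] at hab
        exact S.hv₀ (hab.resolve_left hi)
      rw [mul_smul, ← hab, inv_smul_smul₀ hα]
    · obtain ⟨b, hb⟩ := hgD _ hD
      rw [hfix _ (by rw [evh_ins, hvu, zero_smul]) (S.a_fix hF hD)] at hb
      have hb0 : b ≠ 0 := fun h0 => hX0 (by rw [← hb, h0, map_zero])
      refine hnot (mem_span_of_perp fun ψ hψ => ?_)
      have h1 := congrArg (ev ψ) hb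
      rw [ev_ins, ev_ins, hψ, zero_smul] at h1
      exact (smul_eq_zero.1 h1).resolve_right hb0
  · have A : Adm q (imD x v₀) v₀ v₀ := ⟨S.hv₀, S.hiso, S.hv₀, S.hiso,
      hsel v₀ S.hv₀ S.hiso S.hiso, exists_perp_notin _ v₀ (by
        rw [Set.pair_eq_singleton, finrank_span_singleton S.hv₀]; have := S.hm; omega)⟩
    obtain ⟨r, -, -, hbot⟩ := S.plane_big hF A hq
    have : (ins v₀ w : Fin m → κ → F) ∈ imD x v₀ ⊓ line (κ → F) v₀ := ⟨hD, ⟨w, rfl⟩⟩
    rw [hbot] at this
    exact hX0 this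

omit hF in
/-- A quadratic equation over the field with four elements has a root. -/
lemma exists_root_four {A C : F} (h2 : (2 : F) = 0) (hC : C ^ 3 = 1)
    (hA : A = 0 ∨ A * C = 1) {ω : F} (hω : ω * ω + ω + 1 = 0) : ∃ y : F, y * y = A * y + C := by
  rcases hA with rfl | hA
  · exact ⟨C ^ 2, by linear_combination C * hC⟩
  · refine ⟨C ^ 2 * ω, ?_⟩
    linear_combination ω ^ 2 * C * hC - C * ω * hA + C * hω - C * (ω + 1) * h2

include S in
/-- The case of no line image meeting a kernel. -/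
lemma Sel.false_full (hfull : Full q G N) : False := by
  classical
  haveI : Finite F := hF.1
  obtain ⟨i⟩ := (inferInstance : Nonempty κ)
  set e : κ → F := Pi.single i 1
  have he : e ≠ 0 := by simp [e]
  have hinj : ∀ u, u ≠ 0 → herm q u u = 0 → ∀ w, evh q u (x (ins v₀ w)) = 0 → w = 0 :=
    fun u hu0 hu w hw => hfull x S.hx S.hxN v₀ u S.hv₀ S.hiso hu0 hu w hw
  have hadm : ∀ u, u ≠ 0 → herm q u u = 0 → Adm q (imD x v₀) u u := fun u hu0 hu =>
    ⟨hu0, hu, hu0, hu, fun X hX h0 => by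
      obtain ⟨_, ⟨w, rfl⟩, rfl⟩ := hX
      rw [hinj u hu0 hu w h0, map_zero, map_zero]
      exact zero_mem _, exists_perp_notin _ u (by
        rw [Set.pair_eq_singleton, finrank_span_singleton hu0]; have := S.hm; omega)⟩
  rcases Nat.lt_or_ge q 3 with hq | hq
  swap
  · obtain ⟨u, hu0, hu⟩ := exists_isotropic hF (n := m) (by have := S.hm; omega)
    obtain ⟨r, hr, hD, -⟩ := S.plane_big hF (hadm u hu0 hu) hq
    set S₁ := Submodule.span F ({u, r} : Set (Fin m → F)) with hS₁
    obtain ⟨u', hu', hu'S⟩ : ∃ u', herm q u' u' = 0 ∧ u' ∉ S₁ := by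
      by_contra hcon
      push Not at hcon
      obtain ⟨φ, hφ0, hφu, hφr⟩ := exists_perp_two S.hm u r
      obtain ⟨s, hs⟩ := exists_dot_one hφ0
      have hmem := mem_of_isotropic hF (by have := S.hm; omega) S₁ hcon s
      obtain ⟨α, β, hab⟩ := Submodule.mem_span_pair.1 hmem
      rw [dotProduct_comm, ← hab, dotProduct_add, dotProduct_smul, dotProduct_smul, hφu, hφr,
        smul_zero, smul_zero, add_zero] at hs
      exact zero_ne_one hs
    have hu'0 : u' ≠ 0 := fun h0 => hu'S (h0 ▸ zero_mem _)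
    obtain ⟨r', -, hD', -⟩ := S.plane_big hF (hadm u' hu'0 hu') hq
    set S₂ := Submodule.span F ({u', r'} : Set (Fin m → F))
    have hlt : S₁ ⊓ S₂ < S₂ := inf_le_right.lt_of_ne fun h0 =>
      hu'S ((inf_eq_right.1 h0) (Submodule.subset_span (by simp)))
    have h1 : finrank F (S₁ ⊓ S₂ : Submodule F (Fin m → F)) ≤ 1 := by
      have h2 := Submodule.finrank_lt_finrank_of_lt hlt
      have h3 : finrank F S₂ ≤ 2 := finrank_span_pair_le u' r'
      exact Nat.lt_succ_iff.1 (lt_of_lt_of_le h2 h3)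
    obtain ⟨⟨s, hs⟩, hspan⟩ := finrank_le_one_iff.1 h1
    refine S.not_le hF (s := s) fun X hX => ?_
    choose l hl using fun j : κ => hspan ⟨fun p => X p j, col_mem (hD hX) j, col_mem (hD' hX) j⟩
    refine ⟨l, funext fun p => funext fun j => ?_⟩
    have h := congrArg (fun y : (S₁ ⊓ S₂ : Submodule F (Fin m → F)) => (y : Fin m → F) p) (hl j)
    simp at h ⊢
    linear_combination h
  -- two elements
  have hq2 : q = 2 := by have := hF.one_lt; omega
  have hm4 : 4 ≤ m := by
    have := S.hm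
    rcases Nat.lt_or_ge m 4 with h | h
    · exact absurd ⟨hq2, by omega⟩ S.hex
    · exact h
  obtain ⟨c, hc0, hc⟩ := hF.exists_skew
  have hswap : ∀ u, u ≠ 0 → herm q u u = 0 → ∃ t g, g ∈ G ∧
      (∀ X, t X = X + c • ins u (evh q u X)) ∧
      g * t * g⁻¹ = a ∧ g * a * g⁻¹ = t ∧
      (∀ X, g X - X ∈ line (κ → F) u ⊔ imD x v₀) ∧
      (∀ w, g (ins u w) ∈ imD x v₀) ∧ (∀ X ∈ imD x v₀, g X ∈ line (κ → F) u) := by
    intro u hu0 hu
    rcases S.swap hF (hadm u hu0 hu) hc0 hc with ⟨r, hr, hD, -⟩ | ⟨t, g, h1, h2, h3, h4, h5, -, h7, h8⟩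
    · exfalso
      obtain ⟨y, hyS, hy0, hy⟩ := GeoClasses.exists_isotropic_mem hF (S := perpTwo q u r)
        (by have := finrank_perpTwo (q := q) u r; omega)
      rw [mem_perpTwo] at hyS
      obtain ⟨_, ⟨p, rfl⟩, _, ⟨d, rfl⟩, hpd⟩ :=
        Submodule.mem_sup.1 (hD ⟨ins v₀ e, ⟨e, rfl⟩, rfl⟩)
      simp only [LinearEquiv.coe_coe] at hpd
      refine he (hinj y hy0 hy e ?_)
      rw [← hpd, map_add, evh_ins, evh_ins, herm_eq_zero_symm hF hyS.1,
        herm_eq_zero_symm hF hyS.2, zero_smul, zero_smul, add_zero]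
    · exact ⟨t, g, h1, h2, h3, h4, h5, h7, h8⟩
  obtain ⟨v, hv0, hv⟩ := exists_isotropic hF (n := m) (by omega)
  obtain ⟨f, hf⟩ := exists_partner hF hv0 hv
  obtain ⟨u, u', huu, huv, huf, hs1v, -⟩ := exists_second_pair hF hm4 hf
  have hu0 := huu.ne_zero
  have hu := huu.1
  have hvu : herm q v u = 0 := herm_eq_zero_symm hF huv
  obtain ⟨tu, gu, hguG, htu, hgtu, hgau, hguM, -, hguD⟩ := hswap u hu0 hu
  obtain ⟨tv, gv, hgvG, htv, hgtv, -, hgvM, hgvu, -⟩ := hswap v hv0 hv
  set h := gu * gv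
  have hhG : h ∈ G := G.mul_mem hguG hgvG
  obtain ⟨B, k, hBk⟩ := isT_of_line hF S.hG S.hG S.hP
    (fun g hg => G.mul_mem (G.mul_mem hhG hg) (G.inv_mem hhG)) S.hm S.hex (S.hG.iso h hhG)
    hv0 hv hu0 hu (fun w => hguD _ (hgvu w))
  have hne : ∀ w : κ → F, w ≠ 0 → k w ≠ 0 := fun w hw h0 =>
    hw (k.injective (h0.trans (map_zero k).symm))
  obtain ⟨μ, hμ⟩ : ∃ μ : F, μ • u = B *ᵥ v := Submodule.mem_span_singleton.1
    (mem_span_of_perp fun ψ hψ => by
      have h1 := line_le_ker hψ (hguD _ (hgvu e))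
      rw [← LinearEquiv.mul_apply, show gu * gv = h from rfl, hBk, ev_ins] at h1
      exact (smul_eq_zero.1 h1).resolve_right (hne e he))
  have hμ0 : μ ≠ 0 := fun h0 => by
    have h1 : h (ins v e) = 0 := by rw [hBk, ← hμ, h0, zero_smul, ins_zero]
    rw [map_eq_zero_iff _ h.injective] at h1
    exact he (ins_injective hv0 (h1.trans (map_zero _).symm))
  have hinsne : ∀ w : κ → F, w ≠ 0 → (ins u w : Fin m → κ → F) ≠ 0 := fun w hw h0 =>
    hw (ins_injective hu0 (h0.trans (map_zero _).symm))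
  have hBu : ∀ s, herm q (B *ᵥ s) u = μ * herm q s v := fun s => by
    have hcm : h * tv = tu * h := by
      show gu * gv * tv = tu * (gu * gv)
      rw [← hgau, ← hgtv]; group
    have h1 := congrFun (congrArg DFunLike.coe hcm) (ins s e)
    simp only [LinearEquiv.mul_apply, htu, htv, map_add, map_smul, evh_ins, hBk, ← hμ, ins_smul,
      add_right_inj, smul_smul] at h1
    have h2 := smul_left_injective F (hinsne _ (hne e he)) h1
    exact mul_left_cancel₀ hc0 (by linear_combination -h2)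
  -- the two contractions of `D`
  set αu : Module.End F (κ → F) := evh q u ∘ₗ x.toLinearMap ∘ₗ ins v₀ with hαu
  set αv : Module.End F (κ → F) := evh q v ∘ₗ x.toLinearMap ∘ₗ ins v₀ with hαv
  have hαvi : Function.Injective αv := (injective_iff_map_eq_zero _).2 fun w hw => hinj v hv0 hv w hw
  set Φ : Module.End F (κ → F) := αu ∘ₗ (LinearEquiv.ofInjectiveEndo αv hαvi).symm.toLinearMap
    with hΦ
  have hΦα : ∀ w, Φ (αv w) = αu w := fun w => by
    rw [hΦ, LinearMap.comp_apply, LinearEquiv.coe_coe]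
    congr 1
    exact (LinearEquiv.ofInjectiveEndo αv hαvi).symm_apply_apply w
  have hΦinj : ∀ w, Φ w = 0 → w = 0 := fun w hw => by
    obtain ⟨z, rfl⟩ := (LinearEquiv.ofInjectiveEndo αv hαvi).surjective w
    rw [show (LinearEquiv.ofInjectiveEndo αv hαvi) z = αv z from rfl] at hw ⊢
    rw [hΦα] at hw
    rw [hinj u hu0 hu z hw, map_zero]
  have hkey : ∀ X, evh q u (h X - X) = Φ (evh q v (h X - X)) := fun X => by
    obtain ⟨p₁, ⟨p₁', rfl⟩, d₁, hd₁, e₁⟩ := Submodule.mem_sup.1 (hguM (gv X))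
    obtain ⟨p₂, ⟨p₂', rfl⟩, d₂, hd₂, e₂⟩ := Submodule.mem_sup.1 (hgvM X)
    obtain ⟨_, ⟨w₁, rfl⟩, rfl⟩ := hd₁
    obtain ⟨_, ⟨w₂, rfl⟩, rfl⟩ := hd₂
    have hsum : h X - X = (gu (gv X) - gv X) + (gv X - X) := by
      rw [LinearEquiv.mul_apply]; abel
    simp only [LinearEquiv.coe_coe] at e₁ e₂
    rw [hsum, ← e₁, ← e₂]
    simp only [map_add, evh_ins, hu, hv, huv, hvu, zero_smul, zero_add]
    rw [show evh q v (x (ins v₀ w₁)) = αv w₁ from rfl,
      show evh q v (x (ins v₀ w₂)) = αv w₂ from rfl, hΦα, hΦα]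
    rfl
  have hgen : ∀ s w, (μ * herm q s v) • k w - herm q s u • w =
      herm q (B *ᵥ s) v • Φ (k w) - herm q s v • Φ w := fun s w => by
    have h1 := hkey (ins s w)
    rwa [hBk, map_sub, map_sub, map_sub, evh_ins, evh_ins, evh_ins, evh_ins, map_smul, map_smul,
      hBu] at h1
  have hindep : ∀ α β : F, α • v + β • u = 0 → α = 0 ∧ β = 0 := fun α β hab => by
    have h1 := congrArg (fun s => herm q s f) hab
    simp only [herm_add_left, herm_smul_left, hf.2.2, huf, mul_zero, add_zero, mul_one,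
      herm_zero_left] at h1
    subst h1
    rw [zero_smul, zero_add, smul_eq_zero] at hab
    exact ⟨rfl, hab.resolve_right hu0⟩
  have hs1u : herm q u' u = 1 := (huu.symm hF).2.2
  have hfu : herm q f u = 0 := herm_eq_zero_symm hF huf
  have hfv : herm q f v = 1 := (hf.symm hF).2.2
  set β₀ := herm q (B *ᵥ u') v
  set γ₀ := herm q (B *ᵥ f) v
  have h1 : ∀ w, -w = β₀ • Φ (k w) := fun w => by
    have := hgen u' w
    rw [hs1u, hs1v] at this
    simpa using this
  have h2 : ∀ w, μ • k w = γ₀ • Φ (k w) - Φ w := fun w => by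
    have := hgen f w
    rw [hfu, hfv] at this
    simpa using this
  have hβ0 : β₀ ≠ 0 := fun h0 => he (neg_eq_zero.1 (by rw [h1, h0, zero_smul]))
  have hΦk : ∀ w, Φ (k w) = -(β₀⁻¹ • w) := fun w => by
    rw [← smul_neg, h1, inv_smul_smul₀ hβ0]
  set A := -(γ₀ * β₀⁻¹ / μ) with hA
  set C := β₀⁻¹ / μ with hC
  have hkk : ∀ w, k (k w) = A • k w + C • w := fun w => by
    have h3 := h2 (k w)
    rw [hΦk, hΦk, smul_neg, sub_neg_eq_add, smul_smul] at h3
    rw [← inv_smul_smul₀ hμ0 (k (k w)), h3, smul_add, smul_neg, smul_smul, smul_smul, hA, hC,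
      neg_smul, div_eq_inv_mul, div_eq_inv_mul]
  have hC0 : C ≠ 0 := div_ne_zero (inv_ne_zero hβ0) hμ0
  -- `k` is an isometry
  have h2F : (2 : F) = 0 := by
    haveI := Fintype.ofFinite F
    have h4 := FiniteField.cast_card_eq_zero F
    rw [← Nat.card_eq_fintype_card, hF.2, hq2] at h4
    exact eq_zero_of_pow_eq_zero (n := 2) (by exact_mod_cast h4)
  have hcube : ∀ z : F, z ≠ 0 → z ^ 3 = 1 := fun z hz => by
    have := hF.pow_pow z
    rw [hq2] at this
    exact mul_left_cancel₀ hz (by linear_combination this)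
  obtain ⟨lam, hlam⟩ : ∃ lam : F, ∀ w w', TensorPowU.hm q (k w) (k w') = lam * TensorPowU.hm q w w' := by
    obtain ⟨y, -, hy, -⟩ := exists_dual hF hv0 hv
    have hiso : ∀ w w', herm q (B *ᵥ y) (B *ᵥ v) * TensorPowU.hm q (k w) (k w') = TensorPowU.hm q w w' := fun w w' => by
      rw [← hV_ins_ins hF, ← hBk, ← hBk, S.hG.iso h hhG, hV_ins_ins hF, hy, one_mul]
    have hne0 : herm q (B *ᵥ y) (B *ᵥ v) ≠ 0 := fun h0 => by
      have := hiso e e
      rw [h0, zero_mul, hm_single i hF.q_ne_zero] at this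
      exact zero_ne_one this
    exact ⟨(herm q (B *ᵥ y) (B *ᵥ v))⁻¹, fun w w' => by
      rw [← hiso w w', inv_mul_cancel_left₀ hne0]⟩
  have hlam1 : lam = 1 := by
    have h3 := hlam e e
    have h4 := hm_symm hF (k e) (k e)
    rw [hm_single i hF.q_ne_zero, mul_one] at h3
    rw [h3, hq2] at h4
    have hl0 : lam ≠ 0 := fun h0 => by
      have h5 := hlam (k.symm e) (k.symm e)
      rw [LinearEquiv.apply_symm_apply, hm_single i hF.q_ne_zero, h0, zero_mul] at h5
      exact one_ne_zero h5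
    exact mul_left_cancel₀ hl0 (by linear_combination h4)
  subst hlam1
  simp only [one_mul] at hlam
  have hAC : A = 0 ∨ A * C = 1 := by
    have h3 : ∀ w w', TensorPowU.hm q (k w) w' = C⁻¹ ^ q * (TensorPowU.hm q w (k w') - A ^ q * TensorPowU.hm q w w') := by
      intro w w'
      have h4 := hlam w (C⁻¹ • (k w' - A • w'))
      rw [map_smul, map_sub, map_smul, hkk, add_sub_cancel_left, inv_smul_smul₀ hC0,
        hm_smul_right] at h4
      have h5 : TensorPowU.hm q w (k w' - A • w') = TensorPowU.hm q w (k w') - A ^ q * TensorPowU.hm q w w' := by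
        have h6 := hm_add_right hF w (k w' - A • w') (A • w')
        rw [sub_add_cancel, hm_smul_right] at h6
        linear_combination -h6
      rw [h4, h5]
    have hee : TensorPowU.hm q e e = 1 := hm_single i hF.q_ne_zero
    have hC3 := hcube C hC0
    have hCi : C⁻¹ ^ q = C := by
      rw [hq2, inv_pow]
      exact inv_eq_of_mul_eq_one_left (by linear_combination hC3)
    set b := TensorPowU.hm q (k e) e with hb
    have e1 : b = C * (b ^ 2 - A ^ 2) := by
      have h5 := h3 e e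
      rw [hCi, hee, ← hb, ← hm_symm hF (k e) e, ← hb, hq2] at h5
      linear_combination h5
    have e2 : A * b + C = C * (1 - A ^ 2 * b) := by
      have h5 := h3 (k e) e
      rw [hCi, hkk, hm_add_left, hm_smul_left, hm_smul_left, hlam, hee, ← hb, hq2] at h5
      linear_combination h5
    have e3 : A * b * (A * C - 1) = 0 := by linear_combination e2 - A * b * h2F
    rcases mul_eq_zero.1 e3 with h6 | h6
    · rcases mul_eq_zero.1 h6 with h7 | h7
      · exact Or.inl h7
      · left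
        rw [h7] at e1
        have h8 : A ^ 2 = 0 := (mul_eq_zero.1 (show C * A ^ 2 = 0 by linear_combination e1)).resolve_left hC0
        exact eq_zero_of_pow_eq_zero h8
    · exact Or.inr (sub_eq_zero.1 h6)
  obtain ⟨ω, hω⟩ : ∃ ω : F, ω * ω + ω + 1 = 0 := by
    obtain ⟨ω, hω⟩ := exists_ne_pow hF
    rw [hq2] at hω
    have hω0 : ω ≠ 0 := fun h0 => hω (by rw [h0]; simp)
    have hω1 : ω - 1 ≠ 0 := fun h0 => hω (by rw [sub_eq_zero.1 h0]; simp)
    exact ⟨ω, mul_left_cancel₀ hω1 (by linear_combination hcube ω hω0)⟩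
  obtain ⟨y, hy⟩ := exists_root_four h2F (hcube C hC0) hAC hω
  obtain ⟨ρ, w, hw, hρ⟩ : ∃ (ρ : F) (w : κ → F), w ≠ 0 ∧ k w = ρ • w := by
    by_cases h0 : k e - (A - y) • e = 0
    · exact ⟨_, e, he, sub_eq_zero.1 h0⟩
    · refine ⟨y, _, h0, ?_⟩
      rw [map_sub, map_smul, hkk, smul_sub, smul_smul, show y * (A - y) = -C by
        linear_combination -hy]
      simp only [sub_smul, neg_smul]
      module
  have hρ0 : ρ ≠ 0 := fun h0 => hne w hw (by rw [hρ, h0, zero_smul])
  set τ := -(β₀⁻¹ * ρ⁻¹)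
  have hΦw : Φ w = τ • w := by
    have h3 := hΦk w
    rw [hρ, map_smul] at h3
    rw [← inv_smul_smul₀ hρ0 (Φ w), h3, smul_neg, smul_smul, neg_smul, mul_comm]
  obtain ⟨z, rfl⟩ := (LinearEquiv.ofInjectiveEndo αv hαvi).surjective w
  rw [show (LinearEquiv.ofInjectiveEndo αv hαvi) z = αv z from rfl] at hw hΦw
  rw [hΦα] at hΦw
  have hu'' : u - τ ^ q • v ≠ 0 := fun h0 => one_ne_zero
    (hindep (-(τ ^ q)) 1 (by rw [← h0]; module)).2
  have hcv : cv q (u - τ ^ q • v) = cv q u - τ • cv q v := by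
    funext p
    simp [cv, hF.sub_pow, mul_pow, hF.pow_pow]
  have hev : ∀ X : Fin m → κ → F,
      ev (cv q u - τ • cv q v) X = ev (cv q u) X - τ • ev (cv q v) X :=
    fun X => by simp [sub_smul, mul_smul, Finset.smul_sum]
  have hzero : evh q (u - τ ^ q • v) (x (ins v₀ z)) = 0 := by
    rw [evh, hcv, hev]
    exact sub_eq_zero.2 hΦw
  have hiso'' : herm q (u - τ ^ q • v) (u - τ ^ q • v) = 0 := by
    simp [herm_sub_left, hF.herm_sub_right, herm_smul_left, herm_smul_right, hu, hv, huv, hvu]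
  exact hw (by rw [hinj _ hu'' hiso'' z hzero, map_zero])

/-- The theorem. -/
theorem split_le (hm3 : 3 ≤ m) (hex : ¬ (q = 2 ∧ m = 3)) (hG : UGrp q G) (hP : NoPar q G)
    (hB1 : ∀ g ∈ G, ∀ v v' : Fin m → F, v ≠ 0 → herm q v v = 0 → v' ≠ 0 → herm q v' v' = 0 →
      (∀ w, g (ins v w) ∈ line (κ → F) v') → g ∈ N)
    (hB2 : ∀ x ∈ G, x ∉ N → ∀ v : Fin m → F, v ≠ 0 → herm q v v = 0 →
      ∃ c : F, ∃ t ∈ G, (∀ X, t X = X + c • ins v (evh q v X)) ∧ x⁻¹ * t * x ∉ N) : G ≤ N := by
  classical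
  haveI : Finite F := hF.1
  by_contra hne
  obtain ⟨g₀, hg₀, hg₀N⟩ := Set.not_subset.1 hne
  obtain ⟨c, hc0, hc⟩ := hF.exists_skew
  have mk : ∀ x ∈ G, x ∉ N → ∀ v₀ : Fin m → F, v₀ ≠ 0 → herm q v₀ v₀ = 0 →
      ∃ a, Sel q G N x a v₀ c := by
    intro x hx hxN v₀ hv0 hv
    obtain ⟨t, htG, ht⟩ := mem_transv hF hG hv hc
    refine ⟨x * t * x⁻¹, hm3, hex, hG, hP, hB1, hx, hxN, hv0, hv, hc0,
      G.mul_mem (G.mul_mem hx htG) (G.inv_mem hx), fun X => ?_⟩
    rw [LinearEquiv.mul_apply, LinearEquiv.mul_apply, ht, map_add, self_inv_apply, root_apply,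
      LinearMap.smul_apply, LinearMap.id_apply, map_smul]
  by_cases hfull : Full q G N
  · obtain ⟨v₀, hv0, hv⟩ := exists_isotropic hF (n := m) (by omega)
    obtain ⟨a, S⟩ := mk g₀ hg₀ hg₀N v₀ hv0 hv
    exact S.false_full hF hfull
  simp only [Full] at hfull
  push Not at hfull
  obtain ⟨g, hg, hgN, v, u, hv0, hv, hu0, hu, w, hw, hw0⟩ := hfull
  let dim : ((Fin m → κ → F) ≃ₗ[F] (Fin m → κ → F)) → (Fin m → F) → (Fin m → F) → ℕ :=
    fun g v u => finrank F (LinearMap.ker (evh q u ∘ₗ g.toLinearMap ∘ₗ ins (W := κ → F) v))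
  let P : ℕ → Prop := fun d => ∃ g ∈ G, g ∉ N ∧ ∃ v u : Fin m → F,
    v ≠ 0 ∧ herm q v v = 0 ∧ u ≠ 0 ∧ herm q u u = 0 ∧ dim g v u = d
  have hd₀ : P (dim g v u) := ⟨g, hg, hgN, v, u, hv0, hv, hu0, hu, rfl⟩
  have hbound : ∀ d, P d → d ≤ finrank F (κ → F) := by
    rintro d ⟨g, -, -, v, u, -, -, -, -, rfl⟩
    exact Submodule.finrank_le _
  set d := Nat.findGreatest P (finrank F (κ → F))
  have hd : P d := Nat.findGreatest_spec (hbound _ hd₀) hd₀
  have hmax : ∀ d', P d' → d' ≤ d := fun d' h => Nat.le_findGreatest (hbound _ h) h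
  have hdpos : 0 < d := by
    refine lt_of_lt_of_le ?_ (hmax _ hd₀)
    exact Module.finrank_pos_iff_exists_ne_zero.2
      ⟨⟨w, hw⟩, fun h0 => hw0 (congrArg Subtype.val h0)⟩
  obtain ⟨x, hx, hxN, v₀, u₀, hv₀, hv₀i, hu₀, hu₀i, hdim⟩ := hd
  obtain ⟨c', t, htG, ht, htN⟩ := hB2 x hx hxN u₀ hu₀ hu₀i
  set x' := x⁻¹ * t * x with hx'
  have hx'G : x' ∈ G := G.mul_mem (G.mul_mem (G.inv_mem hx) htG) hx
  have hfix : ∀ w, evh q u₀ (x (ins v₀ w)) = 0 → x' (ins v₀ w) = ins v₀ w := fun w hw => by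
    rw [hx', LinearEquiv.mul_apply, LinearEquiv.mul_apply, ht, hw, map_zero, smul_zero, add_zero,
      inv_apply_self]
  set k₀ := LinearMap.ker (evh q u₀ ∘ₗ x.toLinearMap ∘ₗ ins (W := κ → F) v₀) with hk₀
  obtain ⟨a, S⟩ := mk x' hx'G htN v₀ hv₀ hv₀i
  obtain ⟨⟨w₁, hw₁⟩, hw₁0⟩ := Module.finrank_pos_iff_exists_ne_zero.1
    (show 0 < finrank F k₀ from hdpos.trans_eq hdim.symm)
  refine S.false_selected hF (fun u hu0 hu hvu X hX h0 => ?_) (w := w₁)
    (fun h => hw₁0 (Subtype.ext h)) ⟨ins v₀ w₁, ⟨w₁, rfl⟩, hfix w₁ hw₁⟩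
  obtain ⟨_, ⟨w', rfl⟩, rfl⟩ := hX
  have hle : k₀ ≤ LinearMap.ker (evh q u ∘ₗ x'.toLinearMap ∘ₗ ins (W := κ → F) v₀) := fun z hz => by
    simp only [LinearMap.mem_ker, LinearMap.comp_apply, LinearEquiv.coe_coe, hk₀] at hz ⊢
    rw [hfix z hz, evh_ins, hvu, zero_smul]
  have heq := Submodule.eq_of_le_of_finrank_le hle
    ((hmax _ ⟨x', hx'G, htN, v₀, u, hv₀, hv₀i, hu0, hu, rfl⟩).trans hdim.ge)
  have hmem : w' ∈ k₀ := by rw [heq]; exact h0
  rw [LinearEquiv.coe_coe, hfix w' hmem]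
  exact ⟨w', rfl⟩

end Cfsg.Agent.MaxSub.TensorPowU
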