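import Cfsg.Agent.MaxSub.TensorPowU.Full

/-!
A group of isometries containing the special unitary group of every factor (and the permutations,
for at least three factors) is monomial or contains all transvections.
-/

set_option autoImplicit false
set_option linter.unusedSectionVars false
set_option linter.style.haveILetI false
set_option maxHeartbeats 1000000

namespace Cfsg.Agent.MaxSub.TensorPowU

open Module Matrix Cfsg.Agent.Classical.U Cfsg.Agent.MaxSub.TensorPow Cfsg.Agent.GeoClasses
open Cfsg.Agent.MaxSub.TensorU (exists_isotropic eq_smul_of_isotropic)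
open Cfsg.Agent.MaxSub.ExtField (Mem inv_apply_self self_inv_apply)

universe u

variable {F : Type u} [Field F] [Finite F] {m t q : ℕ}

lemma allT_of_conj {σ : Equiv.Perm (Fin t)} {H : Subgroup (Ten F m t ≃ₗ[F] Ten F m t)}
    (h : AllT q (conjG σ H)) : AllT q H := fun M hM c hc => by
  obtain ⟨g, ⟨f, hf, rfl⟩, hg⟩ := h (perm F m σ M) (by rw [hm_perm, hM]) c hc
  refine ⟨f, hf, fun X => (perm F m σ).injective ?_⟩
  have h1 := hg (perm F m σ X)
  rw [MulEquiv.coe_toMonoidHom, MulAut.conj_apply, LinearEquiv.mul_apply, LinearEquiv.mul_apply,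
    inv_apply_self, hm_perm] at h1
  rw [h1, map_add, map_smul]

lemma allT_of_cent {G : Subgroup (Ten F m (t + 1) ≃ₗ[F] Ten F m (t + 1))}
    (h : ∀ M, hV q M M = 0 → IsCent q (G.map (toS F m t).toMonoidHom) M) : AllT q G :=
  fun M hM c hc => by
    obtain ⟨_, ⟨g, hg, rfl⟩, hx⟩ := h (slice F m t M) (by rw [hV_slice, hM]) c hc
    refine ⟨g, hg, fun X => (slice F m t).injective ?_⟩
    have h1 := hx (slice F m t X)
    rw [MulEquiv.coe_toMonoidHom, toS_apply, LinearEquiv.symm_apply_apply] at h1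
    rw [h1, LinearMap.smul_apply, rkh_apply, hV_slice, map_add, map_smul, smul_smul]

variable (hF : SqField F q)
include hF

lemma tailBase_toS {G : Subgroup (Ten F m (t + 1) ≃ₗ[F] Ten F m (t + 1))} (hB : BaseU q G) :
    TailBase q (G.map (toS F m t).toMonoidHom) := fun j g hg => by
  obtain ⟨f, hf, hfx⟩ := hB j.succ g hg
  refine ⟨_, Subgroup.mem_map_of_mem _ hf, fun a us => ?_⟩
  rw [MulEquiv.coe_toMonoidHom, toS_apply, slice_symm_ins_pvec, hfx, slice_pvec,
    Function.update_of_ne (Fin.succ_ne_zero j).symm, Fin.cons_zero, Fin.cons_succ]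
  congr 2
  funext i
  rcases eq_or_ne i j with rfl | hi
  · simp
  · simp [Function.update_of_ne hi, Function.update_of_ne ((Fin.succ_injective t).ne hi)]

/-- Parameters are carried along by tensor products of similitudes. -/
lemma IsP.transport (hm3 : 3 ≤ m) (hex : ¬ (q = 2 ∧ m = 3)) {κ : Type} [Fintype κ] [DecidableEq κ]
    [Nonempty κ] {G G' : Subgroup ((Fin m → κ → F) ≃ₗ[F] (Fin m → κ → F))} (hG' : UGrp q G')
    {h : (Fin m → κ → F) ≃ₗ[F] (Fin m → κ → F)} (hh : ∀ f ∈ G, h * f * h⁻¹ ∈ G')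
    (hiso : ∀ X Y, hV q (h X) (h Y) = hV q X Y) {B : Matrix (Fin m) (Fin m) F}
    {k : (κ → F) ≃ₗ[F] (κ → F)} (hBk : ∀ u w, h (ins u w) = ins (B *ᵥ u) (k w)) {l : F}
    (hl : ∀ x y, hm q (k x) (k y) = l * hm q x y) (hlq : l ^ q = l) (hl0 : l ≠ 0)
    {Y : (κ → F) →ₗ[F] (κ → F)} (hY : IsP q G Y) :
    IsP q G' (l • (k.toLinearMap ∘ₗ Y ∘ₗ k.symm.toLinearMap)) := by
  classical
  obtain ⟨v, hv0, hv⟩ := exists_isotropic hF (n := m) (by omega)
  obtain ⟨z⟩ := (inferInstance : Nonempty κ)
  set e : κ → F := Pi.single z 1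
  have he : hm q e e = 1 := by
    rw [hm, Finset.sum_eq_single z (fun j _ hj => by simp [e, Pi.single_eq_of_ne hj]) (by simp)]
    simp [e]
  have hBv : herm q (B *ᵥ v) (B *ᵥ v) = 0 := by
    have h1 := hiso (ins v e) (ins v e)
    rw [hBk, hV_ins_ins hF, hV_ins_ins hF, hl, he, hv, zero_mul, mul_one] at h1
    exact (mul_eq_zero.1 h1).resolve_right hl0
  have hBv0 : B *ᵥ v ≠ 0 := fun h0 => by
    have h1 : h (ins v e) = 0 := by rw [hBk, h0, ins_zero]
    have h2 : e = 0 := ins_injective hv0 ((h.map_eq_zero_iff.1 h1).trans (map_zero _).symm)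
    rw [h2, hm_zero_left] at he
    exact zero_ne_one he
  refine isP_of_one hF hG' hm3 hex hBv0 hBv ((mem_conj_of_conj (hY v hv) hh).congr fun X => ?_)
  obtain ⟨X, rfl⟩ := h.surjective X
  simp only [LinearMap.comp_apply, LinearEquiv.coe_coe, LinearEquiv.symm_apply_apply]
  exact root_conj hF hiso hBk hl hlq hl0 v Y X

/-- A non-scalar skew map has a non-zero value at some isotropic vector. -/
lemma exists_value (hm3 : 3 ≤ m) (Y : Ten F m (t + 1) →ₗ[F] Ten F m (t + 1))
    (hns : ∀ c : F, Y ≠ c • LinearMap.id) : ∃ z, hm q z z = 0 ∧ hm q (Y z) z ≠ 0 := by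
  classical
  by_contra hcon
  push Not at hcon
  let e := Fintype.equivFin (Fin (t + 1) → Fin m)
  let L : (Fin (Fintype.card (Fin (t + 1) → Fin m)) → F) ≃ₗ[F] Ten F m (t + 1) :=
    LinearEquiv.funCongrLeft F F e
  have hh : ∀ a b, hm q (L a) (L b) = herm q a b := fun a b => by
    rw [hm, herm_def]
    exact e.sum_comp (fun i => a i * b i ^ q)
  obtain ⟨k, hk⟩ := eq_smul_of_isotropic hF (by
    simp only [Fintype.card_pi, Fintype.card_fin, Finset.prod_const, Finset.card_univ]
    calc 2 ≤ m := by omega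
      _ = m ^ 1 := (pow_one m).symm
      _ ≤ m ^ (t + 1) := Nat.pow_le_pow_right (by omega) (by omega))
    (L.symm.toLinearMap ∘ₗ Y ∘ₗ L.toLinearMap) fun u hu => by
      rw [← hh, LinearMap.comp_apply, LinearMap.comp_apply, LinearEquiv.coe_coe,
        LinearEquiv.coe_coe, LinearEquiv.apply_symm_apply]
      exact hcon _ (by rw [hh, hu])
  refine hns k (LinearMap.ext fun X => ?_)
  have h1 := congrArg L (LinearMap.congr_fun hk (L.symm X))
  simpa using h1

/-- All centres from the transvections of the last factors and one parameter. -/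
theorem allT_of_tail (hm3 : 3 ≤ m) (hex : ¬ (q = 2 ∧ m = 3))
    {G : Subgroup (Ten F m (t + 1 + 1) ≃ₗ[F] Ten F m (t + 1 + 1))} (hB : BaseU q G)
    (hI : IsoT q G) (hT : AllT q (tailU q G)) {Y : Ten F m (t + 1) →ₗ[F] Ten F m (t + 1)}
    (hY : IsP q (G.map (toS F m (t + 1)).toMonoidHom) Y) (hns : ∀ c : F, Y ≠ c • LinearMap.id) :
    AllT q G := by
  classical
  haveI : Nonempty (Fin (t + 1) → Fin m) := ⟨fun _ => ⟨0, by omega⟩⟩
  set G0 := G.map (toS F m (t + 1)).toMonoidHom
  have hG : UGrp q G0 := ugrp_toS hB hI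
  obtain ⟨z, hz, hYz⟩ := exists_value hF hm3 Y hns
  obtain ⟨w, hw, hwz⟩ : ∃ w : Fin (t + 1) → Fin m → F, (∀ i, herm q (w i) (w i) = 0) ∧
      hm q (pvec w) z ≠ 0 := by
    by_contra hcon
    push Not at hcon
    have hz0 : z = 0 := eq_zero_of_hm hF _ fun X => by
      let L : Ten F m (t + 1) →ₗ[F] F :=
        { toFun := fun X => hm q X z
          map_add' := fun X X' => hm_add_left X X' z
          map_smul' := fun c X => hm_smul_left c X z }
      have := span_iso hF (by omega) (LinearMap.ker L) fun us hus => hcon us hus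
      exact (LinearMap.mem_ker.1 (this.ge (Submodule.mem_top (x := X))) :)
    exact hYz (by rw [hz0, hm_zero_right hF])
  set p := pvec w
  have hp : hm q p p = 0 := by
    rw [hm_pvec]
    exact Finset.prod_eq_zero (Finset.mem_univ 0) (hw 0)
  obtain ⟨s, hs0, hs⟩ := hF.exists_skew
  have hzp : hm q z p ≠ 0 := fun h0 => hwz (by rw [← hm_symm hF, h0, zero_pow hF.q_ne_zero])
  set μ := s / hm q z p with hμ
  have hμ0 : μ ≠ 0 := div_ne_zero hs0 hzp
  have hpz : μ ^ q * hm q p z = -s := by
    rw [hμ, div_pow, hm_symm hF, hs]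
    exact div_mul_cancel₀ _ hwz
  have hM : hm q (μ • z - p) (μ • z - p) = 0 := by
    rw [sub_eq_add_neg, ← neg_one_smul F p, hm_add_left, hm_add_right hF, hm_add_right hF,
      hm_smul_left, hm_smul_left, hm_smul_left, hm_smul_left, hm_smul_right, hm_smul_right,
      hm_smul_right, hm_smul_right, hz, hp, hF.neg_pow, one_pow, hpz, hμ]
    field_simp
    ring
  obtain ⟨g, hg, hgx⟩ := hT _ hM (-1 / s) (by rw [div_pow, hs, hF.neg_pow, one_pow]; ring)
  have hgp : g p = μ • z := by
    rw [hgx, sub_eq_add_neg (μ • z), ← neg_one_smul F p, hm_add_right hF, hm_smul_right,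
      hm_smul_right, hp, mul_zero, add_zero, hpz,
      show -1 / s * -s = (1 : F) by field_simp, one_smul]
    module
  obtain ⟨⟨f, hf, B, hfB⟩, hgiso⟩ := Subgroup.mem_inf.1 ((tailU q G).inv_mem hg)
  replace hgiso : ∀ x y, hm q (g⁻¹ x) (g⁻¹ y) = 1 * hm q x y := fun x y => by
    rw [one_mul]; exact hgiso x y
  have hfG := Subgroup.mem_map_of_mem (toS F m (t + 1)).toMonoidHom hf
  have hY' := hY.transport hF hm3 hex hG
    (fun e he => G0.mul_mem (G0.mul_mem hfG he) (G0.inv_mem hfG)) (hG.iso _ hfG) hfB hgiso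
    (one_pow q) one_ne_zero
  refine allT_of_cent fun M hM => cent_of_value hF hG (tailBase_toS hF hB) hm3 hex hY' hw ?_ hM
  rw [one_smul, LinearMap.comp_apply, LinearMap.comp_apply, LinearEquiv.coe_coe,
    LinearEquiv.coe_coe, show (g⁻¹).symm p = g p from rfl, hgp]
  have h1 : hm q (g⁻¹ (Y (μ • z))) p = hm q (Y (μ • z)) (μ • z) := by
    have h2 := hgiso (Y (μ • z)) (μ • z)
    rw [one_mul, ← hgp, inv_apply_self] at h2
    rw [← hgp]
    exact h2
  rw [h1, map_smul, hm_smul_left, hm_smul_right]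
  exact mul_ne_zero hμ0 (mul_ne_zero (pow_ne_zero _ hμ0) hYz)

/-- A parameter gives all transvections. -/
theorem allT_of_param (hm3 : 3 ≤ m) (hex : ¬ (q = 2 ∧ m = 3)) :
    ∀ t (H : Subgroup (Ten F m (t + 1) ≃ₗ[F] Ten F m (t + 1))), BaseU q H → IsoT q H →
      (3 ≤ t + 1 → Perms H) →
      (∃ σ, ¬ NoPar q ((conjG σ H).map (toS F m t).toMonoidHom)) → AllT q H := by
  classical
  intro t
  induction t with
  | zero =>
    rintro H - - - ⟨σ, hσ⟩
    exact absurd (fun v Y _ _ _ => scalar_of_commute hF hm3 Y fun j => j.elim0) hσ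
  | succ t ih =>
    rintro H hB hI hPerm ⟨σ, hσ⟩
    refine allT_of_conj (σ := σ) ?_
    have hP1 : 3 ≤ t + 1 + 1 → Perms (conjG σ H) := fun h => perms_conjG (hPerm h) σ
    have hB1 := baseU_conj hB σ
    have hI1 := isoT_conj hI σ
    set G1 := conjG σ H
    haveI : Nonempty (Fin (t + 1) → Fin m) := ⟨fun _ => ⟨0, by omega⟩⟩
    simp only [NoPar] at hσ
    push Not at hσ
    obtain ⟨v, Y, hv0, hv, hmem, hns⟩ := hσ
    have hG1 := ugrp_toS hB1 hI1
    have hY := isP_of_one hF hG1 hm3 hex hv0 hv hmem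
    rcases cent_or_commute hF hG1 (tailBase_toS hF hB1) hm3 hex hY hns with
      hc | ⟨j, Z, hZ, hZns, hZc⟩
    · exact allT_of_cent hc
    -- move `j` to the first of the last factors
    set σ₁ := Equiv.Perm.decomposeFin.symm ((0 : Fin (t + 1 + 1)), Equiv.swap (0 : Fin (t + 1)) j)
      with hσ₁
    refine allT_of_conj (σ := σ₁) ?_
    have hP2 : 3 ≤ t + 1 + 1 → Perms (conjG σ₁ G1) := fun h => perms_conjG (hP1 h) σ₁
    have hB2 := baseU_conj hB1 σ₁
    have hI2 := isoT_conj hI1 σ₁
    set G2 := conjG σ₁ G1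
    set P := perm F m (Equiv.swap (0 : Fin (t + 1)) j) with hP
    have hG2 := ugrp_toS hB2 hI2
    have hiso₁ : ∀ X Y, hV q (toS F m (t + 1) (perm F m σ₁) X)
        (toS F m (t + 1) (perm F m σ₁) Y) = hV q X Y := fun X Y => by
      rw [toS_apply, toS_apply, hV_slice, hm_perm, hm_slice]
    have hform₁ : ∀ u w, toS F m (t + 1) (perm F m σ₁) (ins u w) =
        ins ((1 : Matrix (Fin m) (Fin m) F) *ᵥ u) (P w) := fun u w => by
      rw [Matrix.one_mulVec, hσ₁, toS_perm]
    have hZ₁ := hZ.transport hF hm3 hex hG2 (h := toS F m (t + 1) (perm F m σ₁)) (by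
      rintro _ ⟨f, hf, rfl⟩
      exact ⟨_, mem_conjG hf, by simp⟩) hiso₁ hform₁ (l := 1)
      (fun x y => by rw [one_mul]; exact hm_perm _ x y) (one_pow q) one_ne_zero
    rw [one_smul] at hZ₁
    set Z₁ := P.toLinearMap ∘ₗ Z ∘ₗ P.symm.toLinearMap with hZ₁def
    have hZ₁ns : ∀ c : F, Z₁ ≠ c • LinearMap.id := fun c hc => hZns c (LinearMap.ext fun X => by
      have h1 := LinearMap.congr_fun hc (P X)
      simp only [hZ₁def, LinearMap.comp_apply, LinearEquiv.coe_coe, LinearEquiv.symm_apply_apply,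
        LinearMap.smul_apply, LinearMap.id_apply, ← map_smul] at h1
      simpa using P.injective h1)
    have hPproj : ∀ (u : Fin m → F) X, P (proj q j u X) = proj q 0 u (P X) := fun u X => by
      refine LinearMap.congr_fun (ext_pvec (f := P.toLinearMap ∘ₗ proj q j u)
        (g := proj q 0 u ∘ₗ P.toLinearMap) fun us => ?_) X
      simp only [LinearMap.comp_apply, LinearEquiv.coe_coe, proj_pvec, map_smul, hP, perm_pvec,
        Equiv.symm_swap, Equiv.swap_apply_left]
      congr 2
      funext i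
      rcases eq_or_ne i 0 with rfl | hi
      · simp
      · rw [Function.update_of_ne hi]
        rcases eq_or_ne i j with rfl | hij
        · rw [Equiv.swap_apply_right, Function.update_of_ne (Ne.symm hi)]
        · rw [Equiv.swap_apply_of_ne_of_ne hi hij, Function.update_of_ne hij]
    have hZ₁c : ∀ u, herm q u u = 0 → ∀ X, Z₁ (proj q 0 u X) = proj q 0 u (Z₁ X) := fun u hu X => by
      obtain ⟨X, rfl⟩ := P.surjective X
      simp only [hZ₁def, ← hPproj, LinearMap.comp_apply, LinearEquiv.coe_coe,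
        LinearEquiv.symm_apply_apply, hZc u hu]
    -- `Z₁` acts on the last factors only
    set N := (slice F m t).toLinearMap ∘ₗ Z₁ ∘ₗ (slice F m t).symm.toLinearMap with hN
    have hNproj : ∀ (u : Fin m → F), herm q u u = 0 → ∀ (a : Fin m → F) p,
        herm q a u • N (ins u p) = ins u (evh q u (N (ins a p))) := fun u hu a p => by
      have e : ∀ X, slice F m t (proj q 0 u X) = ins u (evh q u (slice F m t X)) := fun X => by
        rw [Matrix.toLin'_apply, root_slice, root_apply, LinearMap.id_apply]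
      have e' : (slice F m t).symm (ins u (herm q a u • p)) =
          proj q 0 u ((slice F m t).symm (ins a p)) := by
        rw [LinearEquiv.symm_apply_eq, e, LinearEquiv.apply_symm_apply, evh_ins]
      rw [← map_smul, ← map_smul]
      simp only [hN, LinearMap.comp_apply, LinearEquiv.coe_coe]
      rw [e', hZ₁c u hu, e]
    obtain ⟨e₀, he₀0, -⟩ := exists_isotropic hF (n := m) (by omega)
    obtain ⟨φ, hφ⟩ := exists_dot_one he₀0
    set Z₂ : Ten F m t →ₗ[F] Ten F m t := ev (W := Ten F m t) φ ∘ₗ N ∘ₗ ins (W := Ten F m t) e₀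
      with hZ₂
    have hNins : ∀ (a : Fin m → F) (p : Ten F m t), N (ins a p) = ins a (Z₂ p) := by
      intro a p
      funext i z
      let S : (Fin m → F) →ₗ[F] (Fin m → F) :=
        { toFun := fun a i => N (ins a p) i z
          map_add' := fun a a' => by funext i; simp [ins_add, map_add]
          map_smul' := fun c a => by funext i; simp [ins_smul, map_smul] }
      obtain ⟨k, hk⟩ := eq_smul_of_isotropic hF (by omega) S fun u hu => by
        rcases eq_or_ne u 0 with rfl | hu0
        · rw [map_zero, herm_zero_left]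
        obtain ⟨y, -, hy, -⟩ := exists_dual hF hu0 hu
        have h1 := hNproj u hu y p
        rw [hy, one_smul] at h1
        have h2 : S u = evh q u (N (ins y p)) z • u := by
          funext i
          show N (ins u p) i z = _
          rw [h1, ins_apply]
          simp [mul_comm, -ev_apply]
        rw [h2, herm_smul_left, hu, mul_zero]
      have hS : ∀ a i, N (ins a p) i z = k * a i := fun a i => congrFun (LinearMap.congr_fun hk a) i
      have h3 : Z₂ p z = k := by
        rw [hZ₂, LinearMap.comp_apply, LinearMap.comp_apply, ev_apply, Finset.sum_apply]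
        simp only [Pi.smul_apply, smul_eq_mul, hS]
        calc ∑ i, φ i * (k * e₀ i) = k * (φ ⬝ᵥ e₀) := by
              rw [dotProduct, Finset.mul_sum]; exact Finset.sum_congr rfl fun i _ => by ring
          _ = k := by rw [hφ, mul_one]
      rw [hS, ins_apply, Pi.smul_apply, h3, smul_eq_mul, mul_comm]
    have hZ₁eq : ∀ (a : Fin m → F) (p : Ten F m t), Z₁ ((slice F m t).symm (ins a p)) = (slice F m t).symm (ins a (Z₂ p)) :=
      fun a p => by
        rw [← hNins, hN]
        simp
    have hZ₂ns : ∀ c : F, Z₂ ≠ c • LinearMap.id := fun c hc => hZ₁ns c (ext_pvec fun us => by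
      rw [show pvec us = (slice F m t).symm (ins (us 0) (pvec fun i => us i.succ)) by
        rw [← slice_pvec, LinearEquiv.symm_apply_apply], hZ₁eq, hc, LinearMap.smul_apply,
        LinearMap.smul_apply, LinearMap.id_apply, LinearMap.id_apply, map_smul, map_smul])
    have ht : 1 ≤ t := by
      rcases Nat.eq_zero_or_pos t with rfl | h
      · obtain ⟨c, hc⟩ := scalar_of_commute hF hm3 Z₂ fun j => j.elim0
        exact absurd hc (hZ₂ns c)
      · exact h
    -- swap the first two factors
    set τ : Equiv.Perm (Fin (t + 1 + 1)) := Equiv.swap 0 1 with hτ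
    refine allT_of_conj (σ := τ) ?_
    have hP3 : Perms (conjG τ G2) := perms_conjG (hP2 (by omega)) τ
    have hB3 := baseU_conj hB2 τ
    have hI3 := isoT_conj hI2 τ
    set G3 := conjG τ G2
    have hG3 := ugrp_toS hB3 hI3
    have hswap : ∀ (a b : Fin m → F) (p : Ten F m t),
        toS F m (t + 1) (perm F m τ) (ins a ((slice F m t).symm (ins b p))) =
          ins b ((slice F m t).symm (ins a p)) := fun a b p => by
      refine LinearMap.congr_fun (ext_pvec
        (f := (toS F m (t + 1) (perm F m τ)).toLinearMap ∘ₗ ins a ∘ₗ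
          (slice F m t).symm.toLinearMap ∘ₗ ins b)
        (g := ins b ∘ₗ (slice F m t).symm.toLinearMap ∘ₗ ins a) fun us => ?_) p
      simp only [LinearMap.comp_apply, LinearEquiv.coe_coe, toS_apply, slice_symm_ins_pvec,
        perm_pvec, slice_pvec, hτ, Equiv.symm_swap, Equiv.swap_apply_left]
      rw [show (1 : Fin (t + 1 + 1)) = Fin.succ 0 from rfl, Fin.cons_succ, Fin.cons_zero]
      congr 2
      funext i
      refine Fin.cases ?_ (fun i => ?_) i
      · simp [Equiv.swap_apply_right]
      · rw [Equiv.swap_apply_of_ne_of_ne (Fin.succ_ne_zero _)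
          ((Fin.succ_injective _).ne (Fin.succ_ne_zero i)), Fin.cons_succ, Fin.cons_succ,
          Fin.cons_succ]
    obtain ⟨v₂, hv₂0, hv₂⟩ := exists_isotropic hF (n := m) (by omega)
    obtain ⟨_, ⟨f, hf, rfl⟩, hfx⟩ := hZ₁ v₂ hv₂
    simp only [MulEquiv.coe_toMonoidHom] at hfx
    set E := root v₂ (cv q v₂) Z₂ with hE
    have hEE : ∀ X, E (E X) = 0 := fun X => by
      rw [hE, root_apply, root_apply, ev_ins, cv_dot, hv₂, zero_smul, map_zero, map_zero]
    let ρ : (Fin m → Ten F m t) ≃ₗ[F] (Fin m → Ten F m t) :=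
      LinearEquiv.ofLinearMap (LinearMap.id + E) (LinearMap.id - E)
        (LinearMap.ext fun X => by simp [hEE]) (LinearMap.ext fun X => by simp [hEE])
    set κ := (toS F m t).symm ρ with hκ
    have hκx : ∀ Z, toS F m t κ Z = Z + E Z := fun Z => by
      rw [hκ, MulEquiv.apply_symm_apply]
      simp [ρ]
    have hg3 : ∀ a W, toS F m (t + 1) (perm F m τ * f * (perm F m τ)⁻¹) (ins a W) =
        ins ((1 : Matrix (Fin m) (Fin m) F) *ᵥ a) (κ W) := fun a W => by
      rw [Matrix.one_mulVec]
      refine LinearMap.congr_fun (ext_pvec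
        (f := (toS F m (t + 1) (perm F m τ * f * (perm F m τ)⁻¹)).toLinearMap ∘ₗ ins a)
        (g := ins a ∘ₗ κ.toLinearMap) fun us => ?_) W
      rw [show pvec us = (slice F m t).symm (ins (us 0) (pvec fun i => us i.succ)) by
        rw [← slice_pvec, LinearEquiv.symm_apply_apply]]
      set b := us 0
      set p := pvec fun i => us i.succ
      have h1 := hκx (ins b p)
      rw [toS_apply, ← LinearEquiv.eq_symm_apply] at h1
      rw [LinearMap.comp_apply, LinearMap.comp_apply, LinearEquiv.coe_coe, LinearEquiv.coe_coe,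
        perm_inv, show τ.symm = τ from Equiv.symm_swap _ _, map_mul, map_mul,
        LinearEquiv.mul_apply, LinearEquiv.mul_apply, hswap, hfx, h1, hE, root_apply, root_apply,
        ev_ins, ev_ins, cv_dot, map_smul, hZ₁eq, map_add, hswap, map_smul, map_smul, hswap,
        map_smul, map_smul, map_add, map_add, map_smul, map_smul]
    have hκmem : κ ∈ tailU q G3 := by
      refine Subgroup.mem_inf.2 ⟨⟨_, mem_conjG hf, 1, hg3⟩, fun x y => ?_⟩
      set e : Fin m → F := Pi.single ⟨0, by omega⟩ 1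
      have h1 := hG3.iso _ (Subgroup.mem_map_of_mem _ (mem_conjG (σ := τ) hf)) (ins e x) (ins e y)
      rw [MulEquiv.coe_toMonoidHom, hg3, hg3, hV_ins_ins hF, hV_ins_ins hF, Matrix.one_mulVec,
        herm_single_self hF, one_mul, one_mul] at h1
      exact h1
    have hT3 : AllT q (tailU q G3) :=
      ih (tailU q G3) (baseU_tail hF hm3 hB3 hI3) (fun g hg => (Subgroup.mem_inf.1 hg).2)
        (fun _ => perms_tailU hF hm3 (by omega) hI3 hP3) ⟨1, fun hnp => by
          rw [conjG_one] at hnp
          obtain ⟨c, hc⟩ := hnp v₂ Z₂ hv₂0 hv₂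
            ⟨_, Subgroup.mem_map_of_mem _ hκmem, fun X => hκx X⟩
          exact hZ₂ns c hc⟩
    -- a parameter of the first factor
    obtain ⟨Q, hQ, A, hA⟩ := hP2 (by omega) τ
    have hD : Wit 1 (fun i => (1 : Matrix (Fin m) (Fin m) F) * A (τ.symm i))
        (perm F m τ * Q) := by
      have h1 := (wit_perm (F := F) (m := m) τ).mul hA
      rwa [show τ * τ.symm = 1 from Equiv.ext fun x => τ.apply_symm_apply x] at h1
    obtain ⟨k, -, hform⟩ := isT_of_wit (by omega) hD rfl
    have hisoD : ∀ X Y, hV q (toS F m (t + 1) (perm F m τ * Q) X)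
        (toS F m (t + 1) (perm F m τ * Q) Y) = hV q X Y := fun X Y => by
      rw [toS_apply, toS_apply, hV_slice, LinearEquiv.mul_apply, LinearEquiv.mul_apply, hm_perm,
        hI2 Q hQ, hm_slice]
    set B := (1 : Matrix (Fin m) (Fin m) F) * A (τ.symm 0)
    set e : Fin m → F := Pi.single ⟨0, by omega⟩ 1
    set μ := herm q (B *ᵥ e) (B *ᵥ e)
    have h1 : ∀ w w', μ * hm q (k w) (k w') = hm q w w' := fun w w' => by
      have := hisoD (ins e w) (ins e w')
      rwa [hform, hform, hV_ins_ins hF, hV_ins_ins hF, herm_single_self hF, one_mul] at this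
    obtain ⟨z⟩ := (inferInstance : Nonempty (Fin (t + 1) → Fin m))
    have hμ0 : μ ≠ 0 := fun h0 => by
      have h2 := h1 (Pi.single z 1) (Pi.single z 1)
      rw [h0, zero_mul, hm_single z hF.q_ne_zero] at h2
      exact zero_ne_one h2
    have hYD := hZ₁.transport hF hm3 hex hG3 (h := toS F m (t + 1) (perm F m τ * Q)) (by
      rintro _ ⟨f, hf, rfl⟩
      refine ⟨_, mem_conjG (G2.mul_mem (G2.mul_mem hQ hf) (G2.inv_mem hQ)), ?_⟩
      simp only [MulEquiv.coe_toMonoidHom, map_mul, map_inv, _root_.mul_inv_rev]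
      group) hisoD hform (l := μ⁻¹)
      (fun x y => by rw [← h1 x y, inv_mul_cancel_left₀ hμ0])
      (by rw [inv_pow, hF.herm_symm]) (inv_ne_zero hμ0)
    refine allT_of_tail hF hm3 hex hB3 hI3 hT3 hYD fun c hc => ?_
    refine hZ₁ns (μ * c) (LinearMap.ext fun X => k.injective ?_)
    have h2 := LinearMap.congr_fun hc (k X)
    simp only [LinearMap.smul_apply, LinearMap.comp_apply, LinearEquiv.coe_coe,
      LinearEquiv.symm_apply_apply, LinearMap.id_apply] at h2
    rw [LinearMap.smul_apply, LinearMap.id_apply, map_smul, mul_smul, ← h2,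
      smul_inv_smul₀ hμ0]

/-- The dichotomy. -/
theorem monomial_or_allT (hm3 : 3 ≤ m) (hex : ¬ (q = 2 ∧ m = 3))
    (G : Subgroup (Ten F m (t + 1) ≃ₗ[F] Ten F m (t + 1))) (hB : BaseU q G) (hI : IsoT q G)
    (hP : 3 ≤ t + 1 → Perms G) : G ≤ monomial F m (t + 1) ∨ AllT q G :=
  (monomial_or_param hF hm3 hex t G hB hI hP).imp_right
    fun h => allT_of_param hF hm3 hex t G hB hI hP h

end Cfsg.Agent.MaxSub.TensorPowU
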